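import Cfsg.Agent.Lib.GG.Def

/-!
# Gagola groups (S4841): odd p, arithmetic
-/

set_option autoImplicit false

namespace Cfsg.Lib.GG

open Subgroup
open scoped MatrixGroups

theorem geo {p m n N : ℕ} (hp : p.Prime) (hm : 1 ≤ m) (hN : 2 ≤ N)
    (hv : p ^ n + N = N * p ^ m + 1) : ∃ k T, n = m * (k + 2) ∧ N = 1 + p ^ m * (1 + p ^ m * T) ∧
      (k = 0 → T = 0) ∧ (k = 1 → T = 1) := by
  obtain ⟨x, hx⟩ : ∃ x, p ^ m = x + 1 := ⟨p ^ m - 1, by have := pow_pos hp.pos m; omega⟩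
  have h1 : p ^ n = N * x + 1 := by rw [hx] at hv; linarith
  have hx0 : 0 < x := by have := Nat.one_lt_pow (n := m) (by omega) hp.one_lt; omega
  have h2 : p ^ n = (x + 1) ^ (n / m) * p ^ (n % m) := by
    rw [← hx, ← pow_mul, ← pow_add, Nat.div_add_mod]
  have h3 := geom_sum_mul_add x (n / m)
  set S := ∑ i ∈ Finset.range (n / m), (x + 1) ^ i with hS
  have h4 : p ^ (n % m) < x + 1 := hx ▸ Nat.pow_lt_pow_right hp.one_lt (Nat.mod_lt _ (by omega))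
  have h5 : n % m = 0 := by
    obtain ⟨y, hy⟩ : ∃ y, p ^ (n % m) = y + 1 :=
      ⟨p ^ (n % m) - 1, by have := pow_pos hp.pos (n % m); omega⟩
    have h6 : x ∣ y := by
      rw [← h3, hy, h1] at h2
      exact (Nat.dvd_add_right (dvd_mul_left x (S * (y + 1)))).1 ⟨N, by linarith⟩
    have h7 := Nat.eq_zero_of_dvd_of_lt h6 (by omega)
    rw [h7, zero_add, pow_eq_one_iff] at hy
    exact hy.resolve_left hp.ne_one
  rw [h5, pow_zero, mul_one, ← h3, h1] at h2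
  have h8 : N = S := Nat.eq_of_mul_eq_mul_right hx0 (by omega)
  have h9 : n = m * (n / m) := by have := Nat.div_add_mod n m; omega
  generalize n / m = k at *
  rcases k with _ | _ | k
  · simp [hS] at h8; omega
  · simp [hS] at h8; omega
  refine ⟨k, ∑ i ∈ Finset.range k, (x + 1) ^ i, h9, ?_, fun e => by simp [e], fun e => by simp [e]⟩
  rw [h8, hS, hx, Finset.sum_range_succ', Finset.sum_range_succ']
  simp only [pow_succ, ← Finset.sum_mul]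
  ring

theorem three_cases {m n k T c : ℕ} (hm : 1 ≤ m) (hn : n = m * (k + 2)) (h0 : k = 0 → T = 0)
    (h1 : k = 1 → T = 1) (hle : 3 ^ n ≤ (3 ^ m) ^ 3) (hpc : ¬ 3 ∣ c) (he : 2 ∣ c)
    (hd : 2 * c ∣ 3 ^ m - 1) (h : c ∣ 2 * (3 ^ m * (1 + 3 ^ m * T))) :
    (c = 2 ∨ c = 4) ∧ (T = 0 ∧ 3 ^ n = (3 ^ m) ^ 2 ∨ T = 1 ∧ 3 ^ n = (3 ^ m) ^ 3) := by
  rw [← pow_mul, Nat.pow_le_pow_iff_right (by norm_num), hn] at hle
  have hk : k = 0 ∨ k = 1 := by
    have := Nat.le_of_mul_le_mul_left hle hm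
    omega
  have hT : T = 0 ∧ 3 ^ n = (3 ^ m) ^ 2 ∨ T = 1 ∧ 3 ^ n = (3 ^ m) ^ 3 := by
    rcases hk with rfl | rfl
    · exact Or.inl ⟨h0 rfl, by rw [hn, ← pow_mul]⟩
    · exact Or.inr ⟨h1 rfl, by rw [hn, ← pow_mul]⟩
  refine ⟨?_, hT⟩
  have hc : c.Coprime (3 ^ m) := ((Nat.prime_three.coprime_iff_not_dvd.2 hpc).symm).pow_right m
  rw [mul_left_comm] at h
  have h2 := hc.dvd_of_dvd_mul_left h
  obtain ⟨s, hs⟩ := hd
  have h3 : 3 ^ m = 1 + 2 * c * s := by have := pow_pos (show 0 < 3 by norm_num) m; omega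
  have h4 : c ∣ 4 := by
    rcases hT with ⟨rfl, -⟩ | ⟨rfl, -⟩
    · exact h2.trans (by norm_num)
    · rw [h3] at h2
      exact (Nat.dvd_add_left (dvd_mul_right c (4 * s))).1 (by convert h2 using 1; ring)
  have := Nat.le_of_dvd (by norm_num) h4
  interval_cases c <;> omega

theorem m_one {p m T a c : ℕ} (hp : p.Prime) (hm : 1 ≤ m) (ha : ¬ p ∣ a) (hc : ¬ p ∣ c)
    (h : 2 * (p ^ m * (1 + p ^ m * T)) = a * (p * c)) : m = 1 ∧ 2 * (1 + p * T) = a * c := by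
  obtain ⟨m, rfl⟩ : ∃ m', m = m' + 1 := ⟨m - 1, by omega⟩
  have h1 : 2 * (p ^ m * (1 + p ^ (m + 1) * T)) = a * c :=
    Nat.eq_of_mul_eq_mul_left hp.pos (by rw [pow_succ] at h ⊢; linarith)
  rcases m with _ | m
  · exact ⟨rfl, by simpa using h1⟩
  · exact absurd ((hp.dvd_mul).1 (h1 ▸ ((dvd_pow_self p (by omega)).mul_right _).mul_left 2))
      (not_or.2 ⟨ha, hc⟩)

/-- `u = p ^ m`, `u - 1 ∣ p ^ n - 1` gives `n = m k`, `N = 1 + u + ⋯ + u ^ (k-1) = 1 + u M` with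
`M ≡ 1 mod u`, `2 ≤ k ≤ p`; `2 u M = (q - 2) (q + 1) = (p c - 3) p c`, `c` even.  `p ≠ 3`: `m = 1`,
`p ∣ 3 c + 2 < 2 p` so `p = 3 c + 2` is even.  `p = 3`: `M = 1` or `1 + u`, `c ∣ 2 M` and `2 c ∣ u - 1`
give `c ∣ 4`; `c = 2`: `u M = 9`; `c = 4`: `u M = 54` impossible. -/
theorem arith_plus {p q c m n N : ℕ} (hp : p.Prime) (h2 : p ≠ 2) (hq : Odd q) (h4 : 4 ≤ q)
    (hc : q + 1 = p * c) (hpc : ¬ p ∣ c) (hm : 1 ≤ m) (hN : 2 * N = q * (q - 1))
    (hv : p ^ n + N = N * p ^ m + 1) (hle : p ^ n ≤ (p ^ m) ^ p) (hd : 2 * c ∣ p ^ m - 1) :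
    p = 3 ∧ q = 5 ∧ p ^ n = 81 := by
  obtain ⟨a, rfl⟩ : ∃ a, q = a + 2 := ⟨q - 2, by omega⟩
  have hN' : 2 * N = (a + 2) * (a + 1) := hN
  obtain ⟨k, T, hn, hT, h0, h1⟩ := geo hp hm (by nlinarith) hv
  have ho := Nat.odd_iff.1 (hp.odd_of_ne_two h2)
  have he : 2 ∣ c := ((Nat.prime_two.dvd_mul).1
    (show 2 ∣ p * c by obtain ⟨b, hb⟩ := hq; omega)).resolve_left (by omega)
  have h : 2 * (p ^ m * (1 + p ^ m * T)) = a * (p * c) := by rw [← hc]; nlinarith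
  by_cases h3 : p = 3
  · subst h3
    obtain ⟨hc', hT'⟩ := three_cases hm hn h0 h1 hle hpc he hd (h ▸ (dvd_mul_left c 3).mul_left a)
    have h5 : ¬ 2 ∣ 3 ^ m := fun e => by simpa using Nat.prime_two.dvd_of_dvd_pow e
    generalize 3 ^ m = u at *
    obtain ⟨rfl, rfl⟩ | ⟨rfl, rfl⟩ : c = 2 ∧ a = 3 ∨ c = 4 ∧ a = 9 := by omega
    all_goals
      have h6 : u ≤ 54 := by nlinarith [Nat.zero_le (u * (u * T))]
      rcases hT' with ⟨rfl, e⟩ | ⟨rfl, e⟩ <;> interval_cases u <;> simp_all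
  exfalso
  have ha : ¬ p ∣ a := fun e => h3 ((Nat.prime_dvd_prime_iff_eq hp Nat.prime_three).1
    ((Nat.dvd_add_right e).1 ⟨c, by omega⟩))
  obtain ⟨rfl, h4⟩ := m_one hp hm ha hpc h
  have h5 := Nat.le_of_dvd (by have := hp.two_le; simp; omega) hd
  rw [pow_one] at h5
  obtain ⟨j, hj⟩ : p ∣ 3 * c + 2 := (Nat.dvd_add_right (dvd_mul_right p (2 * T))).1
    ⟨c * c, by nlinarith⟩
  have hc0 : c ≠ 0 := fun e => hpc (by simp [e])
  rcases j with _ | _ | j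
  · omega
  · omega
  · have : p * (j + 1 + 1) ≥ p * 2 := Nat.mul_le_mul_left _ (by omega)
    omega

/-- As `arith_plus` with `2 u M = (q + 2) (q - 1) = (p c + 3) p c`; `p ≠ 3`: `p = 3 c - 2` is even;
`p = 3`: `c = 2`: `u M = 27`, `u = 27`, `4 ∤ 26`; `c = 4`: `u M = 90`, `u = 9`, `k = 3`. -/
theorem arith_minus {p q c m n N : ℕ} (hp : p.Prime) (h2 : p ≠ 2) (hq : Odd q) (h4 : 4 ≤ q)
    (hc : q = p * c + 1) (hpc : ¬ p ∣ c) (hm : 1 ≤ m) (hN : 2 * N = q * (q + 1))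
    (hv : p ^ n + N = N * p ^ m + 1) (hle : p ^ n ≤ (p ^ m) ^ p) (hd : 2 * c ∣ p ^ m - 1) :
    p = 3 ∧ q = 13 ∧ p ^ n = 729 := by
  have hc0 : 0 < c := Nat.pos_of_ne_zero fun e => hpc (by simp [e])
  obtain ⟨k, T, hn, hT, h0, h1⟩ := geo hp hm (by nlinarith) hv
  have ho := Nat.odd_iff.1 (hp.odd_of_ne_two h2)
  have he : 2 ∣ c := ((Nat.prime_two.dvd_mul).1
    (show 2 ∣ p * c by obtain ⟨b, hb⟩ := hq; omega)).resolve_left (by omega)
  have h : 2 * (p ^ m * (1 + p ^ m * T)) = (q + 2) * (p * c) := by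
    rw [hT, hc] at hN; rw [hc]; nlinarith
  by_cases h3 : p = 3
  · subst h3
    obtain ⟨hc', hT'⟩ := three_cases hm hn h0 h1 hle hpc he hd
      (h ▸ (dvd_mul_left c 3).mul_left (q + 2))
    have h5 : ¬ 2 ∣ 3 ^ m := fun e => by simpa using Nat.prime_two.dvd_of_dvd_pow e
    generalize 3 ^ m = u at *
    subst hc
    have h6 : u ≤ 90 := by rcases hc' with rfl | rfl <;> nlinarith [Nat.zero_le (u * (u * T))]
    clear hv hle hT hN
    rcases hc' with rfl | rfl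
    all_goals rcases hT' with ⟨rfl, e⟩ | ⟨rfl, e⟩ <;> interval_cases u <;> omega
  exfalso
  have ha : ¬ p ∣ q + 2 := fun e => h3 ((Nat.prime_dvd_prime_iff_eq hp Nat.prime_three).1
    ((Nat.dvd_add_right (dvd_mul_right p c)).1 (by rwa [hc] at e)))
  obtain ⟨rfl, h4⟩ := m_one hp hm ha hpc h
  have h5 := Nat.le_of_dvd (by have := hp.two_le; simp; omega) hd
  rw [pow_one] at h5
  obtain ⟨b, hb⟩ : ∃ b, 3 * c = b + 2 := ⟨3 * c - 2, by omega⟩
  obtain ⟨j, hj⟩ : p ∣ b := (Nat.dvd_add_right (dvd_mul_right p (c * c))).1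
    ⟨2 * T, by rw [hc] at h4; nlinarith⟩
  rcases j with _ | _ | j
  · omega
  · omega
  · have : p * (j + 1 + 1) ≥ p * 2 := Nat.mul_le_mul_left _ (by omega)
    omega

/-- `N j = 560, 1008, 720` for `p = 3, 5, 7`; `u = p ^ m ∣ N - 1` (as `p ^ n > u`), `j ∣ u - 1`, and
`N (u - 1) + 1` is a power of `p`: finitely many cases, none works (only `(p, u, N) = (3, 3, 280)`,
`(3, 9, 280)` etc. need the power test). -/
theorem arith5040 {p m n N j M : ℕ} (hM : p = 3 ∧ M = 560 ∨ p = 5 ∧ M = 1008 ∨ p = 7 ∧ M = 720)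
    (hm : 1 ≤ m) (h1 : N ≠ 1) (hN : N * j = M) (hv : p ^ n + N = N * p ^ m + 1)
    (hd : j ∣ p ^ m - 1) : False := by
  have hp : p.Prime := by rcases hM with ⟨rfl, -⟩ | ⟨rfl, -⟩ | ⟨rfl, -⟩ <;> norm_num
  have hM0 : 0 < M ∧ M ≤ 1008 := by omega
  have h0 : N ≠ 0 := fun e => by simp [e] at hN; omega
  obtain ⟨k, T, -, hT, -, -⟩ := geo hp hm (by omega) hv
  have hj : 0 < j := Nat.pos_of_ne_zero fun e => by simp [e] at hN; omega
  have hN2 : N ≤ 1008 := by nlinarith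
  have hj2 : j < 1009 := by nlinarith [Nat.pos_of_ne_zero h0]
  have h3 : 3 ≤ p := by omega
  have hu : p ^ m < 1008 := by nlinarith [Nat.zero_le (p ^ m * (p ^ m * T))]
  have hm7 : m < 7 := (Nat.pow_lt_pow_iff_right (a := 3) (by norm_num)).1
    ((Nat.pow_le_pow_left h3 m).trans_lt (by omega))
  have hn : n < 13 := (Nat.pow_lt_pow_iff_right (a := 3) (by norm_num)).1
    ((Nat.pow_le_pow_left h3 n).trans_lt (by nlinarith))
  have hNj : N = M / j := by rw [← hN, Nat.mul_div_cancel _ hj]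
  have key : ∀ x ∈ [(3, 560), (5, 1008), (7, 720)], ∀ j < 1009, x.2 % j = 0 → x.2 / j ≠ 1 → ∀ m < 7,
      1 ≤ m → (x.1 ^ m - 1) % j = 0 → ∀ n < 13, x.1 ^ n + x.2 / j ≠ x.2 / j * x.1 ^ m + 1 := by
    decide +kernel
  exact key (p, M) (by simpa using hM) j hj2 (Nat.mod_eq_zero_of_dvd ⟨N, by rw [← hN, mul_comm]⟩)
    (hNj ▸ h1) m hm7 hm (Nat.mod_eq_zero_of_dvd hd) n hn (hNj ▸ hv)

theorem key5 (x : ℕ) (hx : x < 119) (β : ℕ) (hβ : β < 121) (h1 : 6 ≤ x) (h2 : x ≠ 118)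
    (h3 : β * (x + 2) = 120 ∨ β * (x + 2) = 240) (h4 : x % β = 0) (h5 : Nat.gcd (x / β) 30 = 1) :
    β * (x + 2) = 120 ∧ (x = 10 ∧ x / β = 1 ∨ x = 28 ∧ x / β = 7 ∨ x = 58 ∧ x / β = 29) := by
  have key : ∀ x ∈ List.range 119, ∀ β ∈ List.range 121, (x < 6 ∨ x = 118 ∨ x % β ≠ 0) ∨
      (β * (x + 2) ≠ 120 ∧ β * (x + 2) ≠ 240 ∨ Nat.gcd (x / β) 30 ≠ 1) ∨ β * (x + 2) = 120 ∧
        (x = 10 ∧ β = 10 ∨ x = 28 ∧ β = 4 ∨ x = 58 ∧ β = 2) := by
    decide +kernel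
  rcases key x (List.mem_range.2 hx) β (List.mem_range.2 hβ) with h | h | ⟨h, h'⟩
  · omega
  · omega
  · exact ⟨h, by rcases h' with ⟨rfl, rfl⟩ | ⟨rfl, rfl⟩ | ⟨rfl, rfl⟩ <;> simp⟩

set_option maxHeartbeats 1000000 in
/-- `Q = p ^ e`; `a` is odd so `2 a ∣ Q - 1`; `Q ^ 2 - 1 ≤ (Q ^ k - 1) p ^ j ≤ 120 (Q - 1) e` gives
`Q + 1 ≤ 120 e`, `e ≤ 3`, `b = 1`; `p ∤ 120 ε a` gives `j = 0`; `k = 2` (or `Q = 7`, `k = 3`, impossible);
`(Q + 1) ((Q - 1) / a) = 120 ε`: finitely many `Q ≤ 119`. -/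
theorem num5 {p e k j a b ε : ℕ} (hp : p.Prime) (h7 : 7 ≤ p) (he : 1 ≤ e) (hk : 2 ≤ k)
    (h : ((p ^ e) ^ k - 1) * p ^ j = 120 * ε * (a * b)) (hε : ε ∣ 2) (ha : a ∣ p ^ e - 1)
    (hb : b ≤ e) (hc : (a * b).Coprime 30) :
    ε = 1 ∧ b = 1 ∧ (p = 11 ∧ a = 1 ∨ p = 29 ∧ a = 7 ∨ p = 59 ∧ a = 29) := by
  have hQ : 7 ≤ p ^ e := h7.trans (Nat.le_self_pow (by omega) p)
  have hQe : 7 ^ e ≤ p ^ e := Nat.pow_le_pow_left h7 e
  have ho : Odd (p ^ e) := (hp.odd_of_ne_two (by omega)).pow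
  obtain ⟨k, rfl⟩ : ∃ k', k = k' + 2 := ⟨k - 2, by omega⟩
  obtain ⟨x, hx⟩ : ∃ x, p ^ e = x + 1 := ⟨p ^ e - 1, by omega⟩
  have h1 := geom_sum_mul_add x (k + 2)
  rw [Finset.sum_range_succ', Finset.sum_range_succ'] at h1
  simp only [pow_succ, ← Finset.sum_mul, pow_zero, one_mul, zero_add] at h1
  have hT : k = 0 ∧ ∑ i ∈ Finset.range k, (x + 1) ^ i = 0 ∨
      k = 1 ∧ ∑ i ∈ Finset.range k, (x + 1) ^ i = 1 ∨ 8 ≤ ∑ i ∈ Finset.range k, (x + 1) ^ i := by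
    rcases k with _ | _ | k
    · simp
    · simp
    · rw [Finset.sum_range_succ', Finset.sum_range_succ']
      simp only [pow_zero, zero_add, pow_one]
      omega
  generalize ∑ i ∈ Finset.range k, (x + 1) ^ i = T at *
  rw [hx, Nat.add_sub_cancel] at ha
  obtain ⟨β, hβ⟩ := ha
  have ha1 : a.Coprime 30 := Nat.Coprime.coprime_mul_right hc
  have hb1 : b.Coprime 30 := Nat.Coprime.coprime_mul_left hc
  have ha0 : 0 < a := Nat.pos_of_ne_zero fun e => by simp [e] at ha1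
  have hβ2 : 2 ∣ β := ((Nat.prime_two.dvd_mul).1 (show 2 ∣ a * β by
    obtain ⟨c, hc⟩ := ho; omega)).resolve_left fun e => by
      simpa using (ha1.coprime_dvd_left e).coprime_dvd_right (show 2 ∣ 30 by norm_num)
  have hβ0 : 2 ≤ β := Nat.le_of_dvd (Nat.pos_of_ne_zero fun e => by simp [e] at hβ; omega) hβ2
  set G := (T * (x + 1) + 1) * (x + 1) + 1 with hG
  have h2 : β * G * p ^ j = 120 * ε * b := Nat.eq_of_mul_eq_mul_left ha0 (by
    rw [hx, pow_succ, pow_succ, ← h1, Nat.add_sub_cancel, hβ] at h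
    rw [hG, hβ]
    linarith)
  have hε2 := Nat.le_of_dvd two_pos hε
  have hj := pow_pos hp.pos j
  have hG1 : x + 2 ≤ G := by nlinarith [Nat.zero_le (T * (x + 1) * (x + 1))]
  have h3 : G ≤ 120 * b := by
    have : 2 * G * 1 ≤ β * G * p ^ j := by gcongr; exact hj
    nlinarith
  have he3 : e ≤ 3 := by
    by_contra h4
    have : ∀ n, 120 * (n + 4) < 7 ^ (n + 4) := fun n => by
      induction n with
      | zero => norm_num
      | succ n ih => rw [show n + 1 + 4 = n + 4 + 1 by ring, pow_succ]; omega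
    have := this (e - 4)
    rw [show e - 4 + 4 = e by omega] at this
    omega
  obtain rfl : b = 1 := by
    have : b ≤ 3 := by omega
    interval_cases b <;> simp_all (config := {decide := true})
  obtain rfl : j = 0 := by
    by_contra h4
    have h5 : p ∣ 120 * ε * 1 := h2 ▸ (dvd_pow_self p h4).mul_left _
    have h6 : p ∣ 2 ^ 4 * (3 * 5) := h5.trans (by
      rw [mul_one]; exact (Nat.mul_dvd_mul_left 120 hε).trans (by norm_num))
    rcases (hp.dvd_mul).1 h6 with h6 | h6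
    · have := Nat.le_of_dvd two_pos (hp.dvd_of_dvd_pow h6); omega
    · rcases (hp.dvd_mul).1 h6 with h6 | h6 <;> have := Nat.le_of_dvd (by norm_num) h6 <;> omega
  simp only [pow_zero, mul_one] at h2 h3
  have hε' : ε = 1 ∨ ε = 2 := (Nat.dvd_prime Nat.prime_two).1 hε
  have hp119 : p ≠ 119 := fun e => by norm_num [e] at hp
  have hG2 : G = x + 2 := by
    rcases hT with ⟨-, rfl⟩ | ⟨-, rfl⟩ | hT
    · omega
    · have hx9 : x ≤ 9 := by nlinarith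
      obtain ⟨c, hc⟩ := ho
      have h9 : p ^ e ≠ 9 := fun e => by
        have := Nat.le_of_dvd (by norm_num) (hp.dvd_of_dvd_pow (n := 2) (m := 3)
          (by rw [show 3 ^ 2 = 9 by norm_num, ← e]; exact dvd_pow_self p (by omega)))
        omega
      obtain rfl : x = 6 := by omega
      omega
    · have h7 : 8 * 7 * 7 ≤ T * (x + 1) * (x + 1) := by gcongr <;> omega
      nlinarith
  clear_value G
  clear h h1 hT hG
  obtain rfl : e = 1 := by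
    by_contra h4
    have h5 : p ^ 2 ≤ p ^ e := Nat.pow_le_pow_right hp.pos (by omega)
    have h6 : p < 11 := lt_of_pow_lt_pow_left₀ 2 (by norm_num) (by omega)
    obtain rfl : p = 7 := by interval_cases p <;> simp_all (config := {decide := true})
    interval_cases e
    · omega
    · obtain rfl : x = 48 := by omega
      subst hG2
      omega
    · omega
  rw [pow_one] at hx
  have h8 : x / β = a := by rw [hβ, Nat.mul_div_cancel _ (by omega)]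
  have := key5 x (by omega) β (by nlinarith) (by omega) (by omega) (by rw [← hG2]; omega)
    (by rw [hβ, Nat.mul_mod_left]) (h8 ▸ ha1)
  rw [h8, ← hG2] at this
  omega

end Cfsg.Lib.GG
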