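import Cfsg.Agent.Lib.GG.Def
import Cfsg.Agent.S0813
import Cfsg.Agent.S2602
import Cfsg.Agent.Lib.PSL2.BaseChange

/-!
# Gagola groups (S4841): normal subgroups SL(2, q)
-/

set_option autoImplicit false

namespace Cfsg.Lib.GG

open Subgroup
open scoped MatrixGroups commutatorElement

variable {H : Type*} [Group H] [Finite H] {F : Type*} [Field F] [Fintype F]

local notation "PSL2" => Matrix.ProjectiveSpecialLinearGroup (Fin 2)

/-- An automorphism of a perfect group that is trivial on the central quotient is trivial. -/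
theorem aut12_quot_one {G : Type*} [Group G] (hG : commutator G = ⊤) {α : MulAut G}
    (h : Linear.quotAut G α = 1) : α = 1 := by
  have k : ∀ g : G, ∃ z ∈ center G, α g = g * z := fun g => by
    have : ((α g : G) : G ⧸ center G) = g := by
      rw [← Linear.quotAut_mk, h]; rfl
    exact ⟨g⁻¹ * α g, QuotientGroup.eq.1 this.symm, by group⟩
  have : commutator G ≤ α.toMonoidHom.eqLocus (MonoidHom.id G) := by
    refine commutator_le.2 fun a _ b _ => ?_
    obtain ⟨z, hz, e1⟩ := k a
    obtain ⟨w, hw, e2⟩ := k b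
    change α ⁅a, b⁆ = ⁅a, b⁆
    have z1 := fun g => mem_center_iff.1 hz g
    have w1 := fun g => mem_center_iff.1 hw g
    rw [map_commutatorElement, e1, e2, commutatorElement_def, commutatorElement_def]
    calc a * z * (b * w) * (a * z)⁻¹ * (b * w)⁻¹
        = a * (z * (b * w)) * z⁻¹ * a⁻¹ * w⁻¹ * b⁻¹ := by group
      _ = a * b * (w * a⁻¹) * w⁻¹ * b⁻¹ := by rw [← z1]; group
      _ = a * b * a⁻¹ * b⁻¹ := by rw [← w1]; group
  exact MulEquiv.ext fun g => this (hG ▸ mem_top g)

theorem aut12_perfect (h4 : 4 ≤ Fintype.card F) : commutator SL(2, F) = ⊤ := by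
  classical
  refine Linear.commutator_SL_eq_top (Or.inr ?_)
  by_contra hc
  push Not at hc
  have : (Finset.univ : Finset F) ⊆ {0, 1, -1} := fun x _ => by
    by_cases h0 : x = 0
    · simp [h0]
    · rcases sq_eq_one_iff.1 (hc x h0) with h | h <;> simp [h]
  have h1 := Finset.card_le_card this
  have h2 : ({0, 1, -1} : Finset F).card ≤ 3 := Finset.card_le_three
  rw [Finset.card_univ] at h1
  omega

/-- Conjugation on `S / Z(S) ≅ PSL(2, F)`.  `S` is perfect (`|F| ≥ 4`), so an element centralising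
`S / Z(S)` centralises `S` (three subgroups lemma: `s ↦ [h, s]` is a homomorphism to `Z(S)`). -/
theorem toAut (h4 : 4 ≤ Fintype.card F) (S : Subgroup H) [S.Normal] (e : S ≃* SL(2, F)) :
    ∃ ψ : H →* MulAut (PSL2 F), ψ.ker = centralizer (S : Set H) ∧
      (MulAut.conj : PSL2 F →* MulAut (PSL2 F)).range.comap ψ = S ⊔ centralizer (S : Set H) := by
  let ψ : H →* MulAut (PSL2 F) := (Linear.quotAut SL(2, F)).comp
    ((MulAut.congr e).toMonoidHom.comp (MulAut.conjNormal (H := S)))
  have hk : ψ.ker = centralizer (S : Set H) := by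
    ext h
    rw [MonoidHom.mem_ker, mem_centralizer_iff]
    constructor
    · intro h1 s hs
      have h2 : MulAut.congr e (MulAut.conjNormal h) = 1 := aut12_quot_one (aut12_perfect h4) h1
      have h3 : MulAut.conjNormal (H := S) h = 1 := (MulAut.congr e).injective (h2.trans (map_one _).symm)
      have h4 := congrArg (fun α : MulAut S => ((α ⟨s, hs⟩ : S) : H)) h3
      simp only [MulAut.conjNormal_apply, MulAut.one_apply] at h4
      exact (mul_inv_eq_iff_eq_mul.1 h4).symm
    · intro h1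
      have h3 : MulAut.conjNormal (H := S) h = 1 := MulEquiv.ext fun s => Subtype.ext (by
        rw [MulAut.conjNormal_apply, ← h1 s s.2]; simp)
      change Linear.quotAut _ (MulAut.congr e (MulAut.conjNormal h)) = 1
      rw [h3, map_one, map_one]
  have hs : ∀ s : S, ψ s = MulAut.conj ((e s : SL(2, F)) : PSL2 F) := fun s => by
    refine MulEquiv.ext fun x => ?_
    induction x using QuotientGroup.induction_on with
    | H x =>
      change ((e (MulAut.conjNormal (s : H) (e.symm x)) : SL(2, F)) : PSL2 F) = _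
      have : MulAut.conjNormal (s : H) (e.symm x) = s * e.symm x * s⁻¹ := Subtype.ext rfl
      rw [this]
      simp
  refine ⟨ψ, hk, le_antisymm ?_ (sup_le ?_ ?_)⟩
  · rintro h ⟨x, hx⟩
    induction x using QuotientGroup.induction_on with
    | H x =>
      have h1 : ((e.symm x : S) : H)⁻¹ * h ∈ ψ.ker := by
        rw [MonoidHom.mem_ker, map_mul, map_inv, hs, ← hx]; simp
      rw [hk] at h1
      have := mul_mem_sup (e.symm x).2 h1
      simpa using this
  · intro s h
    exact ⟨_, (hs ⟨s, h⟩).symm⟩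
  · rw [← hk]
    intro h h1
    exact ⟨1, by rw [map_one]; exact (MonoidHom.mem_ker.1 h1).symm⟩

/-- `toAut` and S0813 (`|PGL(2, q)| = q (q² - 1)`). -/
theorem index_cent_dvd {r f : ℕ} [Fact r.Prime] (hF : Fintype.card F = r ^ f)
    (h4 : 4 ≤ Fintype.card F) (S : Subgroup H) [S.Normal] (e : S ≃* SL(2, F)) :
    (centralizer (S : Set H)).index ∣ f * (r ^ f * ((r ^ f) ^ 2 - 1)) := by
  obtain ⟨ψ, hk, -⟩ := toAut h4 S e
  have hf : 1 ≤ f := Nat.pos_of_ne_zero fun h => by rw [hF, h] at h4; simp at h4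
  have h := Cfsg.Agent.S0813.result (F := F) r f hf hF 2 le_rfl fun _ => hF ▸ h4
  rw [if_pos rfl, one_mul, Linear.card_PGL_eq_card_SL, PSL2.card_SL2, Nat.card_eq_fintype_card (α := F),
    hF] at h
  rw [← hk, index_ker, ← h]
  exact card_subgroup_dvd_card _

/-- `C = C_H(S)` is normal, `C ⊓ S = Z(S)` is central in `C` of order prime to `p` and `C / (C ⊓ S)`
embeds in the `p`-group `H / S`; so a Sylow `p`-subgroup of `C` is normal in `C` (`C = Z(S) P`), hence
characteristic, hence inside `O_p(H) = 1`. -/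
theorem cent_eq {p k : ℕ} [Fact p.Prime] (hO : pCore p H = ⊥) (S : Subgroup H) [S.Normal]
    (hk : ((center S).map S.subtype).relIndex (centralizer (S : Set H)) = p ^ k)
    (hc : (Nat.card (center S)).Coprime p) :
    centralizer (S : Set H) = (center S).map S.subtype := by
  set C := centralizer (S : Set H) with hC
  set Z := (center S).map S.subtype with hZ
  have zc : ∀ z ∈ Z, ∀ c ∈ C, c * z = z * c := by
    rintro _ ⟨z, -, rfl⟩ c hc
    exact (hc z z.2).symm
  have ZC : Z ≤ C := by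
    rintro _ ⟨z, hz, rfl⟩ s hs
    exact congrArg Subtype.val (mem_center_iff.1 hz ⟨s, hs⟩)
  obtain ⟨P⟩ : Nonempty (Sylow p C) := inferInstance
  have hN : (normalizer ((P : Subgroup C) : Set C)) = ⊤ := by
    have h1 : Z.subgroupOf C ≤ normalizer ((P : Subgroup C) : Set C) := fun z hz => by
      refine centralizer_le_normalizer _ fun c _ => Subtype.ext (zc z hz c c.2)
    have h2 : (normalizer ((P : Subgroup C) : Set C)).index ∣ p ^ k := hk ▸ index_dvd_of_le h1
    have h3 : ¬ p ∣ (normalizer ((P : Subgroup C) : Set C)).index := fun h =>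
      P.not_dvd_index (h.trans (index_dvd_of_le le_normalizer))
    exact index_eq_one.1 (Nat.eq_one_of_dvd_coprimes
      (Nat.Coprime.pow_left k ((Nat.Prime.coprime_iff_not_dvd Fact.out).2 h3)) h2 dvd_rfl)
  have : (P : Subgroup C).Normal := normalizer_eq_top_iff.1 hN
  have := P.characteristic_of_normal this
  have h1 : ((P : Subgroup C).map C.subtype) ≤ pCore p H :=
    le_sSup ⟨inferInstance, P.isPGroup'.map _⟩
  rw [hO, le_bot_iff, map_eq_bot_iff_of_injective _ C.subtype_injective] at h1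
  have h2 : ¬ p ∣ Nat.card C := by
    have := P.not_dvd_index
    rwa [h1, index_bot] at this
  have h3 : Z.relIndex C = 1 := by
    have h4 : Z.relIndex C ∣ Nat.card C := index_dvd_card _
    rw [hk] at h4 ⊢
    rcases k with _ | k
    · simp
    · exact absurd ((dvd_pow_self p k.succ_ne_zero).trans h4) h2
  exact le_antisymm (relIndex_eq_one.1 h3) ZC

/-- `toAut` and S2602: the `p`-group `H / S` embeds in `Out (PSL(2, F))` and meets the kernel of `φ`
(order `gcd (2, q - 1)`, prime to `p`) trivially, so it embeds in the cyclic group `ZMod a`. -/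
theorem cyc_quot {p a k : ℕ} [Fact p.Prime] (hF : Fintype.card F = p ^ a) (h4 : 4 ≤ Fintype.card F)
    (S : Subgroup H) [S.Normal] (e : S ≃* SL(2, F)) (hk : S.index = p ^ k)
    (hc : centralizer (S : Set H) ≤ S) : ∃ h : H, S ⊔ zpowers h = ⊤ := by
  obtain ⟨ψ, -, hr⟩ := toAut h4 S e
  have hp : p.Prime := Fact.out
  have ha : 1 ≤ a := Nat.pos_of_ne_zero fun h => by rw [hF, h] at h4; simp at h4
  obtain ⟨φ, -, -, hφ⟩ := Cfsg.Agent.S2602.result (F := F) ha hF (hF ▸ h4)
  rw [sup_eq_left.2 hc] at hr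
  let θ : H →* Multiplicative (ZMod a) := φ.comp ((QuotientGroup.mk' (Inn (PSL2 F))).comp ψ)
  have hm : ∀ h : H, ((ψ h : MulAut (PSL2 F)) : Out (PSL2 F)) = 1 ↔ h ∈ S := fun h => by
    rw [QuotientGroup.eq_one_iff, ← hr]; rfl
  have cop : (Nat.gcd 2 (p ^ a - 1)).Coprime (p ^ k) := by
    refine Nat.Coprime.pow_right _ (Nat.Coprime.coprime_dvd_left (Nat.gcd_dvd_right _ _) ?_)
    refine ((Nat.Prime.coprime_iff_not_dvd hp).2 fun h => ?_).symm
    exact hp.one_lt.ne' (Nat.dvd_one.1 ((Nat.dvd_sub_iff_right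
      (Nat.one_le_pow _ _ hp.pos) (dvd_pow_self p (by omega))).1 h))
  have hθ : θ.ker = S := by
    ext h
    refine ⟨fun h1 => ?_, fun h1 => ?_⟩
    · rw [← hm]
      have h2 : ((ψ h : MulAut (PSL2 F)) : Out (PSL2 F)) ∈ φ.ker := h1
      have h3 : orderOf ((ψ h : MulAut (PSL2 F)) : Out (PSL2 F)) ∣ Nat.gcd 2 (p ^ a - 1) :=
        hφ ▸ orderOf_dvd_natCard _ h2
      have h5 : orderOf ((ψ h : MulAut (PSL2 F)) : Out (PSL2 F)) ∣ p ^ k := by
        rw [orderOf_dvd_iff_pow_eq_one, ← QuotientGroup.mk_pow, ← map_pow, hm, ← hk]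
        exact S.pow_index_mem h
      exact orderOf_eq_one_iff.1 (Nat.eq_one_of_dvd_coprimes cop h3 h5)
    · change φ ((ψ h : MulAut (PSL2 F)) : Out (PSL2 F)) = 1
      rw [(hm h).2 h1, map_one]
  obtain ⟨⟨_, h, rfl⟩, hg⟩ := IsCyclic.exists_generator (α := θ.range)
  refine ⟨h, eq_top_iff.2 fun x _ => ?_⟩
  obtain ⟨n, hn⟩ := hg ⟨θ x, x, rfl⟩
  have h1 : θ h ^ n = θ x := congrArg Subtype.val hn
  have h2 : x * (h ^ n)⁻¹ ∈ S := by
    rw [← hθ, MonoidHom.mem_ker, map_mul, map_inv, map_zpow, h1, mul_inv_cancel]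
  simpa using mul_mem_sup h2 (zpow_mem (mem_zpowers h) n)

end Cfsg.Lib.GG
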