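import Cfsg.Agent.Lib.GG.Def
import Cfsg.Agent.Lib.Core.PCore
import Cfsg.Agent.Lib.Transfer.SylowIn

/-!
# Gagola groups (S4841): counting
-/

set_option autoImplicit false

namespace Cfsg.Lib.GG

open Subgroup
open scoped MatrixGroups

variable {p : ℕ} [Fact p.Prime] {H V : Type*} [Group H] [Finite H] [AddCommGroup V]
  [Module (ZMod p) V] [Finite V] {ρ : Representation (ZMod p) H V}

theorem card_V (p : ℕ) [Fact p.Prime] (V : Type*) [AddCommGroup V] [Module (ZMod p) V] [Finite V] :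
    ∃ n : ℕ, Nat.card V = p ^ n :=
  ⟨_, by rw [Module.natCard_eq_pow_finrank (K := ZMod p), Nat.card_zmod]⟩

omit [Finite H] [Finite V] in
theorem bas_mul (ρ : Representation (ZMod p) H V) (a b : H) (v : V) : ρ (a * b) v = ρ a (ρ b v) := by
  rw [map_mul]; rfl

omit [Finite H] [Finite V] in
theorem bas_one (ρ : Representation (ZMod p) H V) (v : V) : ρ 1 v = v := by
  rw [map_one]; rfl

omit [Finite H] [Finite V] in
theorem bas_ne (ρ : Representation (ZMod p) H V) (a : H) {v : V} (hv : v ≠ 0) : ρ a v ≠ 0 := fun e =>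
  hv (by rw [← bas_one ρ v, ← inv_mul_cancel a, bas_mul, e, map_zero])

theorem bas_dvd {M : Submodule (ZMod p) V} (hM : M ≠ ⊥) : ∃ m : ℕ, 1 ≤ m ∧ Nat.card M = p ^ m := by
  obtain ⟨m, hm⟩ := card_V p M
  refine ⟨m, Nat.pos_of_ne_zero fun e => hM ?_, hm⟩
  rw [e, pow_zero, Nat.card_eq_one_iff_unique] at hm
  exact (Submodule.eq_bot_iff _).2 fun x hx => congrArg Subtype.val (hm.1.elim (⟨x, hx⟩ : M) 0)

/-- A `p`-subgroup fixes a nonzero vector of every nonzero invariant subspace (`|M|` is a power of `p`;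
`IsPGroup.card_modEq_card_fixedPoints` / `exists_fixed_point_of_prime_dvd_card_of_fixed_point`). -/
theorem exists_fix (ρ : Representation (ZMod p) H V) {Q : Subgroup H} (hQ : IsPGroup p Q)
    {M : Submodule (ZMod p) V} (hM : M ≠ ⊥) (inv : ∀ g ∈ Q, ∀ v ∈ M, ρ g v ∈ M) :
    ∃ v ∈ M, v ≠ 0 ∧ ∀ g ∈ Q, ρ g v = v := by
  letI : MulAction Q M :=
    { smul := fun g v => ⟨ρ g v, inv g g.2 v v.2⟩
      one_smul := fun v => Subtype.ext (bas_one ρ v)
      mul_smul := fun a b v => Subtype.ext (bas_mul ρ a b v) }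
  obtain ⟨m, h1, hm⟩ := bas_dvd hM
  obtain ⟨b, hb, ne⟩ := hQ.exists_fixed_point_of_prime_dvd_card_of_fixed_point M
    (hm ▸ dvd_pow_self p (by omega)) (a := 0) fun g => Subtype.ext (map_zero (ρ g))
  exact ⟨b, b.2, fun e => ne (Subtype.ext e.symm), fun g hg => congrArg Subtype.val (hb ⟨g, hg⟩)⟩

/-- The same for one `p`-element. -/
theorem exists_fix_one (ρ : Representation (ZMod p) H V) {g : H} {k : ℕ} (hg : g ^ p ^ k = 1)
    {M : Submodule (ZMod p) V} (hM : M ≠ ⊥) (inv : ∀ v ∈ M, ρ g v ∈ M) :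
    ∃ v ∈ M, v ≠ 0 ∧ ρ g v = v := by
  obtain ⟨v, h1, h2, h3⟩ := exists_fix ρ (Q := zpowers g) (M := M)
    (Core.isPGroup_subgroup_iff.2 fun x hx => ⟨k, by
      obtain ⟨n, rfl⟩ := mem_zpowers_iff.1 hx
      rw [← zpow_natCast, ← zpow_mul, mul_comm, zpow_mul, zpow_natCast, hg, one_zpow]⟩) hM
    fun x hx v hv => by
      obtain ⟨n, rfl⟩ := (Submonoid.mem_powers_iff _ _).1 (mem_powers_iff_mem_zpowers.2 hx)
      clear hx
      induction n with
      | zero => rwa [pow_zero, bas_one]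
      | succ n ih => rw [pow_succ', bas_mul]; exact inv _ ih
  exact ⟨v, h1, h2, h3 g (mem_zpowers g)⟩

/-- A Sylow subgroup meets a normal subgroup in a Sylow subgroup. -/
theorem SP.normal (h : SP ρ) (S : Subgroup H) [S.Normal] : SP (p := p) (ρ.comp S.subtype) := by
  refine ⟨h.inj.comp Subtype.coe_injective, h.nt, fun v hv => ?_⟩
  obtain ⟨P, hP⟩ := h.syl v hv
  obtain ⟨R, hR⟩ := Transfer.exists_sylow_of_not_dvd_relIndex P.isPGroup'
    (Transfer.sylow_not_dvd_relIndex_normal P S)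
  exact ⟨R, fun g => by rw [hR, mem_subgroupOf]; exact hP g⟩

theorem SP.equiv (h : SP ρ) {K : Type*} [Group K] (e : K ≃* H) :
    SP (p := p) (ρ.comp e.toMonoidHom) := by
  refine ⟨h.inj.comp e.injective, h.nt, fun v hv => ?_⟩
  obtain ⟨P, hP⟩ := h.syl v hv
  exact ⟨P.comapOfInjective e.toMonoidHom e.injective
    (fun x _ => ⟨e.symm x, e.apply_symm_apply x⟩), fun g => hP (e g)⟩

/-- `O_p(S)` is characteristic in `S`. -/
theorem pCore_sub (hO : pCore p H = ⊥) (S : Subgroup H) [S.Normal] : pCore p S = ⊥ := by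
  have : (pCore p S).map S.subtype ≤ pCore p H :=
    Core.le_pCore inferInstance ((Core.pCore_isPGroup p S).map _)
  rw [hO, le_bot_iff, map_eq_bot_iff_of_injective _ S.subtype_injective] at this
  exact this

/-- The vectors fixed by `Q`. -/
def basFix (ρ : Representation (ZMod p) H V) (Q : Subgroup H) : Submodule (ZMod p) V where
  carrier := {v | ∀ h ∈ Q, ρ h v = v}
  add_mem' ha hb h hh := by rw [map_add, ha h hh, hb h hh]
  zero_mem' h _ := map_zero _
  smul_mem' c v hv h hh := by rw [map_smul, hv h hh]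

omit [Finite H] in
theorem bas_fc (ρ : Representation (ZMod p) H V) (Q : Subgroup H) :
    Nat.card {v : V // v ≠ 0 ∧ ∀ h ∈ Q, ρ h v = v} + 1 = fc ρ Q := by
  have e : {v : V | ∀ h ∈ Q, ρ h v = v} = insert 0 {v : V | v ≠ 0 ∧ ∀ h ∈ Q, ρ h v = v} := by
    ext v
    by_cases hv : v = 0
    · simp [hv]
    · simp [hv]
  have := Set.ncard_insert_of_notMem (a := (0 : V)) (s := {v : V | v ≠ 0 ∧ ∀ h ∈ Q, ρ h v = v})
    (fun h => h.1 rfl)
  rw [← e] at this
  exact this.symm

omit [Finite H] in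
theorem bas_le (ρ : Representation (ZMod p) H V) {P Q : Subgroup H} (g : H)
    (h : ∀ x ∈ Q, g⁻¹ * x * g ∈ P) : fc ρ P ≤ fc ρ Q :=
  Nat.card_le_card_of_injective
    (fun v : {v : V // ∀ h ∈ P, ρ h v = v} => (⟨ρ g v, fun x hx => by
      rw [← bas_mul, show x * g = g * (g⁻¹ * x * g) by group, bas_mul, v.2 _ (h x hx)]⟩ :
        {v : V // ∀ h ∈ Q, ρ h v = v}))
    fun a b e => Subtype.ext (by
      have := congrArg (fun v => ρ g⁻¹ v.1) e
      simpa only [← bas_mul, inv_mul_cancel, bas_one] using this)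

theorem bas_le' (ρ : Representation (ZMod p) H V) (P Q : Sylow p H) : fc ρ P ≤ fc ρ Q := by
  obtain ⟨g, rfl⟩ := MulAction.exists_smul_eq H P Q
  refine bas_le ρ g fun x hx => ?_
  rw [Sylow.coe_subgroup_smul, mem_pointwise_smul_iff_inv_smul_mem] at hx
  simpa using hx

omit [Finite H] [Finite V] in
theorem SP.stab (h : SP ρ) (P : Sylow p H) {v : V} (hv : v ≠ 0) (f : ∀ x ∈ (P : Subgroup H), ρ x v = v)
    (x : H) : ρ x v = v ↔ x ∈ (P : Subgroup H) := by
  obtain ⟨R, hR⟩ := h.syl v hv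
  rw [← P.is_maximal' R.isPGroup' fun y hy => (hR y).1 (f y hy)]
  exact hR x

/-- The fixed vectors of a `p`-subgroup form a nonzero subspace. -/
theorem Fx.fc_pow (h : Fx ρ) {Q : Subgroup H} (hQ : IsPGroup p Q) :
    ∃ m : ℕ, 1 ≤ m ∧ fc ρ Q = p ^ m := by
  obtain ⟨w, hw⟩ := h.nt
  obtain ⟨v, -, h2, h3⟩ := exists_fix ρ hQ (M := ⊤)
    (fun e => hw ((Submodule.eq_bot_iff _).1 e w trivial)) fun _ _ _ _ => trivial
  exact bas_dvd (M := basFix ρ Q) fun e => h2 ((Submodule.eq_bot_iff _).1 e v h3)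

/-- The nonzero vectors are partitioned by their stabilisers; all Sylow subgroups are conjugate, so
each is the stabiliser of `fc ρ P - 1` vectors: `|V| - 1 = n_p (fc ρ P - 1)`. -/
theorem SP.count (h : SP ρ) (P : Sylow p H) :
    Nat.card V + Nat.card (Sylow p H) = Nat.card (Sylow p H) * fc ρ P + 1 := by
  classical
  letI := Fintype.ofFinite (Sylow p H)
  choose f hf using fun v : {v : V // v ≠ 0} => h.syl v v.2
  have c : ∀ R : Sylow p H, Nat.card {v // f v = R} + 1 = fc ρ P := fun R => by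
    rw [le_antisymm (bas_le' ρ P R) (bas_le' ρ R P), ← bas_fc]
    congr 1
    exact Nat.card_congr
      { toFun := fun v => ⟨v.1.1, v.1.2, fun x hx => (hf v.1 x).2 (by rw [v.2]; exact hx)⟩
        invFun := fun v => ⟨⟨v.1, v.2.1⟩, Sylow.ext (Subgroup.ext fun x =>
          (hf ⟨v.1, v.2.1⟩ x).symm.trans (h.stab R v.2.1 v.2.2 x))⟩
        left_inv := fun _ => rfl
        right_inv := fun _ => rfl }
  have e1 := Nat.card_congr (Equiv.sigmaFiberEquiv f)
  rw [Nat.card_sigma] at e1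
  have e2 : Nat.card {v : V // v ≠ 0} + 1 = Nat.card V := by
    have := bas_fc ρ ⊥
    rw [fc, Nat.card_congr (Equiv.subtypeUnivEquiv fun v x hx => by rw [mem_bot.1 hx, bas_one]),
      Nat.card_congr (Equiv.subtypeEquivRight (q := fun v : V => v ≠ 0) fun v =>
        ⟨fun a => a.1, fun a => ⟨a, fun x hx => by rw [mem_bot.1 hx, bas_one]⟩⟩)] at this
    exact this
  have e3 := Finset.sum_congr (rfl : (Finset.univ : Finset (Sylow p H)) = _) fun R _ => c R
  rw [Finset.sum_add_distrib, e1, Finset.sum_const, Finset.sum_const, Finset.card_univ,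
    ← Nat.card_eq_fintype_card, smul_eq_mul, smul_eq_mul] at e3
  omega

/-- `N(P)` acts on the nonzero vectors fixed by `P`, every stabiliser is `P`. -/
theorem SP.relIndex_dvd (h : SP ρ) (P : Sylow p H) :
    (P : Subgroup H).relIndex (normalizer ((P : Subgroup H) : Set H)) ∣ fc ρ P - 1 := by
  classical
  rw [← bas_fc, Nat.add_sub_cancel]
  set N := normalizer ((P : Subgroup H) : Set H)
  set X := {v : V // v ≠ 0 ∧ ∀ h ∈ (P : Subgroup H), ρ h v = v}
  letI : MulAction N X :=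
    { smul := fun g v => ⟨ρ g v, bas_ne ρ g v.2.1, fun x hx => by
        rw [← bas_mul, show x * g = g * ((g : H)⁻¹ * x * (g : H)⁻¹⁻¹) by group, bas_mul,
          v.2.2 _ ((mem_normalizer_iff.1 (N.inv_mem g.2) x).1 hx)]⟩
      one_smul := fun v => Subtype.ext (bas_one ρ v)
      mul_smul := fun a b v => Subtype.ext (bas_mul ρ a b v) }
  letI := Fintype.ofFinite (MulAction.orbitRel.Quotient N X)
  rw [Nat.card_congr (MulAction.selfEquivSigmaOrbits N X), Nat.card_sigma]
  refine Finset.dvd_sum fun ω _ => ?_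
  have : MulAction.stabilizer N ω.out = (P : Subgroup H).subgroupOf N := by
    ext g
    rw [MulAction.mem_stabilizer_iff, mem_subgroupOf, ← h.stab P ω.out.2.1 ω.out.2.2]
    exact Subtype.ext_iff
  rw [relIndex, ← this, MulAction.index_stabilizer]
  exact dvd_rfl

/-- Orbit-stabiliser. -/
theorem SP.card_eq (h : SP ρ) (t : Tr ρ) (P : Sylow p H) :
    Nat.card H = (Nat.card V - 1) * Nat.card P := by
  letI : MulAction H V :=
    { smul := fun g v => ρ g v
      one_smul := bas_one ρ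
      mul_smul := bas_mul ρ }
  obtain ⟨v, hv⟩ := h.nt
  obtain ⟨R, hR⟩ := h.syl v hv
  have e : MulAction.stabilizer H v = R := Subgroup.ext hR
  have o : MulAction.orbit H v = {0}ᶜ := Set.ext fun w =>
    ⟨fun ⟨g, hg⟩ => hg ▸ bas_ne ρ g hv, fun hw => t v w hv hw⟩
  have c := Set.ncard_add_ncard_compl ({0} : Set V)
  rw [← (MulAction.stabilizer H v).index_mul_card, MulAction.index_stabilizer, o, e,
    Nat.card_congr (R.equiv P).toEquiv, ← c, Set.ncard_singleton, Nat.add_sub_cancel_left]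

end Cfsg.Lib.GG
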