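import Cfsg.Agent.Lib.GG.Def
import Cfsg.Agent.Lib.Frobenius.Compl
import Cfsg.Agent.Lib.Coprime.FT
import Cfsg.Agent.Lib.Transfer.Fusion
import Cfsg.Agent.Lib.PGroup.Metacyclic
import Cfsg.Agent.Lib.Core.Solvable

/-!
# Gagola groups (S4841): fixed-point-free elements
-/

set_option autoImplicit false

namespace Cfsg.Lib.GG

open Subgroup
open scoped MatrixGroups

variable {p : ℕ} [Fact p.Prime] {H V : Type*} [Group H] [Finite H] [AddCommGroup V]
  [Module (ZMod p) V] [Finite V] {ρ : Representation (ZMod p) H V}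

omit [Finite H] in
theorem Fx.fpf (h : Fx ρ) {r : ℕ} (hr : r.Prime) (hp : r ≠ p) {R : Subgroup H} (hR : IsPGroup r R) :
    Frobenius.Fpf R := by
  obtain ⟨v, hv⟩ := h.nt
  have := nontrivial_of_ne v 0 hv
  refine Frobenius.fpf_of_add (V := V) ⟨⟨fun g => (ρ g).toAddMonoidHom, by ext; simp; rfl⟩, fun _ _ => by ext; simp; rfl⟩
    fun g w e => or_iff_not_imp_right.2 fun w0 => ?_
  obtain ⟨k, hk⟩ := h.fix g w w0 e
  obtain ⟨j, hj⟩ := hR g
  exact orderOf_eq_one_iff.1 (Nat.eq_one_of_dvd_coprimes (((Nat.coprime_primes hr Fact.out).2 hp).pow j k)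
    (orderOf_dvd_of_pow_eq_one hj) (orderOf_dvd_of_pow_eq_one (Subtype.ext hk : g ^ p ^ k = 1)))

/-- `C_r × C_r` cannot act fixed-point-freely: if `y ∉ ⟨x⟩`, then for `E = ⟨x, y⟩` the sum over the
`r + 1` subgroups `A` of order `r` of `∑_{a ∈ A} ρ a` (each is `0`, no fixed vectors) is
`r + ∑_{g ∈ E} ρ g = r`, so `r = 0` in `ZMod p`.  (Or: `Lib.Frobenius.fpf_of_add` on `E` and the
library of `Lib/Frobenius/Compl`, S0040.) -/
theorem Fx.rr (h : Fx ρ) {r : ℕ} (hr : r.Prime) (hp : r ≠ p) {x y : H} (ox : orderOf x = r)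
    (oy : orderOf y = r) (c : x * y = y * x) : y ∈ zpowers x := by
  have hc : IsMulCommutative (closure ({x, y} : Set H)) :=
    isMulCommutative_closure (by
      rintro a (rfl | rfl) b (rfl | rfl)
      exacts [rfl, c, c.symm, rfl])
  have hR : IsPGroup r (closure ({x, y} : Set H)) := fun g => ⟨1, Subtype.ext <| by
    obtain ⟨g, hg⟩ := g
    simp only [pow_one, SubmonoidClass.coe_pow, OneMemClass.coe_one]
    induction hg using closure_induction with
    | mem a ha => rcases ha with rfl | rfl; exacts [ox ▸ pow_orderOf_eq_one _, oy ▸ pow_orderOf_eq_one _]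
    | one => exact one_pow r
    | mul a b ha hb ia ib => rw [Commute.mul_pow (setLike_mul_comm ha hb), ia, ib, one_mul]
    | inv a _ ia => rw [inv_pow, ia, inv_one]⟩
  have e := (h.fpf hr hp hR).zpowers_eq_of_commute (a := ⟨x, subset_closure (by simp)⟩)
    (b := ⟨y, subset_closure (by simp)⟩) (Subtype.ext c) (by rw [← orderOf_coe, ← orderOf_coe, ox, oy])
  obtain ⟨k, hk⟩ := e.ge (mem_zpowers _)
  exact ⟨k, congrArg Subtype.val hk⟩

/-- A nontrivial `r`-group with a unique subgroup of order `r` (a central one, `rr`) is cyclic for odd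
`r` (S0016). -/
theorem Fx.cyc (h : Fx ρ) {r : ℕ} [Fact r.Prime] (hp : r ≠ p) (h2 : r ≠ 2) {R : Subgroup H}
    (hR : IsPGroup r R) : IsCyclic R := by
  have := (h.fpf Fact.out hp hR).isCyclic_of_odd h2 (T := ⊤) (hR.to_subgroup ⊤)
  exact topEquiv.isCyclic.1 this

/-- `(ρ t - 1) (ρ t + 1) = 0` and `ρ t - 1` is injective. -/
theorem Fx.neg (h : Fx ρ) (hp : p ≠ 2) {t : H} (ht : orderOf t = 2) : ρ t = -1 := by
  ext v
  have t2 : t * t = 1 := by rw [← sq, ← ht, pow_orderOf_eq_one]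
  have e : ρ t (ρ t v + v) = ρ t v + v := by
    rw [map_add, ← Module.End.mul_apply, ← map_mul, t2, map_one, Module.End.one_apply, add_comm]
  by_contra n
  obtain ⟨k, hk⟩ := h.fix t _ (fun e0 => n (by simpa using eq_neg_of_add_eq_zero_left e0)) e
  have := orderOf_dvd_of_pow_eq_one hk
  rw [ht] at this
  exact hp ((Nat.prime_dvd_prime_iff_eq Nat.prime_two Fact.out).1 (Nat.prime_two.dvd_of_dvd_pow this)).symm

theorem Fx.inv_eq (h : Fx ρ) (hp : p ≠ 2) {s t : H} (hs : orderOf s = 2) (ht : orderOf t = 2) :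
    s = t := by
  exact h.inj ((h.neg hp hs).trans (h.neg hp ht).symm)

theorem Fx.inv_central (h : Fx ρ) (hp : p ≠ 2) {t : H} (ht : orderOf t = 2) : t ∈ center H := by
  refine mem_center_iff.2 fun g => h.inj ?_
  rw [map_mul, map_mul, h.neg hp ht, mul_neg, neg_mul, mul_one, one_mul]

/-- A normal `r`-subgroup `N`, `r` odd, of a perfect `H`: `r = p` gives `N ≤ O_p(H) = 1`; else `N` is
cyclic (`cyc`), `Aut N` is abelian so the perfect `H` centralises `N`, and the Sylow `r`-subgroup `R` is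
cyclic, so `R ⊓ Z(H) ⊓ H' = 1` (transfer; grep `Lib/Transfer`). -/
theorem Fx.bot_of_pgroup (h : Fx ρ) (hO : pCore p H = ⊥) (hH : commutator H = ⊤) {r : ℕ}
    [Fact r.Prime] (h2 : r ≠ 2) {N : Subgroup H} [N.Normal] (hN : IsPGroup r N) : N = ⊥ := by
  by_cases hp : r = p
  · subst hp
    exact eq_bot_iff.2 (hO ▸ Core.le_pCore inferInstance hN)
  have n : (⊤ : Subgroup H) ≤ normalizer (N : Set H) := normalizer_eq_top N ▸ le_rfl
  have c := PGroup.commutator_le_centralizer_of_isCyclic (h.cyc hp h2 hN) n n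
  rw [← commutator_def, hH] at c
  obtain ⟨P, hP⟩ := hN.exists_le_sylow
  have := h.cyc hp h2 P.isPGroup'
  have k := Transfer.center_inf_commutator_inf_sylow_le P
  rw [commutator_self_eq_bot_iff.2 inferInstance, hH] at k
  exact eq_bot_iff.2 fun x hx => k ⟨⟨mem_center_iff.2 fun g => (c (mem_top g) x hx).symm, mem_top x⟩, hP hx⟩

/-- Odd order groups are solvable (Feit-Thompson, `odd_sol`), so a nontrivial `N` has `O_r(N) ≠ 1`
for some odd prime `r`, normal in `H`; use `bot_of_pgroup`. -/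
theorem Fx.bot_of_odd (h : Fx ρ) (hO : pCore p H = ⊥) (hH : commutator H = ⊤) {N : Subgroup H}
    [N.Normal] (hN : Odd (Nat.card N)) : N = ⊥ := by
  by_contra h0
  obtain ⟨q, hq, e⟩ := Core.exists_pCore_inf_ne_bot (Cfsg.Agent.S0205.result hN) h0
  have := Fact.mk hq
  have hp : IsPGroup q ↥(pCore q H ⊓ N) := (Core.pCore_isPGroup q H).to_le inf_le_left
  refine e (h.bot_of_pgroup hO hH (r := q) ?_ hp)
  rintro rfl
  obtain ⟨_ | k, hk⟩ := IsPGroup.iff_card.1 hp
  · exact e (card_eq_one.1 hk)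
  · exact hN.not_two_dvd_nat ((hk ▸ dvd_pow_self 2 k.succ_ne_zero : 2 ∣ Nat.card ↥(pCore 2 H ⊓ N)).trans (card_dvd_of_le inf_le_right))

omit [Finite V] in
/-- The last term of the derived series. -/
theorem exists_perfect (ns : ¬ Group.IsSolvable H) :
    ∃ S : Subgroup H, S.Normal ∧ commutator S = ⊤ ∧ ¬ Group.IsSolvable S := by
  obtain ⟨n, hn⟩ := WellFoundedLT.antitone_chain_condition (derivedSeries_antitone H)
  have e : ⁅derivedSeries H n, derivedSeries H n⁆ = derivedSeries H n := (hn (n + 1) n.le_succ).symm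
  have c : commutator (derivedSeries H n) = ⊤ := by
    apply map_injective (derivedSeries H n).subtype_injective
    rw [map_subtype_commutator, e, ← MonoidHom.range_eq_map, range_subtype]
  refine ⟨_, inferInstance, c, fun hs => ns ⟨⟨n, ?_⟩⟩⟩
  by_contra h0
  have := (nontrivial_iff_ne_bot _).2 h0
  exact (Group.IsSolvable.commutator_lt_top_of_nontrivial (derivedSeries H n)).ne c

end Cfsg.Lib.GG
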