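import Cfsg.Agent.Lib.GG.Def
import Cfsg.Agent.Lib.Modular.AbFrobThree

/-!
# Gagola groups (S4841): every involution inverts an element of order 3
-/

set_option autoImplicit false

namespace Cfsg.Lib.GG

open Subgroup
open scoped MatrixGroups

section blk

open _root_.Cfsg.Lib.Block Cfsg.Lib.Char Cfsg.Lib.Modular Cfsg.Lib.Inv Finset

variable {L : Type*} [Group L] [Finite L]

theorem blk_idx [IsSimpleGroup L] (hna : ¬ IsMulCommutative L) (R : Sylow 3 L) (hc : IsCyclic R)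
    (h9 : 9 ≤ Nat.card R) :
    (centralizer ((R : Subgroup L) : Set L)).relIndex (normalizer ((R : Subgroup L) : Set L)) = 2 := by
  have : Fact (Nat.Prime 3) := ⟨Nat.prime_three⟩
  have hcm : IsMulCommutative (R : Subgroup L) := inferInstance
  have key := card_dvd_of_injective _
    (QuotientGroup.kerLift_injective (R : Subgroup L).normalizerMonoidHom)
  rw [normalizerMonoidHom_ker, ← index, ← relIndex] at key
  obtain ⟨k, hk⟩ := R.2.exists_card_eq
  have h0 : 0 < k := Nat.pos_of_ne_zero fun h => by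
    rw [h] at hk
    have : Nat.card R = 1 := hk
    omega
  rw [hc.card_mulAut, hk, Nat.totient_prime_pow Nat.prime_three h0] at key
  have hco : ((centralizer ((R : Subgroup L) : Set L)).relIndex
      (normalizer ((R : Subgroup L) : Set L))).Coprime (3 ^ (k - 1)) := by
    refine Nat.Coprime.pow_right _ ?_
    apply Nat.Coprime.coprime_dvd_left (relIndex_dvd_of_le_left _ (R : Subgroup L).le_centralizer)
    apply Nat.Coprime.coprime_dvd_left (relIndex_dvd_index_of_le (R : Subgroup L).le_normalizer)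
    rw [Nat.coprime_comm, Nat.Prime.coprime_iff_not_dvd Nat.prime_three]
    exact R.not_dvd_index
  refine ((Nat.dvd_prime Nat.prime_two).1 (hco.dvd_of_dvd_mul_left key)).resolve_left fun h => ?_
  have hN := relIndex_eq_one.1 h
  have hK := MonoidHom.ker_transferSylow_isComplement' R hN
  rcases (inferInstance : (MonoidHom.transferSylow R hN).ker.Normal).eq_bot_or_eq_top with e | e
  · rw [e, isComplement'_bot_left] at hK
    exact hna ⟨⟨fun a b => setLike_mul_comm (s := (R : Subgroup L)) (hK ▸ mem_top a)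
      (hK ▸ mem_top b)⟩⟩
  · rw [e, isComplement'_top_left] at hK
    have : Nat.card R = 1 := (R : Subgroup L).card_eq_one.2 hK
    omega

theorem blk_frob [IsSimpleGroup L] (hna : ¬ IsMulCommutative L) (R : Sylow 3 L) (hc : IsCyclic R)
    (h9 : 9 ≤ Nat.card R) : AbFrob (R : Subgroup L) 2 := by
  have : Fact (Nat.Prime 3) := ⟨Nat.prime_three⟩
  have hi := blk_idx hna R hc h9
  refine ⟨inferInstance, hi, fun y hy y1 => le_antisymm (fun g hg => ?_) (le_inf (fun g hg =>
    mem_centralizer_singleton_iff.2 (hg y hy).symm) (centralizer_le_normalizer _))⟩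
  have h2 : g ^ 2 ∈ centralizer ((R : Subgroup L) : Set L) :=
    hi ▸ pow_index_mem ((centralizer ((R : Subgroup L) : Set L)).subgroupOf
      (normalizer ((R : Subgroup L) : Set L))) ⟨g, hg.2⟩
  obtain ⟨r, hr⟩ := hc.exists_generator
  obtain ⟨j, hj⟩ := R.2.exists_card_eq
  have ho : orderOf (r : L) = 3 ^ j := by
    rw [Subgroup.orderOf_coe, orderOf_eq_card_of_forall_mem_zpowers hr]; exact hj
  have hz : ∀ x ∈ (R : Subgroup L), ∃ k : ℤ, (r : L) ^ k = x := fun x hx => by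
    obtain ⟨k, hk⟩ := hr ⟨x, hx⟩
    exact ⟨k, by simpa using congrArg Subtype.val hk⟩
  obtain ⟨k, hk⟩ := hz _ ((mem_normalizer_iff.1 hg.2 _).1 r.2)
  obtain ⟨m, rfl⟩ := hz y hy
  have hp : ∀ n : ℤ, g * (r : L) ^ n * g⁻¹ = (r : L) ^ (k * n) := fun n => by
    rw [zpow_mul, hk, conj_zpow]
  have d1 : ((3 : ℤ) ^ j) ∣ (k - 1) * m := by
    have : (r : L) ^ (k * m) = (r : L) ^ m := by
      rw [← hp, mem_centralizer_singleton_iff.1 hg.1, mul_inv_cancel_right]
    have := orderOf_dvd_sub_iff_zpow_eq_zpow.2 this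
    rw [ho] at this
    rw [sub_mul, one_mul]; exact_mod_cast this
  have d2 : ((3 : ℤ) ^ j) ∣ (k - 1) * (k + 1) := by
    have : (r : L) ^ (k * k) = (r : L) ^ (1 : ℤ) := by
      rw [← hp, hk, zpow_one]
      calc _ = g ^ 2 * r * (g ^ 2)⁻¹ := by simp only [sq]; group
        _ = r := by rw [← mem_centralizer_iff.1 h2 r r.2, mul_inv_cancel_right]
    have := orderOf_dvd_sub_iff_zpow_eq_zpow.2 this
    rw [ho] at this
    rw [show (k - 1) * (k + 1) = k * k - 1 by ring]; exact_mod_cast this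
  have d3 : (3 : ℤ) ∣ k - 1 := by
    by_contra h
    have := ((Int.prime_three.coprime_iff_not_dvd.2 h).pow_left (m := j)).dvd_of_dvd_mul_left d1
    refine y1 (orderOf_dvd_iff_zpow_eq_one.1 ?_)
    rw [ho]; exact_mod_cast this
  have d4 : ((3 : ℤ) ^ j) ∣ k - 1 :=
    ((Int.prime_three.coprime_iff_not_dvd.2 (show ¬ (3 : ℤ) ∣ k + 1 by omega)).pow_left
      (m := j)).dvd_of_dvd_mul_right d2
  intro x hx
  obtain ⟨n, rfl⟩ := hz x hx
  have : (r : L) ^ (k * n) = (r : L) ^ n := orderOf_dvd_sub_iff_zpow_eq_zpow.1 (by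
    rw [ho, show k * n - n = (k - 1) * n by ring]
    exact_mod_cast d4.mul_right n)
  rw [← hp] at this
  exact (mul_inv_eq_iff_eq_mul.1 this).symm

theorem blk_arith {x₁ x₂ u₁ u₂ : ℚ} {a δ : ℤ} (h₁ : 1 ≤ x₁) (h₂ : 1 ≤ x₂) (sa : a = 1 ∨ a = -1)
    (sd : δ = 1 ∨ δ = -1) (e1 : 1 + a * x₁ - δ * x₂ = 0) (e2 : 1 + a * u₁ - δ * u₂ = 0)
    (e3 : 1 + a * (u₁ ^ 2 / x₁) - δ * (u₂ ^ 2 / x₂) = 0) : u₁ = x₁ := by
  have key : ∀ x u : ℚ, 1 ≤ x → 1 + u ^ 2 / x = (1 + u) ^ 2 / (1 + x) → u = x := fun x u hx e => by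
    have h0 : x ≠ 0 := by linarith
    have h1 : 1 + x ≠ 0 := by linarith
    field_simp at e
    have : (u - x) ^ 2 = 0 := by linear_combination e
    exact sub_eq_zero.1 (pow_eq_zero_iff two_ne_zero |>.1 this)
  rcases sa with rfl | rfl <;> rcases sd with rfl | rfl <;> push_cast at e1 e2 e3
  · refine key _ _ h₁ ?_
    rw [show 1 + u₁ = u₂ by linarith, show 1 + x₁ = x₂ by linarith]; linarith
  · linarith
  · linarith
  · have := key x₂ u₂ h₂ (by
      rw [show 1 + u₂ = u₁ by linarith, show 1 + x₂ = x₁ by linarith]; linarith)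
    linarith

end blk

open _root_.Cfsg.Lib.Block Cfsg.Lib.Char Cfsg.Lib.Modular Cfsg.Lib.Inv Finset in
/-- `N(R)/C(R)` embeds in the `3'`-part of `Aut R` (order 2) and is nontrivial (Burnside's transfer,
`L` simple nonabelian), an element outside `C(R)` inverts `R`: `Lib.Modular.AbFrob R 2`.  Copy
`AbExc.involution` of `Lib/Modular/AbFrobThree`: `norm_eq` with `#Y = (|R| - 1)/2 ≥ 4` gives `d = 0`,
`X = {1, χ}`, `a χ = ±1`.  If `t` inverts no element of order 3 then no `x t x⁻¹ t` (inverted by `t`) has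
nontrivial 3-part, so `1 + a χ(1) = δ ζ(1)`, `1 + a χ(t) = δ ζ(t)`, `1 + a χ(t)²/χ(1) = δ ζ(t)²/ζ(1)`, which
force `χ(t) = χ(1)`, impossible in a simple group. -/
theorem inverts {L : Type*} [Group L] [Finite L] [IsSimpleGroup L] (hna : ¬ IsMulCommutative L)
    (R : Sylow 3 L) (hc : IsCyclic R) (h9 : 9 ≤ Nat.card R) {t : L} (ht : orderOf t = 2) :
    ∃ e : L, orderOf e = 3 ∧ t * e * t⁻¹ = e⁻¹ := by
  classical
  have : Fact (Nat.Prime 3) := ⟨Nat.prime_three⟩
  by_contra hno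
  have h := blk_frob hna R hc h9
  obtain ⟨M, hM⟩ := exists_isPModular Nat.prime_three
  have : Modular 3 M := ⟨hM⟩
  have h9' : 9 ≤ Nat.card (R : Subgroup L) := h9
  obtain ⟨X, Y, a, d, δ, ζ, e⟩ := h.exists_abExc (M := M) (by omega)
  have h1 := e.norm_eq h
  have hY : (4 : ℤ) ≤ #Y := by
    have := e.card
    have : 4 ≤ #Y := by omega
    exact_mod_cast this
  have h3 : 1 ≤ ∑ χ ∈ X, a χ ^ 2 :=
    le_trans (by exact_mod_cast card_pos.2 ⟨_, e.one_mem⟩) (e.card_le_sum h)
  have hd : d = 0 := by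
    by_contra hd
    have h4 : 1 ≤ d ^ 2 := (one_le_sq_iff_one_le_abs _).2 (Int.one_le_abs hd)
    push_cast at h1
    nlinarith [sq_nonneg (d - δ)]
  subst hd
  have hδ2 : δ ^ 2 = 1 := by rcases e.sign with h | h <;> simp [h]
  rw [← add_sum_erase _ _ e.one_mem, e.a_one, zero_sub, neg_sq, hδ2] at h1
  have h2 : ∑ χ ∈ X.erase (irrOne L), a χ ^ 2 = 1 := by push_cast at h1; linarith
  have h4 : ∀ χ ∈ X.erase (irrOne L), a χ ^ 2 = 1 := fun χ hχ => by
    have h4 := h2 ▸ single_le_sum (f := fun χ => a χ ^ 2) (fun χ _ => sq_nonneg _) hχ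
    have h5 := e.a_ne_zero h (mem_of_mem_erase hχ)
    have h6 : 1 ≤ a χ ^ 2 := (one_le_sq_iff_one_le_abs _).2 (Int.one_le_abs h5)
    omega
  rw [sum_congr rfl h4, sum_const, nsmul_eq_mul, mul_one] at h2
  obtain ⟨χ, hX⟩ := card_eq_one.1 (by exact_mod_cast h2 : #(X.erase (irrOne L)) = 1)
  have m2 : χ ∈ X.erase (irrOne L) := by simp [hX]
  have hχ : χ ≠ irrOne L := (mem_erase.1 m2).1
  have sa := sq_eq_one_iff.1 (h4 _ m2)
  have hX' : X = {irrOne L, χ} := by
    rw [← insert_erase e.one_mem, hX]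
  obtain ⟨ψ, hψ⟩ := e.exists_ne_one
  have ht2 := mul_self_of_orderOf ht
  have hy : ∀ (y : (R : Subgroup L)) (g : L), ¬ 3 ∣ orderOf g → dl ψ y ≠ 0 →
      ¬ IsConj (pPart 3 g) y := fun y g hg hy hc => by
    rw [pPart_of_not_dvd Nat.prime_three hg, isConj_one_right] at hc
    exact hy (by rw [show y = 1 from Subtype.ext hc, dl_apply_one])
  have hB := (Block.isPBlock_principalBlock (G := L) (M := M)).fblk_mem_SG
  have e1 := e.sum_regular hψ (g := 1) (by simp)
  have e2 := sum_col_mul_apply_eq_zero (θ := dl ψ) R.isPGroup' hB (g := t) fun y =>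
    hy y t (by rw [ht]; norm_num)
  have e3 := sum_col_mul_mul_div_eq_zero (θ := dl ψ) R.isPGroup' hB (s := t) (t := t)
    fun y h0 x => hy y _ (fun h3 => hno ⟨(x * t * x⁻¹ * t) ^ (orderOf (x * t * x⁻¹ * t) / 3),
      orderOf_pow_orderOf_div (orderOf_pos _).ne' h3, by
        have hs : x * t * x⁻¹ * (x * t * x⁻¹) = 1 := by rw [conj_mul, ht2]; simp
        rw [← conj_pow, pair_right_inv hs ht2, inv_pow]⟩) h0
  rw [e.sum_col hψ] at e2 e3
  choose u hu using fun χ : IrrCharacter L =>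
    χ.2.isGeneralizedCharacter.exists_int_of_sq_eq_one (ht ▸ pow_orderOf_eq_one t)
  have hn : (u χ : ℚ) ≠ charDegree (χ : L → ℂ) := fun hu' =>
    χ.2.charKer_ne_top (fun e => hχ (Subtype.ext e))
      (χ.2.isCharacter.charKer_normal.eq_bot_or_eq_top.resolve_left fun hb => by
        have : t ∈ charKer (χ : L → ℂ) := χ.2.isCharacter.mem_charKer_iff.2 (by
          rw [hu, χ.2.apply_one_eq]; exact_mod_cast hu')
        rw [hb, mem_bot] at this
        exact ne_one_of_orderOf ht this)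
  rw [hX', sum_pair hχ.symm, e.a_one] at e1 e2 e3
  simp only [irrOne_apply, Int.cast_zero, zero_mul, zero_sub, Int.cast_one, div_one,
    ← sub_eq_add_neg, ← sq] at e1 e2 e3
  simp only [hu, fun χ : IrrCharacter L => χ.2.apply_one_eq] at e1 e2 e3
  exact hn (blk_arith (x₂ := charDegree (ζ ψ : L → ℂ)) (u₂ := u (ζ ψ))
    (by exact_mod_cast χ.2.charDegree_pos) (by exact_mod_cast (ζ ψ).2.charDegree_pos) sa e.sign
    (by exact_mod_cast e1) (by exact_mod_cast e2) (by exact_mod_cast e3))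

end Cfsg.Lib.GG
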