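import Cfsg.Statements.S4841

/-!
# Gagola groups (S4841): definitions

`H` acts on a finite `𝔽_p`-space `V` through `ρ`.  `SP ρ`: faithful, `V ≠ 0`, the stabiliser of every
nonzero vector is a Sylow `p`-subgroup.  `Tr ρ`: transitive on nonzero vectors.  `Fx ρ`: faithful,
`V ≠ 0`, and only `p`-elements fix a nonzero vector (closed under subgroups).
-/

set_option autoImplicit false

namespace Cfsg.Lib.GG

open scoped MatrixGroups

variable {p : ℕ} [Fact p.Prime] {H V : Type*} [Group H] [AddCommGroup V] [Module (ZMod p) V]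

/-- Faithful, nonzero, and only `p`-elements fix a nonzero vector. -/
structure Fx (ρ : Representation (ZMod p) H V) : Prop where
  inj : Function.Injective ρ
  nt : ∃ v : V, v ≠ 0
  fix : ∀ (h : H) (v : V), v ≠ 0 → ρ h v = v → ∃ k : ℕ, h ^ p ^ k = 1

/-- Faithful, nonzero, stabilisers of nonzero vectors are Sylow `p`-subgroups. -/
structure SP (ρ : Representation (ZMod p) H V) : Prop where
  inj : Function.Injective ρ
  nt : ∃ v : V, v ≠ 0
  syl : ∀ v : V, v ≠ 0 → ∃ P : Sylow p H, ∀ h : H, ρ h v = v ↔ h ∈ (P : Subgroup H)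

/-- Transitive on the nonzero vectors. -/
def Tr (ρ : Representation (ZMod p) H V) : Prop :=
  ∀ v w : V, v ≠ 0 → w ≠ 0 → ∃ h : H, ρ h v = w

theorem SP.fx {ρ : Representation (ZMod p) H V} (h : SP ρ) : Fx ρ :=
  ⟨h.inj, h.nt, fun g v hv e => by
    obtain ⟨P, hP⟩ := h.syl v hv
    obtain ⟨k, hk⟩ := P.isPGroup' ⟨g, (hP g).1 e⟩
    exact ⟨k, by simpa using congrArg Subtype.val hk⟩⟩

theorem Fx.comp {ρ : Representation (ZMod p) H V} (h : Fx ρ) {K : Type*} [Group K] (f : K →* H)
    (hf : Function.Injective f) : Fx (p := p) (ρ.comp f) :=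
  ⟨h.inj.comp hf, h.nt, fun g v hv e => (h.fix (f g) v hv e).imp fun _ hk =>
    hf (by rw [map_pow, hk, map_one])⟩

/-- The number of vectors fixed by the subgroup `P`. -/
noncomputable def fc (ρ : Representation (ZMod p) H V) (P : Subgroup H) : ℕ :=
  Nat.card {v : V // ∀ h ∈ P, ρ h v = v}

/-- The conclusion of S4841 for `H = G / O_p(G)`. -/
def Shape (p : ℕ) (H : Type*) [Group H] : Prop :=
  (∃ (F : Type) (_ : Field F) (_ : Fintype F), (∃ a : ℕ, Fintype.card F = p ^ a) ∧ 2 < Fintype.card F ∧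
      ∃ S : Subgroup H, S.Normal ∧ Nonempty (S ≃* Matrix.SpecialLinearGroup (Fin 2) F) ∧ (∃ k : ℕ, S.index = p ^ k) ∧
        (∃ h : H, S ⊔ Subgroup.zpowers h = ⊤) ∧ Subgroup.centralizer (S : Set H) = (Subgroup.center S).map S.subtype) ∨
   (p = 3 ∧ ∃ S : Subgroup H, S.Normal ∧ S.index = 2 ∧ Nonempty (S ≃* Matrix.SpecialLinearGroup (Fin 2) (ZMod 5)) ∧
        Subgroup.centralizer (S : Set H) = (Subgroup.center S).map S.subtype ∧ ∀ K : Subgroup H, ¬ Subgroup.IsComplement' S K) ∨
   (p = 3 ∧ Nonempty (H ≃* Matrix.SpecialLinearGroup (Fin 2) (ZMod 13))) ∨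
   (p = 11 ∧ Nonempty (H ≃* Matrix.SpecialLinearGroup (Fin 2) (ZMod 5))) ∨
   (p = 29 ∧ Nonempty (H ≃* Matrix.SpecialLinearGroup (Fin 2) (ZMod 5) × Multiplicative (ZMod 7))) ∨
   (p = 59 ∧ Nonempty (H ≃* Matrix.SpecialLinearGroup (Fin 2) (ZMod 5) × Multiplicative (ZMod 29)))

/-- `⟨d, t⟩ ≅ A₄`: `d` has order `3`, `t` is an involution and `t d` has order `3`. -/
structure A4 (d t : H) : Prop where
  d3 : orderOf d = 3
  t2 : orderOf t = 2
  td : (t * d) ^ 3 = 1

/-- `H` has no subgroup `A₄`, in the strong form: two elements of order `3` whose quotient is a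
`2`-element are equal. -/
def NoA4 (H : Type*) [Group H] : Prop :=
  ∀ d e : H, orderOf d = 3 → orderOf e = 3 → (∃ k : ℕ, (e * d⁻¹) ^ 2 ^ k = 1) → e = d

/-- Commuting elements of the same odd prime order generate the same subgroup. -/
def RR (H : Type*) [Group H] : Prop :=
  ∀ (r : ℕ) (x y : H), r.Prime → r ≠ 2 → orderOf x = r → orderOf y = r → x * y = y * x →
    y ∈ Subgroup.zpowers x

section two

variable {L U : Type*} [Group L] [AddCommGroup U] [Module (ZMod 2) U]

/-- The fixed space of `t`. -/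
def W (ρ : Representation (ZMod 2) L U) (t : L) : Submodule (ZMod 2) U := LinearMap.ker (ρ t - 1)

theorem mem_W {ρ : Representation (ZMod 2) L U} {t : L} {v : U} : v ∈ W ρ t ↔ ρ t v = v := by
  simp [W, sub_eq_zero]

/-- `p = 2`: `Fx`, and every involution acts freely (`ker (t - 1) = range (t - 1)`). -/
structure Q2 (ρ : Representation (ZMod 2) L U) : Prop extends Fx ρ where
  half : ∀ t : L, orderOf t = 2 → LinearMap.range (ρ t - 1) = W ρ t

end two

end Cfsg.Lib.GG
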