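import Cfsg.Agent.Lib.GG.NA
import Cfsg.Agent.S0799
import Cfsg.Agent.S0813
import Cfsg.Agent.Lib.PSL2.Maximal
import Cfsg.Agent.Lib.PSL2.SmallIso

/-!
# Gagola groups (S4841): Dickson's theorem
-/

set_option autoImplicit false

namespace Cfsg.Lib.GG

open Subgroup
open scoped MatrixGroups

local notation "PSL2" => Matrix.ProjectiveSpecialLinearGroup (Fin 2)

theorem psl_sl (F : Type*) [Field F] [CharP F 2] : Nonempty (PSL2 F ≃* SL(2, F)) := by
  exact ⟨(MulEquiv.ofBijective PSL2.toL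
    ⟨PSL2.toL_injective CharTwo.two_eq_zero, PSL2.toL_surjective⟩).symm⟩

theorem dk_ch {F : Type*} [Field F] [CharP F 2] (s : SL(2, F)) :
    s.1 * s.1 = (s.1 0 0 + s.1 1 1) • s.1 + 1 := by
  have hd := s.2
  rw [Matrix.det_fin_two] at hd
  have two : (2 : F) = 0 := CharTwo.two_eq_zero
  ext i j
  fin_cases i <;> fin_cases j <;> simp [Matrix.mul_apply, Fin.sum_univ_two]
  · linear_combination (-1) * hd - two
  · ring
  · ring
  · linear_combination (-1) * hd - two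

theorem dk_scal {F : Type*} [Field F] [CharP F 2] {s : SL(2, F)} {u v : F} (hu : u ≠ 0)
    (h : u • s.1 = v • (1 : Matrix (Fin 2) (Fin 2) F)) : s = 1 := by
  have hd := s.2
  rw [Matrix.det_fin_two] at hd
  have two : (2 : F) = 0 := CharTwo.two_eq_zero
  have h00 : u * s.1 0 0 = v := by simpa using congrFun (congrFun h 0) 0
  have h11 : u * s.1 1 1 = v := by simpa using congrFun (congrFun h 1) 1
  have h01 : s.1 0 1 = 0 := by simpa [hu] using congrFun (congrFun h 0) 1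
  have h10 : s.1 1 0 = 0 := by simpa [hu] using congrFun (congrFun h 1) 0
  have e : s.1 1 1 = s.1 0 0 := mul_left_cancel₀ hu (h11.trans h00.symm)
  have e1 : s.1 0 0 = 1 := by
    rw [e, h01] at hd
    exact sub_eq_zero.1 (pow_eq_zero_iff two_ne_zero |>.1
      (by linear_combination hd + (1 - s.1 0 0) * two : (s.1 0 0 - 1) ^ 2 = 0))
  ext i j
  fin_cases i <;> fin_cases j
  exacts [e1, h01, h10, e.trans e1]

/-- An involution of `SL(2, F)`, `char F = 2`, commutes with no element of order 3. -/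
theorem no_six {F : Type*} [Field F] [CharP F 2] {x d : PSL2 F} (hx : orderOf x = 2)
    (hd : orderOf d = 3) : x * d ≠ d * x := by
  intro c
  have two : (2 : F) = 0 := CharTwo.two_eq_zero
  have inj := PSL2.toL_injective two
  obtain ⟨a, rfl⟩ := PSL2.toL_surjective x
  obtain ⟨b, rfl⟩ := PSL2.toL_surjective d
  rw [orderOf_injective _ inj] at hx hd
  rw [← map_mul, ← map_mul] at c
  have c : a.1 * b.1 = b.1 * a.1 := congrArg Subtype.val (inj c)
  have a2 : a.1 * a.1 = 1 := congrArg Subtype.val (show a * a = 1 by rw [← sq]; exact orderOf_dvd_iff_pow_eq_one.1 hx.dvd)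
  have b3 : b.1 * (b.1 * b.1) = 1 :=
    congrArg Subtype.val (show b * (b * b) = 1 by rw [← pow_three, ← hd, pow_orderOf_eq_one])
  have hb := dk_ch b
  generalize b.1 0 0 + b.1 1 1 = t at hb
  have t1 : t = 1 := by
    by_contra ht
    have h1 : t ^ 2 + 1 ≠ 0 := fun h => ht (sub_eq_zero.1 (pow_eq_zero_iff two_ne_zero |>.1
      (by linear_combination h - t * two : (t - 1) ^ 2 = 0)))
    have h2 : (t ^ 2 + 1) • b.1 = (1 - t) • (1 : Matrix (Fin 2) (Fin 2) F) := by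
      rw [hb, mul_add, mul_smul_comm, hb, mul_one, smul_add, smul_smul] at b3
      rw [add_smul, sub_smul, one_smul, one_smul, sq, eq_sub_iff_add_eq]
      exact (add_right_comm _ _ _).trans b3
    rw [dk_scal h1 h2, orderOf_one] at hd
    omega
  rw [t1, one_smul] at hb
  have hy := dk_ch (a * b)
  generalize (a * b).1 0 0 + (a * b).1 1 1 = u at hy
  change a.1 * b.1 * (a.1 * b.1) = u • (a.1 * b.1) + 1 at hy
  rw [mul_assoc, ← mul_assoc b.1, ← c, mul_assoc, ← mul_assoc, a2, one_mul, hb, add_left_inj] at hy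
  have h3 : u • a.1 = (1 : F) • (1 : Matrix (Fin 2) (Fin 2) F) := by
    have := congrArg (· * (b.1 * b.1)) hy
    simp only [smul_mul_assoc, mul_assoc, b3, mul_one] at this
    rw [one_smul, ← this]
  have hu : u ≠ 0 := by
    rintro rfl
    simpa using congrFun (congrFun h3 0) 0
  rw [dk_scal hu h3, orderOf_one] at hx
  omega

/-- `|F| = 2 ^ j`, `j ≥ 3` odd: `Out` has odd order `j` (S2602 or S0813), so `σ` is conjugation by some
`x` with `x² = 1` (trivial centre); `no_six` gives `x = 1`. -/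
theorem aut_eq_one {F : Type*} [Field F] [Fintype F] {j : ℕ} (hF : Fintype.card F = 2 ^ j)
    (ho : Odd j) (h3 : 3 ≤ j) (σ : MulAut (PSL2 F)) (σ2 : σ * σ = 1) {d : PSL2 F}
    (hd : orderOf d = 3) (σd : σ d = d) : σ = 1 := by
  haveI : CharP F 2 := charP_of_card_eq_prime_pow hF
  have h8 : 2 ^ 3 ≤ 2 ^ j := Nat.pow_le_pow_right two_pos h3
  have hc : Nat.card F = 2 ^ j := Nat.card_eq_fintype_card.trans hF
  haveI := PSL2.isSimpleGroup_psl (F := F) (by omega)
  have inj : Function.Injective (MulAut.conj : PSL2 F →* MulAut (PSL2 F)) := by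
    rw [injective_iff_map_eq_one]
    intro x hx
    have hz : x ∈ center (PSL2 F) := mem_center_iff.2 fun y => by
      have := DFunLike.congr_fun hx y
      simp only [MulAut.conj_apply, MulAut.one_apply, mul_inv_eq_iff_eq_mul] at this
      exact this.symm
    rcases (inferInstance : (center (PSL2 F)).Normal).eq_bot_or_eq_top with e | e
    · rwa [e, mem_bot] at hz
    · exact absurd ⟨⟨fun a b => mem_center_iff.1 (e.ge (mem_top b)) a⟩⟩ PSL2.not_isMulCommutative_psl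
  haveI : (MulAut.conj : PSL2 F →* MulAut (PSL2 F)).range.Normal := ⟨by
    rintro _ ⟨x, rfl⟩ g
    exact ⟨g x, by ext y; simp⟩⟩
  have hi : (MulAut.conj : PSL2 F →* MulAut (PSL2 F)).range.index = j := by
    have h1 := Cfsg.Agent.S0813.result 2 j (by omega) hF 2 le_rfl (fun _ => by omega)
    obtain ⟨e⟩ := PSL2.equiv_psl_pgl_of_even (F := F) (by
      rw [hc, Nat.not_odd_iff_even]; exact (Nat.even_pow.2 ⟨even_two, by omega⟩))
    rw [← (MulAut.conj : PSL2 F →* MulAut (PSL2 F)).range.card_mul_index,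
      ← Nat.card_congr (MonoidHom.ofInjective inj).toEquiv, ← Nat.card_congr e.toEquiv, if_pos rfl,
      one_mul, mul_comm j] at h1
    exact Nat.eq_of_mul_eq_mul_left Nat.card_pos h1
  have hm := pow_index_mem (H := (MulAut.conj : PSL2 F →* MulAut (PSL2 F)).range) σ
  obtain ⟨i, rfl⟩ := ho
  rw [hi, pow_succ, pow_mul, sq, σ2, one_pow, one_mul] at hm
  obtain ⟨x, rfl⟩ := hm
  by_contra hne
  have x1 : x ≠ 1 := fun e => hne (by rw [e, map_one])
  have x2 : x ^ 2 = 1 := inj (by rw [sq, map_mul, σ2, map_one])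
  exact no_six (orderOf_eq_prime x2 x1) hd (mul_inv_eq_iff_eq_mul.1 σd)

theorem dk_fin {X Y Z : Type*} [Group X] [Group Y] [Group Z] (n : NoA4 X) (ψ : X →* Y)
    (hψ : ∀ x, ψ x = 1 → ∃ k : ℕ, x ^ 2 ^ k = 1) {d e : X} (he : orderOf e = 3) (g : Y →* Z)
    (hg : Function.Injective g)
    (h : ∃ k : ℕ, (g (ψ d) * g (ψ e) * (g (ψ d))⁻¹ * (g (ψ e))⁻¹) ^ 2 ^ k = 1) : d * e = e * d := by
  obtain ⟨k, h⟩ := h
  simp only [← map_inv, ← map_mul, ← map_pow] at h
  obtain ⟨l, hl⟩ := hψ _ (hg (h.trans (map_one g).symm))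
  rw [← pow_mul, ← pow_add] at hl
  exact mul_inv_eq_iff_eq_mul.1 (n e (d * e * d⁻¹) he (((MulAut.conj d).orderOf_eq e).trans he) ⟨_, hl⟩)

theorem dk_fin' {X Y Z : Type*} [Group X] [Group Y] [Group Z] (n : NoA4 X) (ψ : X →* Y)
    (hψ : ∀ x, ψ x = 1 → ∃ k : ℕ, x ^ 2 ^ k = 1) {d e : X} (he : orderOf e = 3) (g : Y →* Z)
    (hg : Function.Injective g) (h : g (ψ d) * g (ψ e) = g (ψ e) * g (ψ d)) : d * e = e * d :=
  dk_fin n ψ hψ he g hg ⟨0, by rw [h]; group⟩

theorem dk_card {F K : Type*} [Field F] [Fintype F] [CharP F 2] [Field K] [Fintype K] {m : ℕ}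
    (hm : Fintype.card K ^ m = Fintype.card F) : ∃ j, 1 ≤ j ∧ Fintype.card K = 2 ^ j := by
  obtain ⟨a, -, ha⟩ := FiniteField.card F 2
  have m0 : m ≠ 0 := by
    rintro rfl
    have := Fintype.one_lt_card (α := F)
    rw [pow_zero] at hm
    omega
  obtain ⟨j, -, hj⟩ := (Nat.dvd_prime_pow Nat.prime_two).1 (ha ▸ hm ▸ dvd_pow_self (Fintype.card K) m0)
  refine ⟨j, Nat.pos_of_ne_zero ?_, hj⟩
  rintro rfl
  have := Fintype.one_lt_card (α := K)
  omega

theorem dk_dih {k : ℕ} {x y : DihedralGroup k} (hx : x ^ 3 = 1) (hy : y ^ 3 = 1) : x * y = y * x := by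
  have h : ∀ i : ZMod k, (DihedralGroup.sr i : DihedralGroup k) ^ 3 ≠ 1 := fun i e => by
    have := orderOf_dvd_of_pow_eq_one e
    rw [DihedralGroup.orderOf_sr] at this
    omega
  rcases x with i | i
  · rcases y with j | j
    · simp [add_comm]
    · exact absurd hy (h j)
  · exact absurd hx (h i)

theorem dk_bor {F : Type*} [Field F] [Finite F] [CharP F 2] (P : Sylow 2 (PSL2 F)) {a b : PSL2 F}
    (ha : a ∈ normalizer ((P : Subgroup (PSL2 F)) : Set (PSL2 F)))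
    (hb : b ∈ normalizer ((P : Subgroup (PSL2 F)) : Set (PSL2 F))) :
    ∃ k : ℕ, (a * b * a⁻¹ * b⁻¹) ^ 2 ^ k = 1 := by
  obtain ⟨x, hx⟩ := PSL2.exists_sylow_eq_unipL 2 P
  rw [hx, PSL2.normalizer_unipL, ← PSL2.comap_stabilizer_toP, mem_comap] at ha hb
  have h : (⟨_, ha⟩ * ⟨_, hb⟩ * (⟨_, ha⟩)⁻¹ * (⟨_, hb⟩)⁻¹ : MulAction.stabilizer _ x) ∈ (PSL2.mult x).ker := by
    rw [MonoidHom.mem_ker, map_mul, map_mul, map_mul, map_inv, map_inv, mul_inv_cancel_comm, mul_inv_cancel]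
  rw [PSL2.ker_mult, mem_subgroupOf] at h
  have h1 : a * b * a⁻¹ * b⁻¹ ∈ PSL2.unipL x := by
    rw [PSL2.mem_unipL, map_mul, map_mul, map_mul, map_inv, map_inv]; exact h
  obtain ⟨k, hk⟩ := PSL2.isPGroup_unipL 2 x ⟨_, h1⟩
  exact ⟨k, congrArg Subtype.val hk⟩

theorem dk_odd {X : Type*} [Group X] [Finite X] {K : Type*} [Field K] [Fintype K] {j : ℕ}
    (hK : Fintype.card K = 2 ^ j) (ho : Odd j) (h3 : 3 ≤ j) (ψ : X →* PSL2 K) (hs : Function.Surjective ψ)
    (hk : ∀ x, ψ x = 1 → ∃ k : ℕ, x ^ 2 ^ k = 1) {d e : X} (hd : orderOf d = 3) (he : orderOf e = 3)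
    (σ : MulAut X) (σ2 : σ * σ = 1) (σd : σ d = d) (σe : σ e = e⁻¹) : False := by
  have h8 : 2 ^ 3 ≤ 2 ^ j := Nat.pow_le_pow_right two_pos h3
  have hc : Nat.card K = 2 ^ j := Nat.card_eq_fintype_card.trans hK
  haveI := PSL2.isSimpleGroup_psl (F := K) (by omega)
  have n3 : ∀ x : X, orderOf x = 3 → ψ x ≠ 1 := fun x hx h => by
    obtain ⟨k, hk⟩ := hk x h
    have := orderOf_dvd_of_pow_eq_one hk
    rw [hx] at this
    exact absurd (Nat.prime_three.dvd_of_dvd_pow this) (by norm_num)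
  haveI : Fact (Nat.Prime 3) := ⟨Nat.prime_three⟩
  have o3 : orderOf (ψ d) = 3 :=
    orderOf_eq_prime (by rw [← map_pow, ← hd, pow_orderOf_eq_one, map_one]) (n3 d hd)
  have hp : IsPGroup 2 ψ.ker := fun x => (hk x x.2).imp fun k h => Subtype.ext h
  have le : ψ.ker ≤ (ψ.comp σ.toMonoidHom).ker := by
    rcases (Normal.map (inferInstance : ψ.ker.Normal) (ψ.comp σ.toMonoidHom)
      (hs.comp σ.surjective)).eq_bot_or_eq_top with h | h
    · exact (Subgroup.map_eq_bot_iff _).1 h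
    · obtain ⟨k, hk⟩ := hp.map (ψ.comp σ.toMonoidHom) ⟨ψ d, h.ge (mem_top _)⟩
      have := orderOf_dvd_of_pow_eq_one (show ψ d ^ 2 ^ k = 1 from congrArg Subtype.val hk)
      rw [o3] at this
      exact absurd (Nat.prime_three.dvd_of_dvd_pow this) (by norm_num)
  let τ0 : PSL2 K →* PSL2 K := ψ.liftOfSurjective hs ⟨_, le⟩
  have hτ : ∀ x, τ0 (ψ x) = ψ (σ x) := fun x => ψ.liftOfRightInverse_comp_apply _ _ _ x
  have inv : Function.Involutive τ0 := fun y => by
    obtain ⟨x, rfl⟩ := hs y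
    rw [hτ, hτ, ← MulAut.mul_apply, σ2, MulAut.one_apply]
  have h1 := aut_eq_one hK ho h3 (MulEquiv.ofBijective τ0 inv.bijective) (MulEquiv.ext fun y => inv y) o3
    ((hτ d).trans (by rw [σd]))
  have h2 : ψ e⁻¹ = ψ e := by
    rw [← σe, ← hτ]; exact DFunLike.congr_fun h1 (ψ e)
  refine n3 e he ?_
  have e3 : e * (e * e) = 1 := by rw [← pow_three, ← he, pow_orderOf_eq_one]
  have e2 : ψ (e * e) = 1 := by rw [map_mul]; nth_rw 1 [← h2]; rw [← map_mul, inv_mul_cancel, map_one]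
  have := congrArg ψ e3
  rwa [map_mul, e2, mul_one, map_one] at this

/-- `ker f` is a normal 2-subgroup, central by `NoA4.cent`.  If `⁅d, e⁆` lies in a normal 2-subgroup it
is central, `⁅d, e⁆³ = ⁅d³, e⁆ = 1`, so `d e = e d`.  S0799 for the image `Y` in `PSL(2, F)` (`NoA4 Y` by
`of_surj`): cyclic, dihedral (elements of order 3 are rotations), Borel (`N(P)' ≤ P`), `PSL(2, 2)`,
`PGL(2, 2)` give that; `A₄, S₄, A₅`, `PSL(2, 4 ^ j)` contain `A₄`; `PGL(2, K) ≅ PSL(2, K)` in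
characteristic 2.  For `Y ≅ PSL(2, 2 ^ j)`, `j ≥ 3` odd, `Y` is simple, so `σ` preserves
`ker f = O₂(X)` and induces an automorphism of `Y`, trivial by `aut_eq_one`, but it inverts the image of
`e`. -/
theorem dick {X : Type*} [Group X] [Finite X] {F : Type*} [Field F] [Fintype F] [CharP F 2]
    (f : X →* SL(2, F)) (hk : ∀ x, f x = 1 → ∃ k : ℕ, x ^ 2 ^ k = 1) {d e : X}
    (hd : orderOf d = 3) (he : orderOf e = 3) (gen : closure ({d, e} : Set X) = ⊤) (n : NoA4 X)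
    (σ : MulAut X) (σ2 : σ * σ = 1) (σd : σ d = d) (σe : σ e = e⁻¹) : d * e = e * d := by
  let φ : X →* PSL2 F := PSL2.toL.comp f
  let ψ := φ.rangeRestrict
  have hs : Function.Surjective ψ := φ.rangeRestrict_surjective
  have hψ : ∀ x, ψ x = 1 → ∃ k : ℕ, x ^ 2 ^ k = 1 := fun x h =>
    hk x (PSL2.toL_injective CharTwo.two_eq_zero ((congrArg Subtype.val h).trans (map_one _).symm))
  have nY : NoA4 φ.range := n.of_surj ψ hs hψ
  have p3 : ∀ {x : X}, orderOf x = 3 → ψ x ^ 3 = 1 := fun hx => by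
    rw [← map_pow, ← hx, pow_orderOf_eq_one, map_one]
  have psl : ∀ (K : Type) [Field K] [Fintype K] (m : ℕ), Fintype.card K ^ m = Fintype.card F →
      (φ.range ≃* PSL2 K) → d * e = e * d := by
    intro K _ _ m hm g
    obtain ⟨j, hj1, hj⟩ := dk_card hm
    rcases Nat.even_or_odd j with ⟨i, rfl⟩ | ho
    · exact absurd (nY.of_inj g.symm.toMonoidHom g.symm.injective)
        (not_noA4_psl_even (j := i) (by rw [hj, ← two_mul, pow_mul]; rfl))
    by_cases h3 : 3 ≤ j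
    · exact (dk_odd hj ho h3 (g.toMonoidHom.comp ψ) (g.surjective.comp hs)
        (fun x h => hψ x (g.injective (h.trans (map_one g).symm))) hd he σ σ2 σd σe).elim
    obtain rfl : j = 1 := by obtain ⟨i, rfl⟩ := ho; omega
    obtain ⟨g'⟩ := PSL2.equiv_psl_perm_three (F := K) (Nat.card_eq_fintype_card.trans hj)
    have key : ∀ x y : Equiv.Perm (Fin 3), x ^ 3 = 1 → y ^ 3 = 1 → x * y = y * x := by decide
    exact dk_fin' n ψ hψ he (g.trans g').toMonoidHom (g.trans g').injective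
      (key _ _ (by rw [← map_pow, p3 hd, map_one]) (by rw [← map_pow, p3 he, map_one]))
  rcases Cfsg.Agent.S0799.result rfl 2 φ.range with ⟨k, -, ⟨hc, -⟩ | ⟨⟨g⟩⟩⟩ | ⟨P, K, hK, ⟨g⟩⟩ | ⟨⟨g⟩⟩ |
    ⟨⟨g⟩⟩ | ⟨⟨g⟩⟩ | ⟨K, _, _, m, hm, ⟨⟨g⟩⟩ | ⟨⟨g⟩⟩⟩
  · exact dk_fin' n ψ hψ he (MonoidHom.id _) Function.injective_id (hc.commutative.1.1 _ _)
  · exact dk_fin' n ψ hψ he g.toMonoidHom g.injective
      (dk_dih (by rw [← map_pow, p3 hd, map_one]) (by rw [← map_pow, p3 he, map_one]))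
  · exact dk_fin n ψ hψ he (K.subtype.comp g.toMonoidHom) (K.subtype_injective.comp g.injective)
      (dk_bor P (hK (g (ψ d)).2) (hK (g (ψ e)).2))
  · exact absurd (nY.of_inj g.symm.toMonoidHom g.symm.injective) (not_noA4_alt le_rfl)
  · exact absurd (nY.of_inj g.symm.toMonoidHom g.symm.injective) not_noA4_perm4
  · exact absurd (nY.of_inj g.symm.toMonoidHom g.symm.injective) (not_noA4_alt (by norm_num))
  · exact psl K m hm g
  · obtain ⟨j, hj1, hj⟩ := dk_card hm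
    obtain ⟨g'⟩ := PSL2.equiv_psl_pgl_of_even (F := K) (by
      rw [Nat.card_eq_fintype_card, hj, Nat.not_odd_iff_even]; exact (Nat.even_pow.2 ⟨even_two, by omega⟩))
    exact psl K m hm (g.trans g'.symm)

end Cfsg.Lib.GG
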