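import Cfsg.Agent.Lib.GG.Bas
import Cfsg.Agent.Lib.GG.Bas2
import Cfsg.Agent.Lib.Core.MinNormal
import Cfsg.Agent.S0199

/-!
# Gagola groups (S4841): p = 2, involutions
-/

set_option autoImplicit false

namespace Cfsg.Lib.GG

open Subgroup
open scoped MatrixGroups

variable {L U : Type*} [Group L] [Finite L] [AddCommGroup U] [Module (ZMod 2) U] [Finite U]
  {ρ : Representation (ZMod 2) L U}

theorem Fx.RR (h : Fx ρ) : RR L := fun _ _ _ hr h2 ox oy c => h.rr hr h2 ox oy c

/-- `S` from `exists_perfect`, `N` a minimal normal subgroup of `L` inside `S`.  If `N` is a `q`-group: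
`q = 2` contradicts `O_2(L) = 1`, `q` odd contradicts `Fx.bot_of_pgroup` in `S` (`pCore_sub`).  Else `N`
is a direct product of isomorphic nonabelian simple groups (grep `minimal normal` /
`characteristicallySimple`); two factors would give commuting elements of the same odd prime order
generating different subgroups (`Fx.rr`). -/
theorem core2 (h : Fx ρ) (hO : pCore 2 L = ⊥) (ns : ¬ Group.IsSolvable L) :
    ∃ N : Subgroup L, N.Normal ∧ IsSimpleGroup N ∧ ¬ IsMulCommutative N := by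
  obtain ⟨S, nS, pS, sS⟩ := exists_perfect ns
  obtain ⟨N, hN, le⟩ := Core.exists_isMinNormal_le nS fun e => sS (e ▸ inferInstance)
  have := hN.normal
  have n2 : ¬ Group.IsSolvable N := fun hs => by
    obtain ⟨q, hq, hp⟩ := hN.exists_isPGroup hs
    have := Fact.mk hq
    by_cases q2 : q = 2
    · subst q2
      exact hN.ne_bot (Core.pCore_eq_bot_iff.1 hO N hN.normal hp)
    · have e := (h.comp S.subtype S.subtype_injective).bot_of_pgroup (pCore_sub hO S) pS q2 (N := N.subgroupOf S)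
        (hp.comap_of_injective _ S.subtype_injective)
      rw [subgroupOf_eq_bot, disjoint_iff, inf_eq_left.2 le] at e
      exact hN.ne_bot e
  have nt := (nontrivial_iff_ne_bot N).2 hN.ne_bot
  refine ⟨N, this, ⟨fun K hK => or_iff_not_imp_left.2 fun K0 => ?_⟩, fun c => n2 (Group.isSolvable_of_comm fun a b => mul_comm' a b)⟩
  obtain ⟨M, hM, l⟩ := Core.exists_isMinNormal_le hK K0
  have k : ∀ g : L, M.map (MulAut.conjNormal g : MulAut N).toMonoidHom = M := fun g => by_contra fun ne => by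
    have hM' := hM.map_equiv (MulAut.conjNormal g : MulAut N)
    obtain ⟨r, hr, r2, d⟩ : ∃ r : ℕ, r.Prime ∧ r ≠ 2 ∧ r ∣ Nat.card M := by
      by_contra! q
      refine hM.ne_bot (Core.pCore_eq_bot_iff.1 (pCore_sub hO N) M hM.normal (IsPGroup.of_card
        (Nat.eq_prime_pow_of_unique_prime_dvd Nat.card_pos.ne' fun {r} hr d => by_contra fun r2 => q r hr r2 d)))
    obtain ⟨x, hx, ox⟩ := Core.exists_mem_orderOf_eq_prime hr d
    have m := mem_map_of_mem (MulAut.conjNormal g : MulAut N).toMonoidHom hx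
    have oy := ((MulAut.conjNormal g : MulAut N).orderOf_eq x).trans ox
    have z := (h.comp N.subtype N.subtype_injective).rr hr r2 ox oy (hM'.le_centralizer_of_ne hM ne m x hx)
    have e := (hM'.inf_eq_bot_of_ne hM ne).le ⟨m, zpowers_le.2 hx z⟩
    exact hr.one_lt.ne' (oy.symm.trans (orderOf_eq_one_iff.2 e))
  have e := hN.eq_of_le (K := M.map N.subtype) ⟨by
      rintro _ ⟨x, hx, rfl⟩ g
      exact ⟨_, (k g).le (mem_map_of_mem _ hx), rfl⟩⟩
    (mt (map_eq_bot_iff_of_injective _ N.subtype_injective).1 hM.ne_bot) (map_subtype_le M)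
  refine top_le_iff.1 fun x _ => l ?_
  obtain ⟨y, hy, q⟩ := e.ge x.2
  exact Subtype.ext q ▸ hy

omit [Finite L] [Finite U] in
theorem sq_sub_one (ρ : Representation (ZMod 2) L U) (y : L) : (ρ y - 1) ^ 2 = ρ (y ^ 2) - 1 := by
  have e : ∀ f : Module.End (ZMod 2) U, f + f = 0 := fun f => by
    rw [← two_smul (ZMod 2), show (2 : ZMod 2) = 0 from rfl, zero_smul]
  rw [map_pow, pow_two, pow_two, sub_mul, mul_sub, mul_one, one_mul, sub_sub, ← add_sub_assoc, e, zero_sub, sub_neg_eq_add,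
    sub_eq_add_neg, neg_eq_of_add_eq_zero_left (e 1)]

omit [Finite L] [Finite U] in
theorem pow_sub_one (ρ : Representation (ZMod 2) L U) (y : L) (j : ℕ) : (ρ y - 1) ^ 2 ^ j = ρ (y ^ 2 ^ j) - 1 := by
  induction j with
  | zero => simp
  | succ j ih => rw [pow_succ 2, pow_mul, ih, sq_sub_one, ← pow_mul]

omit [Finite L] [Finite U] in
theorem W_conj (ρ : Representation (ZMod 2) L U) (g t : L) :
    W ρ (g * t * g⁻¹) = (W ρ t).map (ρ g) := by
  ext v
  rw [mem_W, Submodule.mem_map]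
  constructor
  · refine fun e => ⟨ρ g⁻¹ v, mem_W.2 ?_, ρ.self_inv_apply g v⟩
    nth_rewrite 2 [← e]
    rw [← Module.End.mul_apply, ← Module.End.mul_apply, ← map_mul, ← map_mul, ← mul_assoc, inv_mul_cancel_left]
  · rintro ⟨w, hw, rfl⟩
    rw [← Module.End.mul_apply, ← map_mul, inv_mul_cancel_right, map_mul, Module.End.mul_apply, mem_W.1 hw]

/-- Baer-Suzuki (S0199): some `⟨t, t^g⟩` is not a 2-group, so with `s = t^g` no nonzero vector is fixed
by both (`⟨t, s⟩` is dihedral: it is a 2-group iff `t s` is a 2-element; use `fix`).  So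
`W t ⊓ W s = ⊥`, `|W t| = |W s|`, `|W t|² ≤ |U| = |W t| |range (ρ t - 1)|` and `range ≤ W t`. -/
theorem Fx.q2 (h : Fx ρ) (hO : pCore 2 L = ⊥) : Q2 ρ := by
  refine ⟨h, fun t ht => ?_⟩
  obtain ⟨g, hg⟩ : ∃ g : L, W ρ t ⊓ W ρ (g * t * g⁻¹) = ⊥ := by
    by_contra! q
    obtain ⟨N, n1, n2, n3⟩ := Agent.S0199.result (p := 2) (zpowers t)
      (IsPGroup.of_card (n := 1) (by rw [Nat.card_zpowers, ht, pow_one])) fun g => by
        obtain ⟨v, ⟨v1, v2⟩, v0⟩ := Submodule.exists_mem_ne_zero_of_ne_bot (q g)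
        let T : Subgroup L :=
          { carrier := {x | ρ x v = v}
            one_mem' := by simp
            mul_mem' := fun {a b} ha hb => by
              change ρ (a * b) v = v
              rw [map_mul, Module.End.mul_apply, show ρ b v = v from hb, show ρ a v = v from ha]
            inv_mem' := fun {a} ha => by
              change ρ a⁻¹ v = v
              nth_rewrite 1 [← show ρ a v = v from ha]
              exact ρ.inv_self_apply a v }
        have hT : IsPGroup 2 T := fun x => (h.fix x v v0 x.2).imp fun _ e => Subtype.ext e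
        refine hT.to_le (sup_le (zpowers_le.2 (mem_W.1 v1)) ?_)
        rw [MonoidHom.map_zpowers]
        exact zpowers_le.2 (mem_W.1 v2)
    rw [Core.pCore_eq_bot_iff.1 hO N n1 n2, le_bot_iff, zpowers_eq_bot] at n3
    rw [n3, orderOf_one] at ht
    omega
  have e1 := Submodule.finrank_sup_add_finrank_inf_eq (W ρ t) (W ρ (g * t * g⁻¹))
  have e2 := LinearMap.finrank_range_add_finrank_ker (ρ t - 1)
  have e3 := Submodule.finrank_le (W ρ t ⊔ W ρ (g * t * g⁻¹))
  have e4 : Module.finrank (ZMod 2) (W ρ t) ≤ Module.finrank (ZMod 2) (W ρ (g * t * g⁻¹)) := by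
    have := Submodule.finrank_map_le (ρ g⁻¹) (W ρ (g * t * g⁻¹))
    rwa [← W_conj, show g⁻¹ * (g * t * g⁻¹) * g⁻¹⁻¹ = t by group] at this
  rw [hg, finrank_bot] at e1
  refine Submodule.eq_of_le_of_finrank_le (LinearMap.range_le_ker_iff.2 ?_) (by unfold W at *; omega)
  rw [← Module.End.mul_eq_comp, ← pow_two, sq_sub_one, show t ^ 2 = 1 from ht ▸ pow_orderOf_eq_one t, map_one, sub_self]

theorem Q2.card_W (h : Q2 ρ) {t : L} (ht : orderOf t = 2) :
    Nat.card (W ρ t) ^ 2 = Nat.card U := by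
  have e := LinearMap.finrank_range_add_finrank_ker (ρ t - 1)
  rw [h.half t ht] at e
  rw [Module.natCard_eq_pow_finrank (K := ZMod 2) (V := U), Module.natCard_eq_pow_finrank (K := ZMod 2) (V := W ρ t), ← e,
    pow_add, pow_two]
  rfl

theorem Q2.W_ne_bot (h : Q2 ρ) {t : L} (ht : orderOf t = 2) : W ρ t ≠ ⊥ := fun e => by
  obtain ⟨v, v0⟩ := h.nt
  have m : (ρ t - 1) v ∈ W ρ t := h.half t ht ▸ LinearMap.mem_range_self _ v
  rw [e, Submodule.mem_bot] at m
  exact v0 ((Submodule.mem_bot _).1 (e.le (show v ∈ W ρ t from m)))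

theorem Q2.W_eq (h : Q2 ρ) {t s : L} (ht : orderOf t = 2) (hs : orderOf s = 2)
    (le : W ρ t ≤ W ρ s) : W ρ t = W ρ s := by
  have e1 := LinearMap.finrank_range_add_finrank_ker (ρ t - 1)
  have e2 := LinearMap.finrank_range_add_finrank_ker (ρ s - 1)
  rw [h.half t ht] at e1
  rw [h.half s hs] at e2
  exact Submodule.eq_of_le_of_finrank_le le (by unfold W at *; omega)

/-- `W t = W s` iff `(ρ s - 1) (ρ t - 1) = 0` (by `half`). -/
theorem Q2.W_eq_iff (h : Q2 ρ) {t s : L} (ht : orderOf t = 2) (hs : orderOf s = 2) :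
    W ρ t = W ρ s ↔ (ρ s - 1) * (ρ t - 1) = 0 := by
  rw [Module.End.mul_eq_comp, ← LinearMap.range_le_ker_iff, h.half t ht]
  exact ⟨fun e => e.le, h.W_eq ht hs⟩

theorem Q2.comm (h : Q2 ρ) {t s : L} (ht : orderOf t = 2) (hs : orderOf s = 2)
    (e : W ρ t = W ρ s) : t * s = s * t := by
  have e1 := (h.W_eq_iff ht hs).1 e
  have e2 := (h.W_eq_iff hs ht).1 e.symm
  refine h.inj ?_
  rw [map_mul, map_mul, ← sub_eq_zero, ← sub_self (0 : Module.End (ZMod 2) U)]
  nth_rewrite 1 [← e2]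
  rw [← e1]
  noncomm_ring

/-- Two commuting involutions fix a common nonzero vector (`exists_fix_one` on `W t`). -/
theorem Q2.common (h : Q2 ρ) {t s : L} (ht : orderOf t = 2) (hs : orderOf s = 2)
    (c : t * s = s * t) : ∃ v : U, v ≠ 0 ∧ ρ t v = v ∧ ρ s v = v := by
  obtain ⟨v, hv, v0, e⟩ := exists_fix_one ρ (g := s) (k := 1) (hs ▸ pow_orderOf_eq_one s : s ^ 2 = 1) (h.W_ne_bot ht)
    fun v hv => mem_W.2 (by rw [← Module.End.mul_apply, ← map_mul, c, map_mul, Module.End.mul_apply, mem_W.1 hv])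
  exact ⟨v, v0, mem_W.1 hv, e⟩

/-- With trivially intersecting Sylow 2-subgroups every 2-element is an involution: if `x` has order 4,
`P ∋ x` Sylow, `t = x²`, a nonzero `v ∈ W t` has a Sylow stabiliser containing `t`, so equal to `P`:
`ker (ρ x - 1)² ≤ ker (ρ x - 1)` and `ρ x - 1` is nilpotent, so `x = 1`. -/
theorem SP.sq_eq_one (s : SP ρ)
    (ti : ∀ P Q : Sylow 2 L, ∀ x : L, x ≠ 1 → x ∈ (P : Subgroup L) → x ∈ (Q : Subgroup L) → P = Q)
    (P : Sylow 2 L) {x : L} (hx : x ∈ (P : Subgroup L)) : x ^ 2 = 1 := by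
  by_contra x2
  have k : ∀ v, ((ρ x - 1) ^ 2 : Module.End (ZMod 2) U) v = 0 → (ρ x - 1) v = 0 := fun v hv => by
    by_cases v0 : v = 0
    · rw [v0, map_zero]
    obtain ⟨Q, hQ⟩ := s.syl v v0
    rw [sq_sub_one] at hv
    obtain rfl := ti P Q _ x2 (pow_mem hx 2) ((hQ _).1 (mem_W.1 hv))
    exact mem_W.2 ((hQ x).2 hx)
  have k2 : ∀ (n : ℕ) v, ((ρ x - 1) ^ (n + 1) : Module.End (ZMod 2) U) v = 0 → (ρ x - 1) v = 0 := fun n => by
    induction n with
    | zero => simp
    | succ n ih =>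
      intro v hv
      rw [pow_succ, Module.End.mul_apply] at hv
      exact k v (by rw [pow_two, Module.End.mul_apply, ih _ hv])
  obtain ⟨j, hj⟩ := P.isPGroup' ⟨x, hx⟩
  have e := pow_sub_one ρ x j
  rw [show x ^ 2 ^ j = 1 from congrArg Subtype.val hj, map_one, sub_self] at e
  have x1 : x = 1 := s.inj (by
    rw [map_one, ← sub_eq_zero]
    exact LinearMap.ext fun v => k2 (2 ^ j) v (by rw [pow_succ, e, zero_mul, LinearMap.zero_apply]))
  exact x2 (by rw [x1, one_pow])

end Cfsg.Lib.GG
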