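import Cfsg.Agent.Lib.GG.Def

/-!
# Gagola groups (S4841): p = 2, the lemma `lemB`
-/

set_option autoImplicit false

namespace Cfsg.Lib.GG

section ring

variable {R : Type*} [Ring R]

theorem b_pow (h2 : (1 : R) + 1 = 0) (A : R) (b : ℕ) : (1 + A) ^ 2 ^ b = 1 + A ^ 2 ^ b := by
  induction b with
  | zero => simp
  | succ b ih =>
    rw [pow_succ, pow_mul, ih, pow_mul]
    linear_combination (norm := noncomm_ring) h2 * A ^ 2 ^ b

/-- A monoid of units that can be moved across `ε`. -/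
structure BCl (ε : R) (M : Submonoid R) : Prop where
  unit : ∀ u ∈ M, IsUnit u
  r : ∀ u ∈ M, ∃ v ∈ M, u * ε = ε * v
  l : ∀ u ∈ M, ∃ v ∈ M, ε * u = v * ε

theorem bcl_of {ε : R} {S : Set R} (hu : ∀ s ∈ S, IsUnit s)
    (hr : ∀ s ∈ S, ∃ v ∈ Submonoid.closure S, s * ε = ε * v)
    (hl : ∀ s ∈ S, ∃ v ∈ Submonoid.closure S, ε * s = v * ε) : BCl ε (Submonoid.closure S) := by
  refine ⟨fun u h => ?_, fun u h => ?_, fun u h => ?_⟩
  · induction h using Submonoid.closure_induction with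
    | mem x hx => exact hu x hx
    | one => exact isUnit_one
    | mul x y _ _ a b => exact a.mul b
  · induction h using Submonoid.closure_induction with
    | mem x hx => exact hr x hx
    | one => exact ⟨1, one_mem _, by simp⟩
    | mul x y _ _ a b =>
      obtain ⟨v, hv, a⟩ := a
      obtain ⟨w, hw, b⟩ := b
      exact ⟨v * w, mul_mem hv hw, by rw [mul_assoc, b, ← mul_assoc, a, mul_assoc]⟩
  · induction h using Submonoid.closure_induction with
    | mem x hx => exact hl x hx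
    | one => exact ⟨1, one_mem _, by simp⟩
    | mul x y _ _ a b =>
      obtain ⟨v, hv, a⟩ := a
      obtain ⟨w, hw, b⟩ := b
      exact ⟨v * w, mul_mem hv hw, by rw [← mul_assoc, a, mul_assoc, b, mul_assoc]⟩

variable {ε : R} {M : Submonoid R}

theorem BCl.rp (h : BCl ε M) (j : ℕ) : ∀ u ∈ M, ∃ v ∈ M, u * ε ^ j = ε ^ j * v := by
  induction j with
  | zero => exact fun u hu => ⟨u, hu, by simp⟩
  | succ j ih =>
    intro u hu
    obtain ⟨v, hv, a⟩ := ih u hu
    obtain ⟨w, hw, b⟩ := h.r v hv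
    exact ⟨w, hw, by rw [pow_succ, ← mul_assoc, a, mul_assoc, b, mul_assoc]⟩

theorem BCl.lp (h : BCl ε M) (j : ℕ) : ∀ u ∈ M, ∃ v ∈ M, ε ^ j * u = v * ε ^ j := by
  induction j with
  | zero => exact fun u hu => ⟨u, hu, by simp⟩
  | succ j ih =>
    intro u hu
    obtain ⟨v, hv, a⟩ := h.l u hu
    obtain ⟨w, hw, b⟩ := ih v hv
    exact ⟨w, hw, by rw [pow_succ, mul_assoc, a, ← mul_assoc, b, mul_assoc]⟩

theorem BCl.pw (h : BCl ε M) (k : ℕ) {u : R} (hu : u ∈ M) (m : ℕ) :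
    ∃ v ∈ M, (ε ^ k * u) ^ m = ε ^ (k * m) * v := by
  induction m with
  | zero => exact ⟨1, one_mem _, by simp⟩
  | succ m ih =>
    obtain ⟨v, hv, a⟩ := ih
    obtain ⟨w, hw, b⟩ := h.rp k v hv
    refine ⟨w * u, mul_mem hw hu, ?_⟩
    rw [pow_succ, a, mul_add, mul_one, pow_add, mul_assoc, ← mul_assoc v, b]
    simp only [mul_assoc]

end ring

variable {L U : Type*} [Group L] [AddCommGroup U] [Module (ZMod 2) U]
  {ρ : Representation (ZMod 2) L U}

theorem b_two : (1 : Module.End (ZMod 2) U) + 1 = 0 := by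
  ext v
  have : (2 : ZMod 2) = 0 := rfl
  simp only [LinearMap.add_apply, Module.End.one_apply, LinearMap.zero_apply]
  rw [← two_smul (ZMod 2) v, this, zero_smul]

/-- If `range (ε ^ i) = ker (ε ^ i) ≠ 0` then the nilpotency index of `ε` is `2 i`. -/
theorem b_idx {ε : Module.End (ZMod 2) U} {n i : ℕ} (hn : ε ^ n = 0) (h0 : ε ^ i ≠ 0)
    (e : LinearMap.range (ε ^ i) = LinearMap.ker (ε ^ i)) (j : ℕ) : ε ^ j = 0 ↔ 2 * i ≤ j := by
  have z : ε ^ (2 * i) = 0 := by
    ext v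
    have : (ε ^ i) v ∈ LinearMap.ker (ε ^ i) := e ▸ LinearMap.mem_range_self _ v
    rw [two_mul, pow_add]
    exact this
  refine ⟨fun hj => ?_, fun hj => pow_eq_zero_of_le hj z⟩
  by_contra lt
  rcases i with _ | i
  · omega
  have z' : ε ^ (i + 1 + i) = 0 := pow_eq_zero_of_le (by omega) hj
  have st : ∀ v, ∃ w, (ε ^ i) v = (ε ^ i) (ε w) := fun v => by
    have : (ε ^ i) v ∈ LinearMap.ker (ε ^ (i + 1)) := by
      rw [LinearMap.mem_ker, ← Module.End.mul_apply, ← pow_add, z']; rfl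
    obtain ⟨w, hw⟩ := e ▸ this
    exact ⟨w, by rw [← hw, pow_succ]; rfl⟩
  have all : ∀ m v, ∃ w, (ε ^ i) v = (ε ^ i) ((ε ^ m) w) := fun m => by
    induction m with
    | zero => exact fun v => ⟨v, rfl⟩
    | succ m ih =>
      intro v
      obtain ⟨w, hw⟩ := ih v
      obtain ⟨x, hx⟩ := st w
      refine ⟨x, ?_⟩
      have c : ∀ y, (ε ^ i) ((ε ^ m) y) = (ε ^ m) ((ε ^ i) y) := fun y => by
        rw [← Module.End.mul_apply, ← Module.End.mul_apply, ← pow_add, ← pow_add, add_comm]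
      rw [hw, c, hx, ← c, pow_succ]; rfl
  apply h0
  ext v
  obtain ⟨w, hw⟩ := all n (ε v)
  rw [pow_succ, Module.End.mul_apply, hw, hn]
  simp

theorem Q2.b_lev (h : Q2 ρ) {ε : Module.End (ZMod 2) U} {M : Submonoid (Module.End (ZMod 2) U)}
    (c : BCl ε M) {n k : ℕ} (hn : ε ^ n = 0) (k0 : 0 < k) (hk : ε ^ k ≠ 0) {y : L}
    {u : Module.End (ZMod 2) U} (hu : u ∈ M) (hy : ρ y = 1 + ε ^ k * u) :
    ∃ b, ∀ j, ε ^ j = 0 ↔ 2 * (k * 2 ^ b) ≤ j := by
  classical
  have ex : ∃ b, ε ^ (k * 2 ^ (b + 1)) = 0 := ⟨n, pow_eq_zero_of_le (by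
    have := @Nat.lt_two_pow_self (n + 1)
    nlinarith) hn⟩
  have pw : ∀ b, ∃ v ∈ M, ρ (y ^ 2 ^ b) = 1 + ε ^ (k * 2 ^ b) * v := fun b => by
    obtain ⟨v, hv, a⟩ := c.pw k hu (2 ^ b)
    exact ⟨v, hv, by rw [map_pow, hy, b_pow b_two, a]⟩
  have h1 := Nat.find_spec ex
  have h0 : ε ^ (k * 2 ^ Nat.find ex) ≠ 0 := by
    rcases e : Nat.find ex with _ | b
    · simpa using hk
    · exact Nat.find_min ex (by omega)
  set b := Nat.find ex
  obtain ⟨v, hv, a⟩ := pw b
  obtain ⟨v', -, a'⟩ := pw (b + 1)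
  rw [h1, zero_mul, add_zero] at a'
  have o : orderOf (y ^ 2 ^ b) = 2 := by
    refine orderOf_eq_prime (h.inj (by rw [← pow_mul, ← pow_succ, a', map_one])) fun e => h0 ?_
    rw [e, map_one, left_eq_add] at a
    exact (c.unit v hv).mul_left_eq_zero.1 a
  have hf := h.half _ o
  obtain ⟨w, hw, e⟩ := c.lp (k * 2 ^ b) v hv
  refine ⟨b, b_idx hn h0 ?_⟩
  have s : ρ (y ^ 2 ^ b) - 1 = ε ^ (k * 2 ^ b) * v := by rw [a, add_sub_cancel_left]
  have r1 : LinearMap.range (ρ (y ^ 2 ^ b) - 1) = LinearMap.range (ε ^ (k * 2 ^ b)) := by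
    rw [s]
    exact LinearMap.range_comp_of_range_eq_top _ (LinearMap.range_eq_top.2
      ((Module.End.isUnit_iff _).1 (c.unit v hv)).2)
  rw [← r1, hf]
  ext x
  rw [mem_W, LinearMap.mem_ker, ← sub_eq_zero]
  have : ρ (y ^ 2 ^ b) x - x = w ((ε ^ (k * 2 ^ b)) x) := by
    rw [← Module.End.mul_apply, ← e, ← s]; rfl
  rw [this]
  exact map_eq_zero_iff w ((Module.End.isUnit_iff _).1 (c.unit w hw)).1

theorem Fx.quad' (h : Fx ρ) {d : L} (hd : orderOf d = 3) : ρ d * ρ d = ρ d + 1 := by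
  have d3 : ρ d * ρ d * ρ d = 1 := by
    rw [← map_mul, ← map_mul, ← pow_three', ← hd, pow_orderOf_eq_one, map_one]
  ext v
  by_contra ne
  have e : ρ d * (ρ d * ρ d - (ρ d + 1)) = ρ d * ρ d - (ρ d + 1) := by
    linear_combination (norm := noncomm_ring) d3 - b_two (U := U) * (ρ d * ρ d) + b_two (U := U)
  obtain ⟨k, hk⟩ := h.fix d ((ρ d * ρ d - (ρ d + 1)) v) (sub_ne_zero.2 ne)
    (by rw [← Module.End.mul_apply, e])
  have := orderOf_dvd_of_pow_eq_one hk
  rw [hd] at this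
  exact absurd (Nat.prime_three.dvd_of_dvd_pow this) (by norm_num)

theorem Q2.lemB' (h : Q2 ρ) {d e : L} (hd : orderOf d = 3) (he : orderOf e = 3) {k : ℕ}
    (hk : (e * d⁻¹) ^ 2 ^ k = 1) : (e * d⁻¹) ^ 2 = 1 := by
  have t := b_two (U := U)
  have qd := h.toFx.quad' hd
  have qe := h.toFx.quad' he
  have iv : ∀ {x : L}, orderOf x = 3 → ρ x⁻¹ = ρ x * ρ x := fun {x} hx => by
    rw [← map_mul]
    congr 1
    rw [inv_eq_iff_mul_eq_one, ← mul_assoc, ← pow_three', ← hx, pow_orderOf_eq_one]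
  have un : ∀ x : L, IsUnit (ρ x) := fun x => (Group.isUnit x).map ρ
  have g1 : ρ (e * d⁻¹) = ρ e * (ρ d * ρ d) := by rw [map_mul, iv hd]
  have gi : ρ (e * d⁻¹)⁻¹ = ρ d * (ρ e * ρ e) := by rw [mul_inv_rev, inv_inv, map_mul, iv he]
  have ei := iv he
  have ud := un d
  have ue := un e
  have gg : ρ (e * d⁻¹) * ρ (e * d⁻¹)⁻¹ = 1 := by rw [← map_mul, mul_inv_cancel, map_one]
  have ee : ρ e * ρ e⁻¹ = 1 := by rw [← map_mul, mul_inv_cancel, map_one]
  set D := ρ d
  set E := ρ e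
  set ε := D + E with hε
  have a1 : D * ε = ε * (E * E) := by
    rw [hε, qe]
    linear_combination (norm := noncomm_ring) qd - qe - t * E
  have a2 : E * ε = ε * (D * D) := by
    rw [hε, qd]
    linear_combination (norm := noncomm_ring) qe - qd - t * D
  have a3 : ε * D = E * E * ε := by
    rw [hε, qe]
    linear_combination (norm := noncomm_ring) qd - qe - t * E
  have a4 : ε * E = D * D * ε := by
    rw [hε, qd]
    linear_combination (norm := noncomm_ring) qe - qd - t * D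
  have g2 : ρ (e * d⁻¹) = 1 + ε ^ 1 * (D * D) := by
    rw [g1, hε, qd]
    linear_combination (norm := noncomm_ring) - qd - t * D - t
  have cl : ∀ S : Set (Module.End (ZMod 2) U), D ∈ S → E ∈ S →
      (∀ s ∈ S, s = D ∨ s = E ∨ (IsUnit s ∧ s * ε = ε * s)) → BCl ε (Submonoid.closure S) := by
    intro S sd se hS
    have md := Submonoid.subset_closure sd
    have me := Submonoid.subset_closure se
    refine bcl_of (fun s hs => ?_) (fun s hs => ?_) (fun s hs => ?_)
    · rcases hS s hs with rfl | rfl | a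
      exacts [ud, ue, a.1]
    · rcases hS s hs with rfl | rfl | a
      exacts [⟨_, mul_mem me me, a1⟩, ⟨_, mul_mem md md, a2⟩, ⟨s, Submonoid.subset_closure hs, a.2⟩]
    · rcases hS s hs with rfl | rfl | a
      exacts [⟨_, mul_mem me me, a3⟩, ⟨_, mul_mem md md, a4⟩,
        ⟨s, Submonoid.subset_closure hs, a.2.symm⟩]
  have hn : ε ^ (1 * 2 ^ k) = 0 := by
    have c := cl {D, E} (by simp) (by simp) (by rintro s (rfl | rfl) <;> simp)
    have md : D ∈ Submonoid.closure ({D, E} : Set _) := Submonoid.subset_closure (by simp)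
    obtain ⟨v, hv, a⟩ := c.pw 1 (mul_mem md md) (2 ^ k)
    have := congrArg ρ hk
    rw [map_pow, g2, b_pow t, a, map_one, add_eq_left] at this
    exact (c.unit v hv).mul_left_eq_zero.1 this
  have c := cl {D, E, 1 + ε} (by simp) (by simp) (by
    rintro s (rfl | rfl | rfl)
    · simp
    · simp
    · exact Or.inr (Or.inr ⟨IsNilpotent.isUnit_one_add ⟨_, hn⟩, by noncomm_ring⟩))
  have md : D ∈ Submonoid.closure ({D, E, 1 + ε} : Set _) := Submonoid.subset_closure (by simp)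
  have me : E ∈ Submonoid.closure ({D, E, 1 + ε} : Set _) := Submonoid.subset_closure (by simp)
  have m1 : 1 + ε ∈ Submonoid.closure ({D, E, 1 + ε} : Set _) := Submonoid.subset_closure (by simp)
  set G := ρ (e * d⁻¹)
  set G' := ρ (e * d⁻¹)⁻¹
  have c2 : ε ^ 2 = G + G' := by
    rw [g1, gi, hε, qd, qe]
    linear_combination (norm := noncomm_ring) qd + qe + t
  have gg' : G' * G = 1 := by rw [← map_mul, inv_mul_cancel, map_one]
  have s2 : ρ ((e * d⁻¹) ^ 2) = 1 + ε ^ 2 * G := by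
    rw [map_pow, c2]
    linear_combination (norm := noncomm_ring) - gg' - t
  by_contra ne
  have e2 : ε ^ 2 ≠ 0 := fun z => ne (h.inj (by rw [s2, z, zero_mul, add_zero, map_one]))
  obtain ⟨a, ha⟩ := h.b_lev c hn two_pos e2 (g1 ▸ mul_mem me (mul_mem md md)) s2
  have pa : 0 < 2 ^ a := by positivity
  have e3 : ε ^ 3 ≠ 0 := fun z => by have := (ha 3).1 z; omega
  have ce : E * ε ^ 2 = ε ^ 2 * E := by
    have d3 : D * D * D = 1 := by linear_combination (norm := noncomm_ring) qd * D + qd + t * D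
    have : D * D * ε = ε * E := a4.symm
    rw [pow_two, ← mul_assoc, a2, mul_assoc, this, mul_assoc]
  have ge : G * E + E * G = ε * (D * D) * (1 + ε) := by
    have g3 : G = 1 + E * ε := by rw [g2, pow_one, a2]
    rw [← a2, g3]
    have : ε * E = (1 + ε + E) * ε := by
      rw [a4, qd, hε]
      linear_combination (norm := noncomm_ring) - t * E * (D + E)
    linear_combination (norm := noncomm_ring) E * this + t * E + t * (E * E * ε)
  have s3 : ρ (e * (e * d⁻¹) ^ 2 * e⁻¹ * ((e * d⁻¹)⁻¹ * (e * d⁻¹)⁻¹)) =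
      1 + ε ^ 3 * (D * D * (1 + ε) * (E * E) * (G' * G')) := by
    rw [map_mul, map_mul, map_mul, map_mul, s2, ← ei]
    have s2' : G * G = 1 + ε ^ 2 * G := by rw [← s2, map_pow, pow_two]
    have g4 : G * G * (G' * G') = 1 := by
      linear_combination (norm := noncomm_ring) G * gg * G' + gg
    set E' := ρ e⁻¹
    linear_combination (norm := noncomm_ring) ee * (G' * G') + ce * (G * E' * (G' * G'))
      + ε ^ 2 * ge * (E' * (G' * G')) - ε ^ 2 * G * ee * (G' * G') + g4 - s2' * (G' * G')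
      - t * (ε ^ 2 * G * (G' * G'))
  obtain ⟨b, hb⟩ := h.b_lev c hn three_pos e3 (mul_mem (mul_mem (mul_mem (mul_mem md md) m1)
    (mul_mem me me)) (by rw [gi]; exact mul_mem (mul_mem md (mul_mem me me)) (mul_mem md (mul_mem me me)))) s3
  have q : 2 * 2 ^ a = 3 * 2 ^ b := by
    have x := (hb _).1 ((ha _).2 le_rfl)
    have y := (ha _).1 ((hb _).2 le_rfl)
    omega
  have : 3 ∣ 2 ^ (a + 1) := ⟨2 ^ b, by rw [pow_succ, mul_comm, q]⟩
  exact absurd (Nat.prime_three.dvd_of_dvd_pow this) (by norm_num)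

end Cfsg.Lib.GG
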