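import Cfsg.Agent.Lib.GG.E1
import Cfsg.Agent.Lib.GG.E2b

/-!
# Gagola groups (S4841): p = 2, pairs of elements of order 3
-/

set_option autoImplicit false

namespace Cfsg.Lib.GG

open Subgroup
open scoped MatrixGroups

variable {L U : Type*} [Group L] [Finite L] [AddCommGroup U] [Module (ZMod 2) U] [Finite U]
  {ρ : Representation (ZMod 2) L U}

omit [Finite U] in
theorem e2_add (v : U) : v + v = 0 := by
  rw [← two_smul (ZMod 2), show (2 : ZMod 2) = 0 from rfl, zero_smul]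

omit [Finite L] [Finite U] in
theorem e2_inj (ρ : Representation (ZMod 2) L U) (g : L) {v : U} (e : ρ g v = 0) : v = 0 := by
  rw [← ρ.inv_self_apply g v, e, map_zero]

omit [Finite L] in
theorem e2_cube {d : L} (hd : orderOf d = 3) : d * d * d = 1 := by rw [← pow_three', ← hd, pow_orderOf_eq_one]

omit [Finite L] in
theorem e2_sq {t : L} (ht : orderOf t = 2) : t * t = 1 := by rw [← sq, ← ht, pow_orderOf_eq_one]

omit [Finite L] in
theorem A4.e2_ord {d t : L} (a : A4 d t) : orderOf (t * d) = 3 := by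
  have : Fact (Nat.Prime 3) := ⟨Nat.prime_three⟩
  refine orderOf_eq_prime a.td fun e => ?_
  have := a.t2
  rw [eq_inv_of_mul_eq_one_left e, orderOf_inv, a.d3] at this
  omega

/-- `(ρ d - 1) (ρ d ² + ρ d + 1) = 0` and `ρ d - 1` is injective. -/
theorem Fx.quad (h : Fx ρ) {d : L} (hd : orderOf d = 3) : ρ d * ρ d = ρ d + 1 := by
  have d3 : ρ d * ρ d * ρ d = 1 := by rw [← map_mul, ← map_mul, e2_cube hd, map_one]
  ext v
  have e : (ρ d * ρ d + ρ d + 1) v = 0 := by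
    by_contra n
    obtain ⟨k, hk⟩ := h.fix d _ n (by
      rw [← Module.End.mul_apply, mul_add, mul_add, ← mul_assoc, d3, mul_one]; congr 1; abel)
    have := Nat.prime_three.dvd_of_dvd_pow (hd ▸ orderOf_dvd_of_pow_eq_one hk)
    omega
  rw [add_assoc, LinearMap.add_apply] at e
  exact add_right_cancel (e.trans (e2_add _).symm)

/-- `φ = ρ t - 1`, `φ² = 0`; `quad` for `t d` gives `(1 + φ) d φ d = φ`, so `d φ d = φ`. -/
theorem A4.anti (h : Fx ρ) {d t : L} (a : A4 d t) :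
    ρ d * (ρ t - 1) = (ρ t - 1) * (ρ d * ρ d) := by
  have d3 : ρ d * ρ d * ρ d = 1 := by rw [← map_mul, ← map_mul, e2_cube a.d3, map_one]
  have t2 : ρ t * ρ t = 1 := by rw [← map_mul, e2_sq a.t2, map_one]
  have hD := h.quad a.d3
  have hT := h.quad a.e2_ord
  rw [map_mul] at hT
  generalize ρ d = D at *
  generalize ρ t = T at *
  have e1 : D * T * D = D + T := by
    calc _ = T * T * (D * T * D) := by rw [t2, one_mul]
      _ = T * (T * D * (T * D)) := by noncomm_ring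
      _ = T * T * D + T := by rw [hT]; noncomm_ring
      _ = _ := by rw [t2, one_mul]
  have e2 : D * T = 1 + T * (D * D) := by
    calc _ = D * T * (D * D * D) := by rw [d3, mul_one]
      _ = D * T * D * (D * D) := by noncomm_ring
      _ = D * D * D + T * (D * D) := by rw [e1]; noncomm_ring
      _ = _ := by rw [d3]
  rw [mul_sub, sub_mul, e2, mul_one, one_mul, ← sub_eq_zero, ← e2_add (1 : Module.End (ZMod 2) U)]
  generalize T * (D * D) = Y
  rw [hD]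
  abel

/-- `ρ (d t d⁻¹) - 1 = d² φ`. -/
theorem A4.conj_sub (h : Fx ρ) {d t : L} (a : A4 d t) :
    ρ (d * t * d⁻¹) - 1 = ρ d * ρ d * (ρ t - 1) := by
  have d3 : ρ d * (ρ d * ρ d) = 1 := by rw [← map_mul, ← map_mul, ← mul_assoc, e2_cube a.d3, map_one]
  rw [mul_assoc (ρ d), a.anti h, inv_eq_of_mul_eq_one_left (e2_cube a.d3), map_mul, map_mul, map_mul, sub_mul, mul_sub, one_mul, d3,
    mul_assoc]

omit [Finite L] in
theorem A4.conj {d t : L} (a : A4 d t) (g : L) : A4 (g * d * g⁻¹) (g * t * g⁻¹) :=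
  ⟨((MulAut.conj g).orderOf_eq d).trans a.d3, ((MulAut.conj g).orderOf_eq t).trans a.t2, by
    rw [conj_mul, conj_pow, a.td, mul_one, mul_inv_cancel]⟩

omit [Finite L] in
theorem A4.inv {d t : L} (a : A4 d t) : A4 d⁻¹ t := by
  refine ⟨(orderOf_inv d).trans a.d3, a.t2, ?_⟩
  have e : t * d⁻¹ = (d * (t * d) * d⁻¹)⁻¹ := by
    nth_rw 1 [← inv_eq_of_mul_eq_one_left (e2_sq a.t2)]; group
  rw [e, inv_pow, conj_pow, a.td, mul_one, mul_inv_cancel, inv_one]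

omit [Finite L] in
theorem A4.e2_tdt {d t : L} (a : A4 d t) : t * d * t = d⁻¹ * t * d⁻¹ := by
  nth_rw 3 [← inv_eq_of_mul_eq_one_left (e2_sq a.t2)]
  rw [← mul_inv_rev, ← mul_inv_rev, eq_inv_iff_mul_eq_one, ← a.td, pow_three']
  group

omit [Finite L] in
/-- `t`, `d t d⁻¹`, `d⁻¹ t d` are the three involutions of a four-group. -/
theorem A4.mul {d t : L} (a : A4 d t) :
    t * (d * t * d⁻¹) = d⁻¹ * t * d ∧ (d * t * d⁻¹) * t = d⁻¹ * t * d ∧ d * t * d⁻¹ ≠ t := by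
  have e : d⁻¹ = d * d := inv_eq_of_mul_eq_one_left (e2_cube a.d3)
  have e' : d⁻¹ * d⁻¹ = d := by rw [← mul_inv_rev, inv_eq_iff_eq_inv, e]
  refine ⟨?_, ?_, fun c => ?_⟩
  · rw [← mul_assoc, ← mul_assoc, a.e2_tdt, mul_assoc, e']
  · rw [mul_assoc d, mul_assoc d, a.inv.e2_tdt, inv_inv, e]; group
  · have k := a.td
    rw [Commute.mul_pow (mul_inv_eq_iff_eq_mul.1 c).symm, pow_three' d, e2_cube a.d3, mul_one, pow_three', e2_sq a.t2, one_mul] at k
    have := a.t2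
    rw [k, orderOf_one] at this
    omega

/-- `W t` is `d`-invariant (`anti`, `half`). -/
theorem A4.W_conj (h : Q2 ρ) {d t : L} (a : A4 d t) : W ρ (d * t * d⁻¹) = W ρ t := by
  ext v
  rw [W, W, a.conj_sub h.toFx, LinearMap.mem_ker, LinearMap.mem_ker, ← map_mul, Module.End.mul_apply]
  exact ⟨e2_inj ρ _, fun e => by rw [e, map_zero]⟩

/-- `ε = ρ d + ρ e`, `g = e d⁻¹ = 1 + ε d⁻¹`; `e ε = ε d⁻¹`, `d ε = ε e⁻¹`, `ε²` commutes with `d, e`,
`ε² = g + g⁻¹ = g⁻¹ (g + 1)²` is nilpotent, `g² = 1 + ε² g`.  `V_j = range (ε ^ j)` is `d, e`-invariant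
and strictly decreasing until `0`.  If `y ≠ 1`, `ρ y = 1 + ε ^ k u` with `u` a unit of the algebra
generated by `d, e` (so `u V_j = V_j`), then `y` is a 2-element and its involution `y ^ 2 ^ b` has
`range (· - 1) = V_(k 2 ^ b)`, of size `√|U|` (`half`, `card_W`).  `g` has `k = 1`;
`y = e g² e⁻¹ g⁻² = 1 + ε³ d⁻¹ (1 + ε) e⁻¹ g⁻²` has `k = 3`, and `2 ^ a ≠ 3 · 2 ^ b`, so `ε³ = 0`.  If
`ε² ≠ 0` then `g²` is an involution, `|V_2|² = |U|`, `V_2 ≤ ker ε`, `|V_1| > |V_2|`: rank-nullity fails. -/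
theorem Q2.lemB (h : Q2 ρ) {d e : L} (hd : orderOf d = 3) (he : orderOf e = 3) {k : ℕ}
    (hk : (e * d⁻¹) ^ 2 ^ k = 1) : (e * d⁻¹) ^ 2 = 1 :=
  h.lemB' hd he hk

theorem Q2.e2_comm (h : Q2 ρ) {d t s : L} (a : A4 d t) (b : A4 d s) {v : U} (v0 : v ≠ 0)
    (hv : ρ t v = v) (hs : ρ s v = v) : (ρ t - 1) * (ρ s - 1) = (ρ s - 1) * (ρ t - 1) := by
  have e : t * d * (s * d)⁻¹ = t * s := by
    nth_rw 2 [← inv_eq_of_mul_eq_one_left (e2_sq b.t2)]; group
  obtain ⟨k, hk⟩ := h.fix (t * s) v v0 (by rw [map_mul, Module.End.mul_apply, hs, hv])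
  have c := h.lemB b.e2_ord a.e2_ord (e ▸ hk)
  rw [e, sq, ← eq_inv_iff_mul_eq_one, mul_inv_rev, inv_eq_of_mul_eq_one_left (e2_sq b.t2),
    inv_eq_of_mul_eq_one_left (e2_sq a.t2)] at c
  have c' : ρ t * ρ s = ρ s * ρ t := by rw [← map_mul, c, map_mul]
  simp only [mul_sub, sub_mul, c', mul_one, one_mul]
  abel

/-- `(t d) (s d)⁻¹ = t s` fixes `v`, so is a 2-element, so `(t s)² = 1` (`lemB`): `φ = ρ t - 1` and
`ψ = ρ s - 1` commute.  The same for `s' = d s d⁻¹` (`W s' = W s`, `ρ s' - 1 = d² ψ`):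
`φ d² ψ = d² ψ φ`, `φ d² = d φ`, so `(d + d²) φ ψ = φ ψ = 0`. -/
theorem Q2.lemC (h : Q2 ρ) {d t s : L} (a : A4 d t) (b : A4 d s) {v : U} (v0 : v ≠ 0)
    (hv : ρ t v = v) (hs : ρ s v = v) : W ρ t = W ρ s := by
  have c1 := h.e2_comm a b v0 hv hs
  have b' := b.conj d
  rw [mul_inv_cancel_right] at b'
  have c2 := h.e2_comm a b' v0 hv (mem_W.1 (b.W_conj h ▸ mem_W.2 hs))
  rw [b.conj_sub h.toFx, ← mul_assoc, ← a.anti h.toFx, h.toFx.quad a.d3, mul_assoc, mul_assoc, c1, add_mul, one_mul,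
    left_eq_add] at c2
  exact (h.W_eq_iff a.t2 b.t2).2 c2

theorem Q2.e2_pair (h : Q2 ρ) {d e : L} (hd : orderOf d = 3) (he : orderOf e = 3) {v : U} (v0 : v ≠ 0)
    (hv : ρ e v = ρ d v) : e = d ∨ A4 d (e * d⁻¹) := by
  obtain ⟨k, hk⟩ := h.fix (e * d⁻¹) (ρ d v) (mt (e2_inj ρ d) v0) (by
    rw [map_mul, Module.End.mul_apply, ρ.inv_self_apply, hv])
  refine or_iff_not_imp_left.2 fun n => ⟨hd, orderOf_eq_prime (h.lemB hd he hk) (mt mul_inv_eq_one.1 n), ?_⟩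
  rw [inv_mul_cancel_right, ← he, pow_orderOf_eq_one]

/-- `w = d e + e d`, `w² = c (c + 1)` with `c = (d + e)² = g⁻¹ (g + 1)²`, `g = e d⁻¹`, and
`c + 1 = g'⁻¹ (g' + 1)²`, `g' = e⁻¹ d⁻¹`.  So `g` or `g'` fixes a nonzero vector; `fix`, `lemB`. -/
theorem Q2.lemT (h : Q2 ρ) {d e : L} (hd : orderOf d = 3) (he : orderOf e = 3) {v : U} (v0 : v ≠ 0)
    (hw : (ρ d * ρ e + ρ e * ρ d) v = 0) :
    e = d ∨ e = d⁻¹ ∨ A4 d (e * d⁻¹) ∨ A4 d (e⁻¹ * d⁻¹) := by
  have hD := h.toFx.quad hd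
  have hE := h.toFx.quad he
  have k : (ρ d + ρ e) * (ρ d + ρ e * ρ e) = ρ d * ρ e + ρ e * ρ d := by
    rw [hE]
    calc _ = ρ d * ρ d + ρ e * ρ e + ρ d + ρ e + (ρ d * ρ e + ρ e * ρ d) := by noncomm_ring
      _ = (ρ d + ρ e + 1) + (ρ d + ρ e + 1) + (ρ d * ρ e + ρ e * ρ d) := by rw [hD, hE]; abel
      _ = _ := by rw [e2_add, zero_add]
  by_cases u0 : (ρ d + ρ e * ρ e) v = 0
  · rw [← map_mul, ← inv_eq_of_mul_eq_one_left (e2_cube he), LinearMap.add_apply] at u0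
    rcases h.e2_pair hd ((orderOf_inv e).trans he) v0 (add_left_cancel (u0.trans (e2_add _).symm)) with c | c
    · exact .inr (.inl (inv_eq_iff_eq_inv.1 c))
    · exact .inr (.inr (.inr c))
  · rw [← k, Module.End.mul_apply, LinearMap.add_apply] at hw
    exact (h.e2_pair hd he u0 (add_left_cancel (hw.trans (e2_add _).symm))).imp_right fun c => .inr (.inl c)

end Cfsg.Lib.GG
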