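import Cfsg.Agent.Lib.GG.E2

/-!
# Gagola groups (S4841): p = 2, the four-group of an involution is unique
-/

set_option autoImplicit false

namespace Cfsg.Lib.GG

open Subgroup
open scoped MatrixGroups

variable {L U : Type*} [Group L] [Finite L] [AddCommGroup U] [Module (ZMod 2) U] [Finite U]
  {ρ : Representation (ZMod 2) L U}

/-- The ring form of `lemE`. -/
theorem e3_ring {S : Type*} [Ring S] [Finite S] (two : ∀ x : S, x + x = 0) {D E : S}
    (hD : D * D = D + 1) (hE : E * E = E + 1) (K : S → Prop) (k1 : K 1)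
    (ka : ∀ a b, K a → K b → K (a + b)) (kd : ∀ a, K a → K (D * a * D))
    (ke : ∀ a, K a → K (E * a * E)) (reg : ∀ a, K a → a = 0 ∨ ∀ x, a * x = 0 → x = 0) :
    E = D ∨ E = D * D := by
  have z2 : ∀ x : S, (2 : S) * x = 0 := fun x => by rw [two_mul]; exact two x
  have t2 : (2 : S) = 0 := by simpa using z2 1
  have eq_of : ∀ x y : S, x + y = 0 → x = y := fun x y e => by
    calc x = x + (y + y) := by rw [two, add_zero]
      _ = y := by rw [← add_assoc, e, zero_add]
  have kb : ∀ a b, K (a + b) → K b → K a := fun a b h1 h2 => by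
    have := ka _ _ h1 h2
    rwa [add_assoc, two, add_zero] at this
  have D3 : D * D * D = 1 := by
    rw [hD, add_mul, hD, one_mul, add_right_comm, two, zero_add]
  have E3 : E * E * E = 1 := by
    rw [hE, add_mul, hE, one_mul, add_right_comm, two, zero_add]
  obtain ⟨ε, hε⟩ : ∃ ε : S, ε = D + E := ⟨_, rfl⟩
  have a1 : D * ε = ε * (E + 1) := by
    rw [hε, mul_add, mul_add, add_mul, hD, hE, mul_one]
    apply eq_of
    calc _ = (D + D) + (1 + 1) + (D * E + D * E) + (E + E) := by abel
      _ = 0 := by simp only [two]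
  have a2 : E * ε = ε * (D + 1) := by
    rw [hε, mul_add, mul_add, add_mul, hD, hE, mul_one]
    apply eq_of
    calc _ = (D + D) + (1 + 1) + (E * D + E * D) + (E + E) := by abel
      _ = 0 := by simp only [two]
  obtain ⟨c, hc⟩ : ∃ c : S, c = ε * ε := ⟨_, rfl⟩
  have cD : Commute D c := by
    show D * c = c * D
    rw [hc, ← mul_assoc, a1, mul_assoc, add_mul, a2, one_mul, mul_add ε D 1, mul_one, add_assoc, two,
      add_zero, mul_assoc]
  have cE : Commute E c := by
    show E * c = c * E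
    rw [hc, ← mul_assoc, a2, mul_assoc, add_mul, a1, one_mul, mul_add ε E 1, mul_one, add_assoc, two,
      add_zero, mul_assoc]
  have c1 : c = D + E + D * E + E * D := by
    rw [hc, hε, add_mul, mul_add, mul_add, hD, hE]
    apply eq_of
    calc _ = (D + D) + (1 + 1) + (E * D + E * D) + (E + E) + (D * E + D * E) := by abel
      _ = 0 := by simp only [two]
  have ded : D * E * D = c * D + (E + D + 1) := by
    rw [c1, add_mul, add_mul, add_mul, mul_assoc E D D, hD, mul_add E D 1, mul_one]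
    apply eq_of
    calc _ = (D + D) + (1 + 1) + (E * D + E * D) + (E + E) + (D * E * D + D * E * D) := by abel
      _ = 0 := by simp only [two]
  have ede : E * D * E = c * E + (D + E + 1) := by
    rw [c1, add_mul, add_mul, add_mul, mul_assoc D E E, hE, mul_add D E 1, mul_one]
    apply eq_of
    calc _ = (D + D) + (1 + 1) + (D * E + D * E) + (E + E) + (E * D * E + E * D * E) := by abel
      _ = 0 := by simp only [two]
  have ind : ∀ k : ℕ, K (c ^ k) ∧ K (c ^ k * D) ∧ K (c ^ k * E) := by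
    intro k
    induction k with
    | zero =>
      rw [pow_zero, one_mul, one_mul]
      refine ⟨k1, kb _ 1 ?_ k1, kb _ 1 ?_ k1⟩
      · have := kd 1 k1
        rwa [mul_one, hD] at this
      · have := ke 1 k1
        rwa [mul_one, hE] at this
    | succ k ih =>
      obtain ⟨i0, i1, i2⟩ := ih
      have j1 : K (c ^ (k + 1) * D) := by
        have := kd _ i2
        rw [← mul_assoc, (cD.pow_right k).eq, mul_assoc (c ^ k), mul_assoc (c ^ k), ded, mul_add,
          ← mul_assoc, ← pow_succ, mul_add, mul_add, mul_one] at this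
        exact kb _ _ this (ka _ _ (ka _ _ i2 i1) i0)
      have j2 : K (c ^ (k + 1) * E) := by
        have := ke _ i1
        rw [← mul_assoc, (cE.pow_right k).eq, mul_assoc (c ^ k), mul_assoc (c ^ k), ede, mul_add,
          ← mul_assoc, ← pow_succ, mul_add, mul_add, mul_one] at this
        exact kb _ _ this (ka _ _ (ka _ _ i1 i2) i0)
      refine ⟨?_, j1, j2⟩
      have := kd _ j1
      rwa [← mul_assoc, (cD.pow_right (k + 1)).eq, mul_assoc (c ^ (k + 1)),
        mul_assoc (c ^ (k + 1)), D3, mul_one] at this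
  have sq : ∀ x y : S, K x → K y → Commute x y → x * x = y * y → x = y := by
    intro x y hx hy cm e
    have z : (x + y) * (x + y) = 0 := by
      rw [add_mul, mul_add, mul_add, cm.eq, e]
      calc _ = (y * y + y * y) + (y * x + y * x) := by abel
        _ = 0 := by simp only [two]
    rcases reg _ (ka _ _ hx hy) with r | r
    · exact eq_of _ _ r
    · exact eq_of _ _ (r _ z)
  have canc : ∀ m i j : ℕ, c ^ (2 ^ m * i) = c ^ (2 ^ m * j) → c ^ i = c ^ j := by
    intro m
    induction m with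
    | zero => intro i j e; simpa using e
    | succ m ih =>
      intro i j e
      apply ih
      apply sq _ _ (ind _).1 (ind _).1 ((Commute.refl c).pow_pow _ _)
      rw [← pow_add, ← pow_add]
      have u : ∀ i : ℕ, 2 ^ m * i + 2 ^ m * i = 2 ^ (m + 1) * i := fun i => by ring
      rw [u, u, e]
  obtain ⟨n, hn⟩ : ∃ n : ℕ, c ^ 2 ^ (n + 1) = c := by
    obtain ⟨i, j, ij, e⟩ := Finite.exists_ne_map_eq_of_infinite (fun i : ℕ => c ^ 2 ^ i)
    have key : ∀ i j : ℕ, i < j → c ^ 2 ^ i = c ^ 2 ^ j → ∃ n : ℕ, c ^ 2 ^ (n + 1) = c := by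
      intro i j lt e
      obtain ⟨n, rfl⟩ := Nat.exists_eq_add_of_lt lt
      refine ⟨n, ?_⟩
      have := canc i (2 ^ (n + 1)) 1 (by rw [← pow_add, mul_one, ← add_assoc, e])
      rwa [pow_one] at this
    rcases lt_or_gt_of_ne ij with l | l
    · exact key i j l e
    · exact key j i l e.symm
  have kε : K ε := by
    have := ka _ _ (ind 0).2.1 (ind 0).2.2
    rwa [pow_zero, one_mul, one_mul, ← hε] at this
  have cε : Commute ε c := by rw [hε]; exact cD.add_left cE
  have zz : c ^ 2 ^ n = ε := by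
    apply sq _ _ (ind _).1 kε (cε.symm.pow_left _)
    rw [← pow_add, ← two_mul, ← pow_succ', hn, hc]
  have cm : D * ε = ε * D := by rw [← zz]; exact (cD.pow_right _).eq
  rcases reg _ kε with r | r
  · left
    rw [hε] at r
    exact (eq_of _ _ r).symm
  · right
    have : D + (E + 1) = 0 := r _ (by rw [mul_add, ← cm, ← a1, two])
    rw [hD]
    apply eq_of
    rw [← this]; abel

omit [Finite L] [Finite U] in
theorem e3_two (x : Module.End (ZMod 2) U) : x + x = 0 := by
  ext v
  have : (2 : ZMod 2) = 0 := rfl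
  rw [LinearMap.add_apply, ← two_smul (ZMod 2), this, zero_smul, LinearMap.zero_apply]

omit [Finite L] [Finite U] in
theorem e3_inv (ρ : Representation (ZMod 2) L U) {d : L} (hd : orderOf d = 3) :
    ρ d⁻¹ = ρ d * ρ d := by
  have : d ^ 3 = 1 := hd ▸ pow_orderOf_eq_one d
  rw [← map_mul]
  congr 1
  rw [inv_eq_iff_mul_eq_one, ← mul_assoc, ← pow_three', this]

/-- `d` preserves `W t`. -/
theorem A4.e3_mem (h : Q2 ρ) {d t : L} (a : A4 d t) (v : U) (hv : v ∈ W ρ t) : ρ d v ∈ W ρ t := by
  rw [← h.half t a.t2] at hv ⊢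
  obtain ⟨u, rfl⟩ := hv
  exact ⟨(ρ d * ρ d) u, by rw [← Module.End.mul_apply, ← a.anti h.toFx, Module.End.mul_apply]⟩

/-- `φ = ρ t - 1`, `W = range φ = ker φ` is invariant under `d, e`.  Let `𝒦` be the set of `a` preserving
`W` with `1 + a φ ∈ range ρ`.  It is closed under `+` (`φ b φ = 0`), under `a ↦ d a d`, `a ↦ e a e`
(conjugation, `anti`), contains `1`, and for `a ∈ 𝒦` either `a φ = 0` or `a` is injective on `W`
(`1 + a φ` is an involution fixing `W`, `W_eq`).  With `ε = d + e`, `c = ε²` (commutes with `d, e`),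
`d e d = e + c d + d + 1`: by induction `c ^ k, c ^ k d, c ^ k e ∈ 𝒦`.  If `c φ = 0` then `ε φ = 0`.
Else `r ↦ r²` is injective on the `c ^ k φ` (`(r + r')² φ = 0`), so `c ^ (2 ^ n) φ = c φ` for some
`n ≥ 1`; `z = c ^ (2 ^ (n-1)) + ε ∈ 𝒦` has `z² φ = 0`, so `z φ = 0`, `ε` commutes with `d` on `W`,
`ε (1 + ε) = d ε + ε d` kills `W`, so `ε φ = φ`. -/
theorem Q2.lemE (h : Q2 ρ) {d e t : L} (a : A4 d t) (b : A4 e t) :
    ρ e * (ρ t - 1) = ρ d * (ρ t - 1) ∨ ρ e * (ρ t - 1) = ρ d * ρ d * (ρ t - 1) := by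
  have ht := a.t2
  have cod : ∀ v, (ρ t - 1) v ∈ W ρ t := fun v => h.half t ht ▸ LinearMap.mem_range_self _ v
  have sur : ∀ w ∈ W ρ t, ∃ v, (ρ t - 1) v = w := fun w hw => by
    rw [← h.half t ht] at hw; exact hw
  have ker : ∀ w ∈ W ρ t, (ρ t - 1) w = 0 := fun w hw => hw
  have : Finite (Module.End (ZMod 2) (W ρ t)) :=
    Finite.of_injective _ (DFunLike.coe_injective (F := Module.End (ZMod 2) (W ρ t)))
  let K : Module.End (ZMod 2) (W ρ t) → Prop := fun A =>
    ∃ g : L, ∀ v : U, ρ g v = v + (A ⟨(ρ t - 1) v, cod v⟩ : U)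
  have quad : ∀ {x : L} (c : A4 x t), (ρ x).restrict (c.e3_mem h) * (ρ x).restrict (c.e3_mem h) =
      (ρ x).restrict (c.e3_mem h) + 1 := by
    intro x c
    ext w
    have := congrArg (fun f => f (w : U)) (h.toFx.quad c.d3)
    simpa using this
  have cj : ∀ {x : L} (c : A4 x t) (A), K A →
      K ((ρ x).restrict (c.e3_mem h) * A * (ρ x).restrict (c.e3_mem h)) := by
    rintro x c A ⟨g, hg⟩
    refine ⟨x * g * x⁻¹, fun v => ?_⟩
    have e1 : (⟨(ρ t - 1) (ρ x⁻¹ v), cod _⟩ : W ρ t) =
        (ρ x).restrict (c.e3_mem h) ⟨(ρ t - 1) v, cod v⟩ := by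
      apply Subtype.ext
      show (ρ t - 1) (ρ x⁻¹ v) = ρ x ((ρ t - 1) v)
      rw [e3_inv ρ c.d3, ← Module.End.mul_apply, ← c.anti h.toFx, Module.End.mul_apply]
    rw [map_mul, map_mul, Module.End.mul_apply, Module.End.mul_apply, hg, map_add, e1,
      ← Module.End.mul_apply (ρ x) (ρ x⁻¹), ← map_mul, mul_inv_cancel, map_one]
    rfl
  have add : ∀ g g' : L, ∀ A B : Module.End (ZMod 2) (W ρ t),
      (∀ v : U, ρ g v = v + (A ⟨(ρ t - 1) v, cod v⟩ : U)) →
      (∀ v : U, ρ g' v = v + (B ⟨(ρ t - 1) v, cod v⟩ : U)) →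
      ∀ v : U, ρ (g * g') v = v + ((A + B) ⟨(ρ t - 1) v, cod v⟩ : U) := by
    intro g g' A B hg hg' v
    have e1 : (⟨(ρ t - 1) (v + (B ⟨(ρ t - 1) v, cod v⟩ : U)), cod _⟩ : W ρ t) =
        ⟨(ρ t - 1) v, cod v⟩ := by
      apply Subtype.ext
      show (ρ t - 1) (v + _) = (ρ t - 1) v
      rw [map_add, ker _ (B _).2, add_zero]
    rw [map_mul, Module.End.mul_apply, hg', hg, e1, LinearMap.add_apply, Submodule.coe_add]
    abel
  have key := e3_ring (S := Module.End (ZMod 2) (W ρ t)) e3_two (quad a) (quad b) K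
    ⟨t, fun v => by simp⟩
    (by rintro A B ⟨g, hg⟩ ⟨g', hg'⟩; exact ⟨g * g', add g g' A B hg hg'⟩) (cj a) (cj b) (by
      rintro A ⟨g, hg⟩
      by_cases g1 : g = 1
      · left
        ext ⟨w, hw⟩
        obtain ⟨v, rfl⟩ := sur w hw
        have := hg v
        rw [g1, map_one, Module.End.one_apply, left_eq_add] at this
        exact this
      · right
        have g2 : orderOf g = 2 := by
          apply orderOf_eq_prime _ g1
          apply h.inj
          ext v
          rw [pow_two, add g g A A hg hg v, e3_two, map_one]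
          simp
        have le : W ρ t ≤ W ρ g := fun w hw => by
          have e1 : (⟨(ρ t - 1) w, cod w⟩ : W ρ t) = 0 := Subtype.ext (ker w hw)
          rw [mem_W, hg, e1, map_zero]
          simp
        have eq := h.W_eq ht g2 le
        intro X hX
        ext w
        have z : A (X w) = 0 := by rw [← Module.End.mul_apply, hX]; rfl
        obtain ⟨v, hv⟩ := sur _ (X w).2
        have e1 : (⟨(ρ t - 1) v, cod v⟩ : W ρ t) = X w := Subtype.ext hv
        have : v ∈ W ρ g := by
          rw [mem_W, hg, e1, z]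
          simp
        rw [← eq] at this
        rw [← hv, ker v this]
        rfl)
  rcases key with k | k
  · left
    ext v
    exact congrArg (fun f => ((f ⟨(ρ t - 1) v, cod v⟩ : W ρ t) : U)) k
  · right
    ext v
    exact congrArg (fun f => ((f ⟨(ρ t - 1) v, cod v⟩ : W ρ t) : U)) k

/-- Group form of `lemE` (`conj_sub`, `quad`). -/
theorem Q2.lemE' (h : Q2 ρ) {d e t : L} (a : A4 d t) (b : A4 e t) :
    e * t * e⁻¹ = d * t * d⁻¹ ∨ e * t * e⁻¹ = d⁻¹ * t * d := by
  have qd := h.toFx.quad a.d3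
  have qe := h.toFx.quad b.d3
  have ce := b.conj_sub h.toFx
  rcases h.lemE a b with k | k
  · left
    apply h.inj
    have cd := a.conj_sub h.toFx
    rw [qd, add_mul, ← k, ← add_mul, ← qe, ← ce] at cd
    exact (sub_left_injective cd).symm
  · right
    apply h.inj
    have cd := a.inv.conj_sub h.toFx
    have i3 : orderOf d⁻¹ = 3 := by rw [orderOf_inv, a.d3]
    rw [← e3_inv ρ i3, inv_inv] at cd
    rw [qe, add_mul, k, qd, ← add_mul, add_assoc, e3_two, add_zero, ← cd] at ce
    exact sub_left_injective ce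

/-- No element `y` of order 3 centralises `t`.  `lemE` for `y d y⁻¹`: on `W t`, `y d = d y` or
`y d = d² y` (then `y³ = 1` gives `d = d²` on `W t ≠ 0`).  So `d y + y d` kills `W t`; `lemT`: `y = d^±1`
commutes with `t` (contradicts `A4.mul`), or `g = y^±1 d⁻¹` has `A4 d g`, preserves `W t`, fixes a nonzero
vector there (`exists_fix_one`), `W g = W t` (`lemC`), `g` commutes with `t`, so does `d`. -/
theorem Q2.lemF (h : Q2 ρ) {d t y : L} (a : A4 d t) (hy : orderOf y = 3) (c : y * t = t * y) :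
    False := by
  have ht := a.t2
  have c' : y * t * y⁻¹ = t := by rw [c, mul_inv_cancel_right]
  have b : A4 (y * d * y⁻¹) t := by have := a.conj y; rwa [c'] at this
  have qd := h.toFx.quad a.d3
  have qy := h.toFx.quad hy
  have cφ : ρ y * (ρ t - 1) = (ρ t - 1) * ρ y := by
    rw [mul_sub, sub_mul, ← map_mul, ← map_mul, c, mul_one, one_mul]
  have m : ρ (y * d * y⁻¹) * (ρ t - 1) * ρ y = ρ y * ρ d * (ρ t - 1) := by
    rw [mul_assoc, ← cφ, ← mul_assoc, ← map_mul, inv_mul_cancel_right, map_mul]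
  have nd : d * t ≠ t * d := fun e => a.mul.2.2 (by rw [e, mul_inv_cancel_right])
  have yW : ∀ v ∈ W ρ t, ρ y v ∈ W ρ t := fun v hv => by
    rw [mem_W] at hv ⊢
    rw [← Module.End.mul_apply, ← map_mul, ← c, map_mul, Module.End.mul_apply, hv]
  rcases h.lemE a b with k | k
  · rw [k, mul_assoc, ← cφ, ← mul_assoc] at m
    obtain ⟨v, hv, v0⟩ := (Submodule.ne_bot_iff _).1 (h.W_ne_bot ht)
    have hw : (ρ d * ρ y + ρ y * ρ d) v = 0 := by
      rw [← h.half t ht] at hv
      obtain ⟨u, rfl⟩ := hv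
      rw [← Module.End.mul_apply, add_mul, m, e3_two]
      rfl
    have fin : ∀ z : L, z * t = t * z → (∀ v ∈ W ρ t, ρ z v ∈ W ρ t) → A4 d (z * d⁻¹) → False := by
      intro z zt zW g
      have g2 : (z * d⁻¹) ^ 2 ^ 1 = 1 := by
        rw [pow_one, ← g.t2]; exact pow_orderOf_eq_one _
      obtain ⟨u, hu, u0, fu⟩ := exists_fix_one ρ g2 (h.W_ne_bot ht) (fun v hv => by
        rw [map_mul, Module.End.mul_apply]
        exact zW _ (a.inv.e3_mem h v hv))
      have e := h.comm ht g.t2 (h.lemC a g u0 (mem_W.1 hu) fu)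
      apply nd
      rw [← mul_assoc, ← zt, mul_assoc, mul_assoc, mul_right_inj] at e
      calc d * t = d * (t * d⁻¹) * d := by group
        _ = t * d := by rw [e]; group
    rcases h.lemT a.d3 hy v0 hw with e | e | e | e
    · exact nd (e ▸ c)
    · apply nd
      rw [e] at c
      calc d * t = d * (t * d⁻¹) * d := by group
        _ = t * d := by rw [← c]; group
    · exact fin y c yW e
    · refine fin y⁻¹ ?_ (fun v hv => ?_) e
      · calc y⁻¹ * t = y⁻¹ * (t * y) * y⁻¹ := by group
          _ = t * y⁻¹ := by rw [← c]; group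
      · rw [e3_inv ρ hy, Module.End.mul_apply]
        exact yW _ (yW _ hv)
  · rw [k, mul_assoc, ← cφ, ← mul_assoc, qd] at m
    generalize hφ : ρ t - 1 = φ at m cφ
    generalize hY : ρ y = Y at m cφ qy
    generalize ρ d = D at m qd
    have m1 : (D + 1) * (Y + 1) * φ = Y * D * Y * φ := by
      rw [← qy, mul_assoc (Y * D), cφ, ← mul_assoc, ← mul_assoc, ← m, mul_assoc _ φ Y, ← cφ,
        ← mul_assoc]
    have m2 : Y * ((D + 1) * Y * φ) = (Y + 1) * D * φ := by
      rw [m, ← qy]
      simp only [mul_assoc]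
    have z : Y * φ = 0 := by
      have m3 : Y * D * φ = D * Y * φ + Y * φ := by rw [← m]; noncomm_ring
      have m4 : Y * D * Y * φ = D * Y * φ + D * φ + Y * φ + φ := by rw [← m1]; noncomm_ring
      have m5 : Y * D * Y * φ + Y * Y * φ = Y * D * φ + D * φ := by
        rw [← sub_eq_zero] at m2 ⊢
        rw [← m2]; noncomm_ring
      rw [m4, m3, qy, add_mul, one_mul] at m5
      have : Y * φ + (φ + φ) = 0 := by
        rw [← sub_eq_zero] at m5
        rw [← m5]; abel
      rwa [e3_two, add_zero] at this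
    have z' : φ = 0 := by
      have : ρ y⁻¹ * (Y * φ) = φ := by
        rw [← mul_assoc, ← hY, ← map_mul, inv_mul_cancel, map_one, one_mul]
      rw [← this, z, mul_zero]
    have t1 : t = 1 := h.inj (by rw [map_one, ← sub_eq_zero, hφ, z'])
    rw [t1, orderOf_one] at ht
    exact absurd ht (by norm_num)

end Cfsg.Lib.GG
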