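import Cfsg.Agent.Lib.GG.E3

/-!
# Gagola groups (S4841): p = 2, commuting involutions of four-groups
-/

set_option autoImplicit false

namespace Cfsg.Lib.GG

open Subgroup
open scoped MatrixGroups

variable {L U : Type*} [Group L] [Finite L] [AddCommGroup U] [Module (ZMod 2) U] [Finite U]
  {ρ : Representation (ZMod 2) L U}

omit [Finite L] in
theorem A4.tt {d t : L} (a : A4 d t) : t * t = 1 := by rw [← pow_two, ← a.t2, pow_orderOf_eq_one]

omit [Finite L] in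
theorem A4.ti {d t : L} (a : A4 d t) : t⁻¹ = t := inv_eq_of_mul_eq_one_left a.tt

omit [Finite L] in
theorem A4.di {d t : L} (a : A4 d t) : d⁻¹ = d * d :=
  inv_eq_of_mul_eq_one_left (by rw [← pow_three', ← a.d3, pow_orderOf_eq_one])

omit [Finite L] [Finite U] in
theorem mem_W_conj (g t : L) (v : U) : ρ g v ∈ W ρ (g * t * g⁻¹) ↔ v ∈ W ρ t := by
  rw [mem_W, mem_W, ← Module.End.mul_apply, ← map_mul, inv_mul_cancel_right, map_mul, Module.End.mul_apply]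
  exact (ρ.apply_bijective g).1.eq_iff

theorem Q2.e4_inv (h : Q2 ρ) {d t x : L} (a : A4 d t) (c1 : t * x = x * t) (c2 : (d * t * d⁻¹) * x = x * (d * t * d⁻¹))
    {v : U} (h1 : v ∈ W ρ t) (h2 : v ∈ W ρ x) : ρ d v ∈ W ρ t ∧ ρ d v ∈ W ρ x := by
  refine ⟨a.W_conj h ▸ (mem_W_conj d t v).2 h1, ?_⟩
  obtain ⟨u, rfl⟩ := (h.half t a.t2).ge h1
  have k : ∀ s, s * x = x * s → ∀ w, ρ x ((ρ s - 1) w) = (ρ s - 1) (ρ x w) := fun s c w => by
    rw [LinearMap.sub_apply, LinearMap.sub_apply, map_sub, ← Module.End.mul_apply, ← map_mul, ← c, map_mul]; rfl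
  have e := k _ c2 u
  rw [a.conj_sub h.toFx, Module.End.mul_apply, Module.End.mul_apply (ρ d * ρ d), ← k _ c1, mem_W.1 h2, h.toFx.quad a.d3,
    LinearMap.add_apply, map_add, Module.End.one_apply, mem_W.1 h2, add_left_inj] at e
  exact mem_W.2 e

/-- The two four-groups commute.  `φ = ρ t - 1`, `ψ = ρ x - 1`, `d² φ`, `e² ψ` (`conj_sub`):
`d² φ e² ψ = d² e² ψ φ = e² d² φ ψ`, so `(d e + e d) φ ψ = 0`.  If `W t ≠ W x` then `φ ψ ≠ 0`
(`W_eq_iff`), `lemT`: `e = d^±1` gives `A4 d x`, `common`, `lemC`.  Else `g = e^±1 d⁻¹` has `A4 d g` and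
`A4 e^±1 g` (`g e^±1 = d`); `W₀ = W t ⊓ W x ≠ ⊥` is invariant under `d` (`x` commutes with `d²` on
`range φ`) and `e`, so `g` fixes a nonzero vector of `W₀`, and `lemC` twice gives `W t = W g = W x`. -/
theorem Q2.thmA (h : Q2 ρ) {d e t x : L} (a : A4 d t) (b : A4 e x) (c1 : t * x = x * t)
    (c2 : (d * t * d⁻¹) * x = x * (d * t * d⁻¹)) (c3 : t * (e * x * e⁻¹) = (e * x * e⁻¹) * t)
    (c4 : (d * t * d⁻¹) * (e * x * e⁻¹) = (e * x * e⁻¹) * (d * t * d⁻¹)) : W ρ t = W ρ x := by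
  by_contra n
  obtain ⟨v, v0, hv, hx⟩ := h.common a.t2 b.t2 c1
  have cm : ∀ {r s : L}, r * s = s * r → (ρ r - 1) * (ρ s - 1) = (ρ s - 1) * (ρ r - 1) := fun c => by
    simp only [mul_sub, sub_mul, ← map_mul, c, one_mul, mul_one]; abel
  have e1 := cm c1
  have e2 := cm c2
  have e3 := cm c3
  have e4 := cm c4
  rw [a.conj_sub h.toFx] at e2 e4
  rw [b.conj_sub h.toFx] at e3 e4
  have z : (ρ d * ρ e + ρ e * ρ d) * ((ρ x - 1) * (ρ t - 1)) = 0 := by
    rw [mul_assoc, e3, mul_assoc (ρ e * ρ e) _ (_ * _), ← e2, mul_assoc (ρ d * ρ d) (ρ t - 1), e1, mul_assoc (ρ e * ρ e),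
      h.toFx.quad a.d3, h.toFx.quad b.d3, ← sub_eq_zero] at e4
    rw [← e4, ← ZModModule.sub_eq_add]; noncomm_ring
  obtain ⟨u, hu⟩ := DFunLike.ne_iff.1 (mt (h.W_eq_iff a.t2 b.t2).2 n)
  have key : ∀ f, A4 f x → (∀ w ∈ W ρ t ⊓ W ρ x, ρ f w ∈ W ρ t ⊓ W ρ x) → A4 d (f * d⁻¹) → False := fun f b' i g => by
    have i' : ∀ w ∈ W ρ t ⊓ W ρ x, ρ d w ∈ W ρ t ⊓ W ρ x := fun w hw => h.e4_inv a c1 c2 hw.1 hw.2
    obtain ⟨w, hw, w0, hg⟩ := exists_fix_one ρ (g := f * d⁻¹) (k := 1) (M := W ρ t ⊓ W ρ x) (by rw [pow_one, pow_two, g.tt])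
      ((Submodule.ne_bot_iff _).2 ⟨v, ⟨mem_W.2 hv, mem_W.2 hx⟩, v0⟩) fun w hw => by
        rw [a.di, map_mul, map_mul]; exact i _ (i' _ (i' _ hw))
    have g' : A4 f (f * d⁻¹) := ⟨b'.d3, g.t2, by
      rw [← g.ti, mul_inv_rev, inv_inv, inv_mul_cancel_right, ← a.d3, pow_orderOf_eq_one]⟩
    exact n ((h.lemC a g w0 (mem_W.1 hw.1) hg).trans (h.lemC b' g' w0 (mem_W.1 hw.2) hg).symm)
  have ie : ∀ w ∈ W ρ t ⊓ W ρ x, ρ e w ∈ W ρ t ⊓ W ρ x := fun w hw => (h.e4_inv b c1.symm c3.symm hw.2 hw.1).symm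
  rcases h.lemT a.d3 b.d3 hu (LinearMap.congr_fun z u) with rfl | rfl | g | g
  · exact n (h.lemC a b v0 hv hx)
  · exact n (h.lemC a (by simpa using b.inv) v0 hv hx)
  · exact key e b ie g
  · exact key e⁻¹ b.inv (fun w hw => by rw [b.di, map_mul]; exact ie _ (ie _ hw)) g

/-- an element centralising `t` fixes or swaps the two other involutions of the four-group -/
theorem Q2.fs (h : Q2 ρ) {d t y : L} (a : A4 d t) (c : y * t = t * y) :
    y * (d * t * d⁻¹) = (d * t * d⁻¹) * y ∨ y * (d * t * d⁻¹) = t * (d * t * d⁻¹) * y := by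
  have b := a.conj y
  rw [c, mul_inv_cancel_right] at b
  have e : y * d * y⁻¹ * t * (y * d * y⁻¹)⁻¹ * y = y * (d * t * d⁻¹) := by
    rw [mul_assoc _ y⁻¹ t, (Commute.inv_left c).eq]; group
  rw [← e, a.mul.1]
  exact (h.lemE' a b).imp (congrArg (· * y)) (congrArg (· * y))

theorem Q2.thmB0 (h : Q2 ρ) {d e t x : L} (a : A4 d t) (b : A4 e x) (c1 : t * x = x * t)
    (c2 : (d * t * d⁻¹) * x = x * (d * t * d⁻¹)) (c3 : t * (e * x * e⁻¹) = (e * x * e⁻¹) * t) : W ρ t = W ρ x := by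
  rcases h.fs a c3.symm with k | k
  · exact h.thmA a b c1 c2 c3 k.symm
  rcases h.fs b c2 with l | l
  · exact h.thmA a b c1 c2 c3 l
  rw [mul_assoc x, k, mul_assoc t, ← mul_assoc x, right_eq_mul] at l
  rw [eq_inv_of_mul_eq_one_left l, a.ti]

/-- `x` centralises `A = {1, t, t', t t'}` (`t' = d t d⁻¹`).  By `lemE'` (for `a e a⁻¹`) each `a ∈ A`
fixes or swaps `x' = e x e⁻¹`, `x x'`; so some involution `t₁ ∈ A` centralises `x'` (`A4 d t₁`,
`W t₁ = W t`), and `x'` fixes or swaps the other two involutions of `A`.  If it swaps,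
`a x' a x' = t₁` and `a x' a ∈ {x', x x'}` give `t₁ = x`.  Else `thmA` for `t₁`. -/
theorem Q2.thmB (h : Q2 ρ) {d e t x : L} (a : A4 d t) (b : A4 e x) (c1 : t * x = x * t)
    (c2 : (d * t * d⁻¹) * x = x * (d * t * d⁻¹)) : W ρ t = W ρ x := by
  have a1 : A4 d (d * t * d⁻¹) := by simpa using a.conj d
  have e1 : d * (d * t * d⁻¹) * d⁻¹ = t * (d * t * d⁻¹) := by
    rw [a.mul.1, ← mul_assoc, ← mul_assoc, ← a.di, mul_assoc _ d⁻¹, ← mul_inv_rev, ← a.di, inv_inv]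
  have a2 : A4 d (t * (d * t * d⁻¹)) := by simpa only [mul_inv_cancel_right, e1] using a1.conj d
  have c3 : t * (d * t * d⁻¹) * x = x * (t * (d * t * d⁻¹)) := (Commute.mul_left c1 c2).eq
  rcases h.fs b c1 with k | k
  · exact h.thmB0 a b c1 c2 k
  rcases h.fs b c2 with l | l
  · exact (a.W_conj h).symm.trans (h.thmB0 a1 b c2 (e1 ▸ c3) l)
  refine (a.W_conj h).symm.trans ((a1.W_conj h).symm.trans (e1 ▸ h.thmB0 a2 b c3 ?_ ?_))
  · rw [a.mul.1]; simpa [mul_assoc] using c1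
  · rw [mul_assoc, l, ← mul_assoc, ← mul_assoc t, c1, mul_assoc x, k, ← mul_assoc x, ← mul_assoc x, b.tt, one_mul, mul_assoc]

/-- By `lemE'` for `x d x⁻¹` and `t e t⁻¹` and `thmB` (both ways) we may assume `x t' x = t t'` and
`t x' t = x x'`.  Then conjugation by `k = t' x'` is the 3-cycle `t ↦ x ↦ x t ↦ t`.  `orderOf k = 3 ^ j m`,
`3 ∤ m`, `j ≥ 1` (if `t ≠ x`), `y = k ^ m` is still a 3-cycle.  `j = 1`: `A4 y t`, `A4 y x`, `common`,
`lemC`.  `j ≥ 2`: `y ^ 3 ^ (j-1)` has order 3 and centralises `t`, `lemF`. -/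
theorem Q2.thmG (h : Q2 ρ) {d e t x : L} (a : A4 d t) (b : A4 e x) (c : t * x = x * t) :
    W ρ t = W ρ x := by
  rcases h.fs a c.symm with k | k
  · exact h.thmB a b c k.symm
  rcases h.fs b c with l | l
  · exact (h.thmB b a c.symm l.symm).symm
  have m1 := a.mul.1.trans a.mul.2.1.symm
  have m2 := b.mul.1.trans b.mul.2.1.symm
  generalize d * t * d⁻¹ = r at k m1
  generalize e * x * e⁻¹ = s at l m2
  have k' : SemiconjBy r x (t * x) := by rw [SemiconjBy, mul_assoc, k, ← mul_assoc, ← mul_assoc, a.tt, one_mul]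
  have l' : SemiconjBy s t (t * x) := by
    rw [SemiconjBy, c, mul_assoc, l, ← mul_assoc, ← mul_assoc, b.tt, one_mul]
  have q : t * (t * x) = x := by rw [← mul_assoc, a.tt, one_mul]
  have q' : x * (t * x) = t := by rw [c, ← mul_assoc, b.tt, one_mul]
  have s0 := SemiconjBy.mul_right (show SemiconjBy r t t from m1.symm) k'
  rw [q] at s0
  have s1 : SemiconjBy (r * s) t x := s0.mul_left l'
  have s2 : SemiconjBy (r * s) x (t * x) := SemiconjBy.mul_left k' (show SemiconjBy s x x from m2.symm)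
  generalize r * s = y at s1 s2
  have cy : ∀ {y : L}, SemiconjBy y t x → SemiconjBy y x (t * x) → Commute (y ^ 3) t ∧ Commute (y ^ 3) x ∧
      Commute (y ^ 3) (t * x) := fun {y} s1 s2 => by
    have s3 := s1.mul_right s2
    rw [q'] at s3
    rw [pow_three]
    exact ⟨s3.mul_left (s2.mul_left s1), s1.mul_left (s3.mul_left s2), s2.mul_left (s1.mul_left s3)⟩
  obtain ⟨j, m, hm, ho⟩ := Nat.exists_eq_pow_mul_and_not_dvd (orderOf_pos y).ne' 3 (by norm_num)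
  obtain ⟨u, hu⟩ : ∃ u, m * m = 3 * u + 1 := ⟨m * m / 3, by
    have : m % 3 = 1 ∨ m % 3 = 2 := by omega
    have : m * m % 3 = 1 := by rcases this with e | e <;> simp [Nat.mul_mod, e]
    omega⟩
  have y3 : orderOf (y ^ (m * m)) ∣ 3 ^ j := orderOf_dvd_of_pow_eq_one (by
    rw [← pow_mul, mul_assoc, mul_comm m (3 ^ j), ← ho, mul_comm, pow_mul, pow_orderOf_eq_one, one_pow])
  have r1 : SemiconjBy (y ^ (m * m)) t x := by
    rw [hu, pow_succ, pow_mul]; exact SemiconjBy.mul_left ((cy s1 s2).2.1.pow_left u) s1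
  have r2 : SemiconjBy (y ^ (m * m)) x (t * x) := by
    rw [hu, pow_succ, pow_mul]; exact SemiconjBy.mul_left ((cy s1 s2).2.2.pow_left u) s2
  generalize y ^ (m * m) = z at y3 r1 r2
  obtain ⟨i, -, hi⟩ := (Nat.dvd_prime_pow Nat.prime_three).1 y3
  have r3 := r1.mul_right r2
  rw [q'] at r3
  rcases i with _ | _ | i
  · rw [orderOf_eq_one_iff.1 hi] at r1
    rw [show t = x by simpa [SemiconjBy] using r1]
  · obtain ⟨v, v0, hv, hx⟩ := h.common a.t2 b.t2 c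
    have z3 : z * (z * z) = 1 := by rw [← pow_three, ← pow_orderOf_eq_one z, hi]; rfl
    have f : ∀ {g g' g'' : L}, SemiconjBy z g g' → SemiconjBy z g' g'' → g * (g' * g'') = 1 → (g * z) ^ 3 = 1 :=
      fun {g g' g''} e1 e2 e3 => by
        rw [show (g * z) ^ 3 = g * (z * g) * (z * g) * z by simp only [pow_three, mul_assoc], e1.eq,
          show g * (g' * z) * (g' * z) * z = g * g' * (z * g') * (z * z) by simp only [mul_assoc], e2.eq,
          show g * g' * (g'' * z) * (z * z) = g * (g' * g'') * (z * (z * z)) by simp only [mul_assoc], e3, z3, one_mul]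
    exact h.lemC ⟨hi, a.t2, f r1 r2 (by rw [q', a.tt])⟩ ⟨hi, b.t2, f r2 r3 (by rw [← mul_assoc, q', a.tt])⟩ v0 hv hx
  · refine (h.lemF a (y := z ^ 3 ^ (i + 1)) ?_ ?_).elim
    · rw [orderOf_pow_of_dvd (by positivity) (hi ▸ pow_dvd_pow 3 (by omega)), hi, pow_succ, Nat.mul_div_cancel_left _ (by positivity)]
    · rw [pow_succ', pow_mul]; exact ((cy r1 r2).1.pow_left _).eq

theorem Q2.e4_z (h : Q2 ρ) {d t u : L} (a : A4 d t) (c : SemiconjBy t u u⁻¹) {j : ℕ} (hz : orderOf (u ^ j * u ^ j) = 2) :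
    W ρ t = W ρ (u ^ j * u ^ j) := by
  have c1 := c.pow_right j
  rw [inv_pow] at c1
  have z2 : (u ^ j * u ^ j)⁻¹ = u ^ j * u ^ j :=
    inv_eq_of_mul_eq_one_left (by rw [← pow_two, ← hz, pow_orderOf_eq_one])
  have c2 := (c1.mul_right c1).eq
  rw [← mul_inv_rev, z2] at c2
  have b := a.conj (u ^ j)⁻¹
  rw [← c1.eq, inv_inv, mul_assoc t] at b
  have e := h.thmG a b (by rw [mul_assoc t, ← c2])
  refine h.W_eq a.t2 hz fun v hv => mem_W.2 ((ρ.apply_bijective t).1 ?_)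
  rw [mem_W.1 hv, ← Module.End.mul_apply, ← map_mul, mem_W.1 (e ▸ hv)]

/-- `t x` fixes `v`, so has order `2 ^ k`.  `k ≤ 1`: `thmG`.  `k ≥ 2`: `z = (t x) ^ 2 ^ (k-1)` is an
involution commuting with `t`, `x`; `t z` is conjugate to `t` (`t (t x) ^ (2 j) = (t x) ^ (-j) t (t x) ^ j`),
so `W (t z) = W t` (`A4.conj`, `thmG`), `W t ≤ W z`, `W z = W t`; likewise `W z = W x`. -/
theorem Q2.thmG2 (h : Q2 ρ) {d e t x : L} (a : A4 d t) (b : A4 e x) {v : U} (v0 : v ≠ 0)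
    (hv : ρ t v = v) (hx : ρ x v = v) : W ρ t = W ρ x := by
  obtain ⟨k, hk⟩ := h.fix (t * x) v v0 (by rw [map_mul, Module.End.mul_apply, hx, hv])
  obtain ⟨i, -, hi⟩ := (Nat.dvd_prime_pow Nat.prime_two).1 (orderOf_dvd_of_pow_eq_one hk)
  have e1 : (t * x)⁻¹ = x * t := by rw [mul_inv_rev, a.ti, b.ti]
  by_cases i1 : i ≤ 1
  · refine h.thmG a b (e1 ▸ eq_inv_of_mul_eq_one_left ?_)
    rw [← pow_two, ← orderOf_dvd_iff_pow_eq_one, hi]
    exact (pow_dvd_pow 2 i1).trans (by norm_num)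
  obtain ⟨j, rfl⟩ : ∃ j, i = j + 2 := ⟨i - 2, by omega⟩
  have hz : orderOf ((t * x) ^ 2 ^ j * (t * x) ^ 2 ^ j) = 2 := by
    rw [← pow_add, ← two_mul, ← pow_succ', orderOf_pow_of_dvd (by positivity) (hi ▸ pow_dvd_pow 2 (by omega)), hi, pow_succ,
      Nat.mul_div_cancel_left _ (by positivity)]
  refine (h.e4_z a ?_ hz).trans (h.e4_z b ?_ hz).symm
  · rw [SemiconjBy, e1, ← mul_assoc, a.tt, mul_assoc, a.tt, one_mul, mul_one]
  · rw [SemiconjBy, e1, mul_assoc]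

end Cfsg.Lib.GG
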