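import Cfsg.Agent.Lib.GG.E3

/-!
# Gagola groups (S4841): p = 2, `thmG` and `thmG2` from `thmB`
-/

set_option autoImplicit false

namespace Cfsg.Lib.GG

open Subgroup
open scoped MatrixGroups

variable {L U : Type*} [Group L] [Finite L] [AddCommGroup U] [Module (ZMod 2) U] [Finite U]
  {ρ : Representation (ZMod 2) L U}

omit [Finite L] in
theorem e4b_sq {t : L} (ht : orderOf t = 2) : t * t = 1 := by
  rw [← pow_two, ← ht]; exact pow_orderOf_eq_one t

/-- An element that permutes the commuting involutions `t`, `x`, `t x` cyclically. -/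
theorem Q2.e4b_cyc (h : Q2 ρ) {d t x k : L} (a : A4 d t) (hx : orderOf x = 2) (c : t * x = x * t)
    (k1 : k * t * k⁻¹ = x) (k2 : k * x * k⁻¹ = t * x) : W ρ t = W ρ x := by
  have ht := a.t2
  have tt := e4b_sq ht
  have xx := e4b_sq hx
  have : Fact (Nat.Prime 3) := ⟨Nat.prime_three⟩
  have three : ∀ y : L, y * t * y⁻¹ = x → y * x * y⁻¹ = t * x →
      Commute (y ^ 3) t ∧ Commute (y ^ 3) x := by
    intro y y1 y2
    have y3 : y * (t * x) * y⁻¹ = t := by
      calc y * (t * x) * y⁻¹ = (y * t * y⁻¹) * (y * x * y⁻¹) := by group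
        _ = t := by rw [y1, y2, c, ← mul_assoc, xx, one_mul]
    constructor
    · show y ^ 3 * t = t * y ^ 3
      calc y ^ 3 * t = y * (y * (y * t * y⁻¹) * y⁻¹) * y⁻¹ * y ^ 3 := by rw [pow_three y]; group
        _ = t * y ^ 3 := by rw [y1, y2, y3]
    · show y ^ 3 * x = x * y ^ 3
      calc y ^ 3 * x = y * (y * (y * x * y⁻¹) * y⁻¹) * y⁻¹ * y ^ 3 := by rw [pow_three y]; group
        _ = x * y ^ 3 := by rw [y2, y3, y1]
  obtain ⟨j, m, hm, hk⟩ := Nat.exists_eq_pow_mul_and_not_dvd (orderOf_pos k).ne' 3 (by norm_num)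
  obtain ⟨u, hu⟩ : ∃ u : ℕ, m * m = 3 * u + 1 := by
    refine ⟨m * m / 3, ?_⟩
    have : m * m % 3 = 1 := by
      have : m % 3 = 1 ∨ m % 3 = 2 := by omega
      rcases this with e | e <;> simp [Nat.mul_mod, e]
    omega
  obtain ⟨y, hy⟩ : ∃ y : L, y = k ^ (m * m) := ⟨_, rfl⟩
  have yk : y = k * (k ^ 3) ^ u := by rw [hy, hu, pow_succ', pow_mul]
  obtain ⟨c1, c2⟩ := three k k1 k2
  have y1 : y * t * y⁻¹ = x := by
    rw [yk, mul_assoc k, (c1.pow_left u).eq, ← k1]; group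
  have y2 : y * x * y⁻¹ = t * x := by
    rw [yk, mul_assoc k, (c2.pow_left u).eq, ← k2]; group
  have y3 : y * (t * x) * y⁻¹ = t := by
    calc y * (t * x) * y⁻¹ = (y * t * y⁻¹) * (y * x * y⁻¹) := by group
      _ = t := by rw [y1, y2, c, ← mul_assoc, xx, one_mul]
  have oy : orderOf y ∣ 3 ^ j := by
    rw [orderOf_dvd_iff_pow_eq_one, hy, ← pow_mul, show m * m * 3 ^ j = 3 ^ j * m * m by ring, ← hk,
      pow_mul, pow_orderOf_eq_one, one_pow]
  obtain ⟨i, -, hi⟩ := (Nat.dvd_prime_pow Nat.prime_three).1 oy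
  rcases i with _ | _ | i
  · rw [pow_zero, orderOf_eq_one_iff] at hi
    rw [hi, one_mul, inv_one, mul_one] at y1
    rw [y1]
  · rw [zero_add, pow_one] at hi
    have yy : y ^ 3 = 1 := by rw [← hi]; exact pow_orderOf_eq_one y
    have at' : A4 y t := ⟨hi, ht, by
      calc (t * y) ^ 3 = t * (y * t * y⁻¹) * (y * (y * t * y⁻¹) * y⁻¹) * y ^ 3 := by
            rw [pow_three (t * y)]; group
        _ = 1 := by
            rw [y1, y2, yy, mul_one, mul_assoc, ← mul_assoc x, ← c, mul_assoc t x x, xx, mul_one, tt]⟩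
    have ax : A4 y x := ⟨hi, hx, by
      calc (x * y) ^ 3 = x * (y * x * y⁻¹) * (y * (y * x * y⁻¹) * y⁻¹) * y ^ 3 := by
            rw [pow_three (x * y)]; group
        _ = 1 := by
            rw [y2, y3, yy, mul_one, c, ← mul_assoc, xx, one_mul, tt]⟩
    obtain ⟨v, v0, hv, hv'⟩ := h.common ht hx c
    exact h.lemC at' ax v0 hv hv'
  · exfalso
    refine h.lemF a (y := y ^ 3 ^ (i + 1)) ?_ ?_
    · rw [orderOf_pow' _ (by positivity), hi, Nat.gcd_eq_right (pow_dvd_pow 3 (by omega)), pow_succ 3 (i + 1),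
        Nat.mul_div_cancel_left _ (by positivity)]
    · rw [pow_succ', pow_mul]
      exact ((three y y1 y2).1.pow_left _).eq

theorem Q2.thmG' (h : Q2 ρ)
    (hB : ∀ {d e t x : L}, A4 d t → A4 e x → t * x = x * t →
      (d * t * d⁻¹) * x = x * (d * t * d⁻¹) → W ρ t = W ρ x)
    {d e t x : L} (a : A4 d t) (b : A4 e x) (c : t * x = x * t) : W ρ t = W ρ x := by
  have key : ∀ {d e t x : L}, A4 d t → A4 e x → t * x = x * t →
      W ρ t = W ρ x ∨ (d * t * d⁻¹) * x * (d * t * d⁻¹)⁻¹ = t * x := by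
    intro d e t x a b c
    have xx := e4b_sq b.t2
    have c' : x * t * x⁻¹ = t := by rw [← c, mul_inv_cancel_right]
    have a' : A4 (x * d * x⁻¹) t := by have := a.conj x; rwa [c'] at this
    have e1 : x * d * x⁻¹ * t * (x * d * x⁻¹)⁻¹ = x * (d * t * d⁻¹) * x⁻¹ := by
      calc _ = x * d * (x⁻¹ * (t * x)) * d⁻¹ * x⁻¹ := by group
        _ = _ := by rw [c]; group
    rcases h.lemE' a a' with k | k
    · left
      rw [e1] at k
      exact hB a b c (by rw [← k]; rw [inv_mul_cancel_right, k])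
    · right
      rw [e1, ← a.mul.1] at k
      have cm : t * (d * t * d⁻¹) = (d * t * d⁻¹) * t := a.mul.1.trans a.mul.2.1.symm
      have ss : (d * t * d⁻¹) * (d * t * d⁻¹) = 1 := e4b_sq (a.conj d).t2
      generalize d * t * d⁻¹ = s at k cm ss
      have xi : x⁻¹ = x := inv_eq_of_mul_eq_one_right xx
      have si : s⁻¹ = s := inv_eq_of_mul_eq_one_right ss
      rw [xi] at k
      rw [si]
      calc s * x * s = s * (x * s * x) * x := by
            rw [mul_assoc s (x * s * x), mul_assoc (x * s), xx, mul_one, mul_assoc]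
        _ = t * x := by rw [k, cm, ← mul_assoc, ss, one_mul]
  rcases key a b c with k | k
  · exact k
  rcases key b a c.symm with k' | k'
  · exact k'.symm
  have cm : t * (d * t * d⁻¹) = (d * t * d⁻¹) * t := a.mul.1.trans a.mul.2.1.symm
  have cm' : x * (e * x * e⁻¹) = (e * x * e⁻¹) * x := b.mul.1.trans b.mul.2.1.symm
  have tt := e4b_sq a.t2
  generalize d * t * d⁻¹ = s at k cm
  generalize e * x * e⁻¹ = r at k' cm'
  refine h.e4b_cyc (k := s * r) a b.t2 c ?_ ?_
  · calc s * r * t * (s * r)⁻¹ = s * (r * t * r⁻¹) * s⁻¹ := by group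
      _ = (s * x * s⁻¹) * (s * t * s⁻¹) := by rw [k']; group
      _ = x := by rw [k, ← cm, mul_inv_cancel_right, c, mul_assoc, tt, mul_one]
  · calc s * r * x * (s * r)⁻¹ = s * (r * x * r⁻¹) * s⁻¹ := by group
      _ = t * x := by rw [← cm', mul_inv_cancel_right, k]

theorem Q2.thmG2' (h : Q2 ρ)
    (hG : ∀ {d e t x : L}, A4 d t → A4 e x → t * x = x * t → W ρ t = W ρ x)
    {d e t x : L} (a : A4 d t) (b : A4 e x) {v : U} (v0 : v ≠ 0)
    (hv : ρ t v = v) (hx : ρ x v = v) : W ρ t = W ρ x := by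
  have tt := e4b_sq a.t2
  have xx := e4b_sq b.t2
  have ti : t⁻¹ = t := inv_eq_of_mul_eq_one_right tt
  have xi : x⁻¹ = x := inv_eq_of_mul_eq_one_right xx
  obtain ⟨n, hn⟩ := h.fix (t * x) v v0 (by rw [map_mul, Module.End.mul_apply, hx, hv])
  obtain ⟨i, -, hi⟩ := (Nat.dvd_prime_pow Nat.prime_two).1 (orderOf_dvd_iff_pow_eq_one.2 hn)
  have comm : (t * x) ^ 2 = 1 → W ρ t = W ρ x := fun e => by
    refine hG a b ?_
    rw [pow_two] at e
    rw [← inv_eq_of_mul_eq_one_right e, mul_inv_rev, ti, xi]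
  rcases i with _ | _ | i
  · rw [pow_zero, orderOf_eq_one_iff] at hi
    exact comm (by rw [hi, one_pow])
  · rw [zero_add, pow_one] at hi
    exact comm (by rw [← hi]; exact pow_orderOf_eq_one _)
  have key : ∀ {d s r : L}, A4 d s → s * r * s⁻¹ = r⁻¹ → orderOf r = 2 ^ (i + 1 + 1) →
      W ρ s = W ρ (r ^ 2 ^ (i + 1)) := by
    intro d s r a sr ro
    have oz : orderOf (r ^ 2 ^ (i + 1)) = 2 := by
      rw [orderOf_pow' _ (by positivity), ro, Nat.gcd_eq_right (pow_dvd_pow 2 (by omega)),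
        pow_succ 2 (i + 1), Nat.mul_div_cancel_left _ (by positivity)]
    have sp : ∀ n : ℕ, s * r ^ n * s⁻¹ = (r ^ n)⁻¹ := fun n => by
      rw [← conj_pow, sr, inv_pow]
    have cj : (r ^ 2 ^ i)⁻¹ * s * (r ^ 2 ^ i)⁻¹⁻¹ = s * r ^ 2 ^ (i + 1) := by
      rw [inv_inv, pow_succ, pow_mul, pow_two]
      nth_rewrite 1 [← sp]
      group
    have a' := a.conj (r ^ 2 ^ i)⁻¹
    rw [cj] at a'
    have cz : s * r ^ 2 ^ (i + 1) = r ^ 2 ^ (i + 1) * s := by
      have := sp (2 ^ (i + 1))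
      rw [inv_eq_of_mul_eq_one_right (e4b_sq oz)] at this
      nth_rewrite 2 [← this]
      group
    have e := hG a a' (by rw [mul_assoc, ← cz])
    refine h.W_eq a.t2 oz fun w hw => ?_
    have hw' := hw
    rw [e, mem_W, cz, map_mul, Module.End.mul_apply, mem_W.1 hw] at hw'
    exact mem_W.2 hw'
  rw [key a (r := t * x) (by rw [mul_inv_rev, ti, xi, ← mul_assoc, tt, one_mul]) hi,
    key b (r := t * x) (by rw [mul_inv_rev, ti, xi, mul_assoc, mul_assoc, xx, mul_one]) hi]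

end Cfsg.Lib.GG
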