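import Cfsg.Agent.Lib.GG.Fldb

/-!
# Gagola groups (S4841): the field generated by a normal cyclic subgroup
-/

set_option autoImplicit false

namespace Cfsg.Lib.GG

open Subgroup
open scoped MatrixGroups

variable {p : ℕ} [Fact p.Prime] {H V : Type*} [Group H] [Finite H] [AddCommGroup V]
  [Module (ZMod p) V] [Finite V] {ρ : Representation (ZMod p) H V}

/-- `E = Algebra.adjoin (ZMod p) {ρ x}` (the span of the `ρ (x ^ i)`), commutative and stable under
conjugation by `ρ h`.  The cyclic submodules `E v` (`v ≠ 0`) all have the same size (`ρ h (E v) = E (ρ h v)`,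
`Tr`), so `0 ≠ y ∈ E v` gives `E y = E v`.  If `α ∈ E`, `α v = 0`, `v ≠ 0`, `α w ≠ 0`, then
`y = α w = α (v + w)` gives `E w = E (v + w) ∋ v`, `E v = E w`, `α w ∈ α E v = 0`.  So nonzero elements of
`E` are injective, `E` is a finite field of order `p ^ e`, `|V| = (p ^ e) ^ k`.  `k ≤ 1` would make
`ρ s, ρ s' ∈ E` (they commute with `E`).  Conjugates of `ρ x` are roots in `E` of the minimal polynomial
of `ρ x` over `ZMod p`, of degree `≤ e`. -/
theorem fld (h : Fx ρ) (t : Tr ρ) {x s s' : H} (hx : (zpowers x).Normal) (c1 : s * x = x * s)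
    (c2 : s' * x = x * s') (nc : s * s' ≠ s' * s) :
    ∃ e k : ℕ, 1 ≤ e ∧ 2 ≤ k ∧ Nat.card V = (p ^ e) ^ k ∧ orderOf x ∣ p ^ e - 1 ∧
      (centralizer ({x} : Set H)).index ≤ e :=
  fld' h t hx c1 c2 nc

end Cfsg.Lib.GG
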