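import Cfsg.Agent.Lib.GG.Def

/-!
# Gagola groups (S4841): the field generated by a normal cyclic subgroup, proof (helper17)
-/

set_option autoImplicit false

namespace Cfsg.Lib.GG

open Subgroup Polynomial

section

variable {K V : Type*} [Field K] [AddCommGroup V] [Module K V]

theorem fb_semi {A T T' : Module.End K V} (h : A * T = T' * A) (q : K[X]) : A * aeval T q = aeval T' q * A := by
  induction q using Polynomial.induction_on' with
  | add a b ha hb => rw [map_add, map_add, mul_add, add_mul, ha, hb]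
  | monomial n a =>
    rw [aeval_monomial, aeval_monomial, ← Algebra.smul_def, ← Algebra.smul_def, mul_smul_comm, smul_mul_assoc,
      (SemiconjBy.pow_right (a := A) h n).eq]

/-- the cyclic submodule -/
noncomputable def fbC (T : Module.End K V) (v : V) : Submodule K V :=
  LinearMap.range ((LinearMap.applyₗ v).comp (aeval T : K[X] →ₐ[K] Module.End K V).toLinearMap)

theorem mem_fbC {T : Module.End K V} {v w : V} : w ∈ fbC T v ↔ ∃ q : K[X], aeval T q v = w := Iff.rfl

theorem fbC_self (T : Module.End K V) (v : V) : v ∈ fbC T v := ⟨1, by simp⟩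

theorem fbC_le {T : Module.End K V} {v w : V} (h : w ∈ fbC T v) : fbC T w ≤ fbC T v := by
  obtain ⟨q, rfl⟩ := mem_fbC.1 h
  intro u hu
  obtain ⟨r, rfl⟩ := mem_fbC.1 hu
  exact mem_fbC.2 ⟨r * q, by rw [map_mul, Module.End.mul_apply]⟩

theorem fb_inj [Module.Finite K V] {T : Module.End K V}
    (h : ∀ v w : V, v ≠ 0 → w ≠ 0 → Module.finrank K (fbC T v) ≤ Module.finrank K (fbC T w)) {q : K[X]} {v : V} (v0 : v ≠ 0)
    (e : aeval T q v = 0) : aeval T q = 0 := by
  have k : ∀ u y : V, y ≠ 0 → y ∈ fbC T u → fbC T y = fbC T u := fun u y y0 m =>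
    Submodule.eq_of_le_of_finrank_le (fbC_le m) (h u y (by
      rintro rfl
      obtain ⟨r, rfl⟩ := mem_fbC.1 m
      exact y0 (map_zero _)) y0)
  refine LinearMap.ext fun w => by_contra fun n => ?_
  have e1 := k w _ n ⟨q, rfl⟩
  have e2 := k (v + w) _ n (mem_fbC.2 ⟨q, by rw [map_add, e, zero_add]⟩)
  have m : v ∈ fbC T w := by
    have := sub_mem ((e2.symm.trans e1).le (fbC_self T (v + w))) (fbC_self T w)
    rwa [add_sub_cancel_right] at this
  obtain ⟨r, hr⟩ := mem_fbC.1 ((k w v v0 m).ge (fbC_self T w))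
  refine n ?_
  rw [← hr, ← Module.End.mul_apply, ← map_mul, mul_comm, map_mul, Module.End.mul_apply, e, map_zero, LinearMap.zero_apply]

end

variable {p : ℕ} [Fact p.Prime] {H V : Type*} [Group H] [Finite H] [AddCommGroup V]
  [Module (ZMod p) V] [Finite V] {ρ : Representation (ZMod p) H V}

theorem fld' (h : Fx ρ) (t : Tr ρ) {x s s' : H} (hx : (zpowers x).Normal) (c1 : s * x = x * s)
    (c2 : s' * x = x * s') (nc : s * s' ≠ s' * s) :
    ∃ e k : ℕ, 1 ≤ e ∧ 2 ≤ k ∧ Nat.card V = (p ^ e) ^ k ∧ orderOf x ∣ p ^ e - 1 ∧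
      (centralizer ({x} : Set H)).index ≤ e := by
  obtain ⟨v₀, v0⟩ := h.nt
  have := nontrivial_of_ne _ _ v0
  have cj : ∀ g : H, ∃ i : ℕ, x ^ i = g * x * g⁻¹ := fun g =>
    mem_powers_iff_mem_zpowers.2 (hx.conj_mem x (mem_zpowers x) g)
  choose i hi using cj
  have sm : ∀ (g : H) (q : (ZMod p)[X]), ρ g * aeval (ρ x) q = aeval (ρ x ^ i g) q * ρ g := fun g =>
    fb_semi (by rw [← map_pow, hi, ← map_mul, ← map_mul, inv_mul_cancel_right])
  have inj : ∀ (q : (ZMod p)[X]) (v : V), v ≠ 0 → aeval (ρ x) q v = 0 → aeval (ρ x) q = 0 := fun q v v0 e => by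
    refine fb_inj (fun v w v0 w0 => ?_) v0 e
    obtain ⟨g, rfl⟩ := t v w v0 w0
    have l : (fbC (ρ x) v).map (ρ g) ≤ fbC (ρ x) (ρ g v) := by
      rintro _ ⟨u, hu, rfl⟩
      obtain ⟨r, rfl⟩ := mem_fbC.1 hu
      refine mem_fbC.2 ⟨r.comp (X ^ i g), ?_⟩
      rw [aeval_comp, map_pow, aeval_X, ← Module.End.mul_apply, ← sm, Module.End.mul_apply]
    refine le_trans ?_ (Submodule.finrank_mono l)
    have := Submodule.finrank_map_le (ρ g⁻¹) ((fbC (ρ x) v).map (ρ g))
    rwa [← Submodule.map_comp, ← Module.End.mul_eq_comp, ← map_mul, inv_mul_cancel, map_one, Module.End.one_eq_id,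
      Submodule.map_id] at this
  have int : IsIntegral (ZMod p) (ρ x) := Algebra.IsIntegral.isIntegral _
  obtain ⟨m, hm⟩ : ∃ m, m = minpoly (ZMod p) (ρ x) := ⟨_, rfl⟩
  have m0 : m ≠ 0 := hm ▸ minpoly.ne_zero int
  have dv : ∀ q, m ∣ q ↔ aeval (ρ x) q = 0 := fun q => hm ▸ minpoly.dvd_iff
  have pr : Prime m := ⟨m0, hm ▸ minpoly.not_isUnit _ _, fun a b d => by
    rw [dv, map_mul] at d
    rw [dv, dv]
    refine or_iff_not_imp_left.2 fun n => LinearMap.ext fun v => by_contra fun z => n (inj a _ z ?_)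
    rw [← Module.End.mul_apply, d, LinearMap.zero_apply]⟩
  have := Fact.mk pr.irreducible
  let φ : AdjoinRoot m →+* Module.End (ZMod p) V :=
    Ideal.Quotient.lift (Ideal.span {m}) (aeval (ρ x) : (ZMod p)[X] →ₐ[ZMod p] _).toRingHom fun a ha =>
      (dv a).1 (Ideal.mem_span_singleton.1 ha)
  have hφ : ∀ q, φ (AdjoinRoot.mk m q) = aeval (ρ x) q := fun _ => rfl
  have hr : φ (AdjoinRoot.root m) = ρ x := (hφ X).trans (aeval_X _)
  have fe : Module.finrank (ZMod p) (AdjoinRoot m) = m.natDegree := (AdjoinRoot.powerBasis m0).finrank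
  have := (AdjoinRoot.powerBasis m0).finite
  have := Module.finite_of_finite (ZMod p) (M := AdjoinRoot m)
  have cE : Nat.card (AdjoinRoot m) = p ^ m.natDegree := by
    rw [Module.natCard_eq_pow_finrank (K := ZMod p), fe, Nat.card_zmod]
  let _ : Module (AdjoinRoot m) V := Module.compHom V φ
  have sm' : ∀ (c : AdjoinRoot m) (v : V), c • v = φ c v := fun _ _ => rfl
  refine ⟨m.natDegree, Module.finrank (AdjoinRoot m) V, fe ▸ Module.finrank_pos, ?_,
    by rw [Module.natCard_eq_pow_finrank (K := AdjoinRoot m), cE], ?_, ?_⟩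
  · by_contra! l
    obtain ⟨v, hv⟩ := finrank_le_one_iff.1 (Nat.lt_succ_iff.1 l)
    have k : ∀ g : H, g * x = x * g → ∀ (c : AdjoinRoot m) (w : V), ρ g (c • w) = c • ρ g w := fun g c a w => by
      obtain ⟨q, rfl⟩ := AdjoinRoot.mk_surjective a
      rw [sm', sm', hφ, ← Module.End.mul_apply, fb_semi (T' := ρ x) (by rw [← map_mul, c, map_mul]), Module.End.mul_apply]
    refine nc (h.inj (LinearMap.ext fun w => ?_))
    obtain ⟨c, rfl⟩ := hv w
    obtain ⟨a, ha⟩ := hv (ρ s v)
    obtain ⟨b, hb⟩ := hv (ρ s' v)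
    rw [map_mul, map_mul, Module.End.mul_apply, Module.End.mul_apply, k s' c2, k s c1, k s c1, k s' c2, ← ha, ← hb, k s c1,
      k s' c2, ← ha, ← hb, smul_comm a b]
  · have := Fintype.ofFinite (AdjoinRoot m)
    have e := congrArg φ (FiniteField.pow_card_sub_one_eq_one (AdjoinRoot.root m) fun z => v0 (by
      rw [z, map_zero] at hr
      rw [← ρ.inv_self_apply x v₀, ← hr, LinearMap.zero_apply, map_zero]))
    rw [map_pow, hr, map_one, ← Nat.card_eq_fintype_card, cE, ← map_pow, ← map_one ρ] at e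
    exact orderOf_dvd_of_pow_eq_one (h.inj e)
  · refine le_trans ?_ (ncard_rootSet_le m (AdjoinRoot m))
    refine Nat.card_le_card_of_injective (fun q : H ⧸ centralizer ({x} : Set H) =>
      (⟨AdjoinRoot.root m ^ i q.out, mem_rootSet.2 ⟨m0, ?_⟩⟩ : m.rootSet (AdjoinRoot m))) fun a b e => ?_
    · rw [← aeval_X (R := ZMod p) (AdjoinRoot.root m), ← map_pow, ← aeval_comp, AdjoinRoot.aeval_eq, AdjoinRoot.mk_eq_zero, dv,
        aeval_comp, map_pow, aeval_X]
      have := sm q.out m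
      rw [(dv m).1 dvd_rfl, mul_zero] at this
      rw [← mul_one (aeval _ m), ← map_one ρ, ← mul_inv_cancel q.out, map_mul, ← mul_assoc, ← this, zero_mul]
    · have e := congrArg φ (congrArg Subtype.val e)
      rw [map_pow, map_pow, hr, ← map_pow, ← map_pow, hi, hi] at e
      rw [← a.out_eq', ← b.out_eq', QuotientGroup.eq, mem_centralizer_singleton_iff]
      have := h.inj e
      rw [← mul_left_cancel_iff (a := a.out), ← mul_right_cancel_iff (a := b.out⁻¹)]
      calc _ = b.out * x * b.out⁻¹ := by group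
        _ = _ := by rw [← this]; group

end Cfsg.Lib.GG
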