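import Cfsg.Agent.Lib.GG.E1
import Cfsg.Prelude.Def_LocalEven
import Cfsg.Agent.S1141
import Cfsg.Agent.Lib.Sz.Instances
import Cfsg.Agent.Lib.Sz.Borel
import Cfsg.Agent.Lib.PSL2.SmallIso

/-!
# Gagola groups (S4841): p = 2, excluded groups
-/

set_option autoImplicit false

namespace Cfsg.Lib.GG

open Subgroup
open scoped MatrixGroups

variable {L U : Type*} [Group L] [Finite L] [AddCommGroup U] [Module (ZMod 2) U] [Finite U]
  {ρ : Representation (ZMod 2) L U}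

theorem SP.kill_sq (s : SP ρ) (ti : Unitary.SylowTI 2 L) {x : L} {k : ℕ} (hx : x ^ 2 ^ k = 1) :
    x * x = 1 := by
  obtain ⟨j, -, hj⟩ := (Nat.dvd_prime_pow Nat.prime_two).1 (orderOf_dvd_of_pow_eq_one hx)
  obtain ⟨P, hP⟩ := (IsPGroup.of_card (G := zpowers x) (n := j)
    (by rw [Nat.card_zpowers, hj])).exists_le_sylow
  rw [← sq]; exact s.sq_eq_one ti P (hP (mem_zpowers x))

/-- `Lib.Unitary.sylowTI_PSU`, `SP.sq_eq_one`: a Sylow 2-subgroup has exponent 2, so is abelian, against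
S1141. -/
theorem SP.not_u3 (s : SP ρ) {F : Type*} [Field F] [Fintype F] {n : ℕ} (hn : 2 ≤ n)
    (hF : Fintype.card F = (2 ^ n) ^ 2) (e : L ≃* PSU 3 F (2 ^ n)) : False := by
  obtain ⟨σ, h⟩ := Unitary.exists_isBar hF
  haveI : CharP F 2 := charP_of_card_eq_prime_pow (f := n * 2) (by rw [hF, pow_mul])
  haveI : Finite (PSU 3 F (2 ^ n)) := Finite.of_equiv _ e.toEquiv
  obtain ⟨S⟩ : Nonempty (Sylow 2 (PSU 3 F (2 ^ n))) := inferInstance
  obtain ⟨-, -, -, hp, ⟨a, b, hab⟩, -⟩ := Cfsg.Agent.S1141.result hn hF S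
  have sq : ∀ x : S, x * x = 1 := fun x => by
    obtain ⟨k, hk⟩ := hp x
    have := s.kill_sq ((h.sylowTI_PSU 2).of_equiv e.symm) (x := e.symm x) (k := k)
      (by rw [← map_pow, ← coe_pow, hk, coe_one, map_one])
    rw [← map_mul, map_eq_one_iff _ e.symm.injective] at this
    exact Subtype.ext this
  have ia : ∀ x : S, x⁻¹ = x := fun x => inv_eq_of_mul_eq_one_right (sq x)
  exact hab (by rw [← ia (a * b), mul_inv_rev, ia, ia])

/-- Sylow 2-subgroups of `Sz(q)` are TI (S1163: `S` is regular on the other cosets; or `Lib/S4F/SzFacts`,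
S2238) and contain elements of order 4 (S0330; grep the bridge `Lie.Sz` / `Sz`). -/
theorem SP.not_sz (s : SP ρ) (e : Lie.IsoSuzuki L) : False := by
  obtain ⟨F, _, _, m, hm, hF, ⟨e⟩⟩ := e
  let M := (Sz.lieModel hF).congr e
  have ti : Unitary.SylowTI 2 L := fun P Q x h1 hP hQ => by
    obtain ⟨p, hp⟩ := M.exists_sylow_eq P
    obtain ⟨q, hq⟩ := M.exists_sylow_eq Q
    rw [hp] at hP
    rw [hq] at hQ
    have := M.eq_of_mem_Up hP h1 hQ.1
    exact Sylow.ext (by rw [hp, hq, this])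
  exact one_ne_zero (M.u_sq_eq_one.1 (s.kill_sq ti (k := 2) (M.u_pow_four 1 0)))

/-- `Lib/PSL2/SmallIso`. -/
theorem alt5_psl : ∃ (F : Type) (_ : Field F) (_ : Fintype F), Fintype.card F = 2 ^ 2 ∧
    Nonempty (alternatingGroup (Fin 5) ≃* Matrix.ProjectiveSpecialLinearGroup (Fin 2) F) := by
  haveI : Fintype (GaloisField 2 2) := Fintype.ofFinite _
  have h := GaloisField.card 2 2 two_ne_zero
  obtain ⟨e⟩ := PSL2.equiv_psl_alt_five (F := GaloisField 2 2) (.inl h)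
  exact ⟨GaloisField 2 2, _, _, Nat.card_eq_fintype_card.symm.trans h, ⟨e.symm⟩⟩

end Cfsg.Lib.GG
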