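import Cfsg.Agent.Lib.GG.Def
import Cfsg.Prelude.Def_LocalEven

/-!
# Gagola groups (S4841): subgroups A4, second part (helper20)
-/

set_option autoImplicit false

namespace Cfsg.Lib.GG

open Subgroup
open scoped MatrixGroups

variable {X Y : Type*} [Group X] [Group Y]

theorem nab_lift (f : X →* Y) (hf : Function.Surjective f) (hk : ∀ x, f x = 1 → ∃ k : ℕ, x ^ 2 ^ k = 1) {d : Y}
    (hd : orderOf d = 3) : ∃ x, orderOf x = 3 ∧ f x = d := by
  obtain ⟨x, rfl⟩ := hf d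
  have d3 : f x ^ 3 = 1 := hd ▸ pow_orderOf_eq_one _
  obtain ⟨k, e⟩ := hk (x ^ 3) (by rw [map_pow, d3])
  have e1 : f (x ^ 4 ^ k) = f x := by
    rw [map_pow, ← pow_mod_orderOf, hd, Nat.pow_mod]; simp
  refine ⟨x ^ 4 ^ k, orderOf_eq_prime ?_ fun q => ?_, e1⟩
  · rw [← pow_mul, mul_comm, pow_mul, show 4 = 2 * 2 from rfl, mul_pow, pow_mul, e, one_pow]
  · rw [q, map_one] at e1
    rw [← e1, orderOf_one] at hd
    omega

theorem NoA4.of_surj' (n : NoA4 X) (f : X →* Y) (hf : Function.Surjective f)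
    (hk : ∀ x, f x = 1 → ∃ k : ℕ, x ^ 2 ^ k = 1) : NoA4 Y := by
  rintro d e hd he ⟨k, h⟩
  obtain ⟨x, hx, rfl⟩ := nab_lift f hf hk hd
  obtain ⟨y, hy, rfl⟩ := nab_lift f hf hk he
  obtain ⟨j, q⟩ := hk ((y * x⁻¹) ^ 2 ^ k) (by rw [map_pow, map_mul, map_inv, h])
  rw [n x y hx hy ⟨k + j, by rw [pow_add, pow_mul, q]⟩]

theorem not_noA4_of {g d : X} (g1 : g ≠ 1) (g4 : g ^ 4 = 1) (d3 : d ^ 3 = 1) (e3 : (g * d) ^ 3 = 1) : ¬ NoA4 X := fun n => by
  have k : g ^ 3 ≠ 1 := fun q => g1 (by rwa [pow_succ, q, one_mul] at g4)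
  have := n d (g * d) (orderOf_eq_prime d3 fun q => k (by simpa [q] using e3))
    (orderOf_eq_prime e3 fun q => k (by rw [eq_inv_of_mul_eq_one_left q, inv_pow, d3, inv_one])) ⟨2, by simpa using g4⟩
  exact g1 (by simpa using this)

section sl

variable {F : Type*} [Field F]

theorem nab_sq (A : SL(2, F)) : A.1 * A.1 = (A.1 0 0 + A.1 1 1) • A.1 - 1 := by
  have h := A.det_coe
  rw [Matrix.det_fin_two] at h
  ext i j
  fin_cases i <;> fin_cases j <;> simp [Matrix.mul_apply, Fin.sum_univ_two] <;>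
    first | ring1 | linear_combination -h

theorem nab_cube (A : SL(2, F)) (h : A.1 0 0 + A.1 1 1 = -1) : A ^ 3 = 1 := Subtype.ext (by
  have e := nab_sq A
  rw [h, neg_one_smul] at e
  rw [Matrix.SpecialLinearGroup.coe_pow, pow_succ, pow_two, e, sub_mul, neg_mul, e, one_mul]
  simp)

theorem nab_four (A : SL(2, F)) (h : A.1 0 0 + A.1 1 1 = 0) : A ^ 4 = 1 := Subtype.ext (by
  have e := nab_sq A
  rw [h, zero_smul, zero_sub] at e
  rw [Matrix.SpecialLinearGroup.coe_pow, show 4 = 2 * 2 from rfl, pow_mul, pow_two, pow_two, e]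
  simp)

theorem nab_psl (g d : SL(2, F)) (g1 : g.1 0 1 ≠ 0) (g0 : g.1 0 0 + g.1 1 1 = 0) (d1 : d.1 0 0 + d.1 1 1 = -1)
    (e1 : (g.1 * d.1) 0 0 + (g.1 * d.1) 1 1 = -1) : ¬ NoA4 (Matrix.ProjectiveSpecialLinearGroup (Fin 2) F) := by
  let q := QuotientGroup.mk' (center SL(2, F))
  refine not_noA4_of (g := q g) (d := q d) (fun e => g1 ?_) ?_ ?_ ?_
  · obtain ⟨r, -, hr⟩ := Matrix.SpecialLinearGroup.mem_center_iff.1 ((QuotientGroup.eq_one_iff g).1 e)
    rw [← hr]; simp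
  · rw [← map_pow, nab_four g g0, map_one]
  · rw [← map_pow, nab_cube d d1, map_one]
  · rw [← map_mul, ← map_pow, nab_cube (g * d) e1, map_one]

theorem not_noA4_psl_even' [Fintype F] {j : ℕ} (hF : Fintype.card F = 4 ^ j) :
    ¬ NoA4 (Matrix.ProjectiveSpecialLinearGroup (Fin 2) F) := by
  classical
  have j0 : j ≠ 0 := by
    rintro rfl
    exact Fintype.one_lt_card.ne' hF
  have h2 : (2 : F) = 0 := by
    have e := FiniteField.cast_card_eq_zero F
    rw [hF] at e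
    push_cast at e
    have : (2 : F) * 2 = 0 := by rw [← pow_eq_zero_iff j0, ← e]; norm_num
    simpa using this
  have : Fact (Nat.Prime 3) := ⟨Nat.prime_three⟩
  obtain ⟨w, hw⟩ := exists_prime_orderOf_dvd_card (G := Fˣ) 3 (by
    rw [Fintype.card_units, hF]
    simpa using Nat.sub_dvd_pow_sub_pow 4 1 j)
  have w3 : (w : F) ^ 3 = 1 := by rw [← Units.val_pow_eq_pow_val, ← hw, pow_orderOf_eq_one, Units.val_one]
  have w1 : (w : F) - 1 ≠ 0 := fun e => by
    rw [show w = 1 from Units.ext (sub_eq_zero.1 e), orderOf_one] at hw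
    omega
  have w2 : (w : F) ^ 2 + w + 1 = 0 := mul_left_cancel₀ w1 (by linear_combination w3)
  refine nab_psl ⟨!![0, w; w + 1, 0], by rw [Matrix.det_fin_two_of]; linear_combination -w2⟩
    ⟨!![0, -1; 1, -1], by rw [Matrix.det_fin_two_of]; ring⟩ (by simp) (by simp) (by simp) ?_
  simp [Matrix.mul_apply, Fin.sum_univ_two]

theorem not_noA4_psl_odd' [Fintype F] (hF : Odd (Fintype.card F)) :
    ¬ NoA4 (Matrix.ProjectiveSpecialLinearGroup (Fin 2) F) := by
  obtain ⟨p, hp⟩ := CharP.exists F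
  have : NeZero p := ⟨CharP.char_ne_zero_of_finite F p⟩
  obtain ⟨a, b, h⟩ := CharP.sq_add_sq F p (-1)
  have h2 : (2 : F) ≠ 0 := Ring.two_ne_zero fun e => by
    have := FiniteField.even_card_of_char_two e
    rw [Nat.odd_iff] at hF
    omega
  push_cast at h
  generalize (a : F) = x at h
  generalize (b : F) = y at h
  obtain ⟨t, ht⟩ : ∃ t : F, 2 * t = 1 := ⟨2⁻¹, mul_inv_cancel₀ h2⟩
  refine nab_psl ⟨!![0, -1; 1, 0], by rw [Matrix.det_fin_two_of]; ring⟩
    ⟨!![t * (-1 + x - y), t * (-1 + y + x); t * (1 + y + x), t * (-1 - x + y)], by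
      rw [Matrix.det_fin_two_of]; linear_combination (-2 * t ^ 2) * h + (2 * t + 1) * ht⟩ (by simp) (by simp) ?_ ?_
  · simp only [Matrix.of_apply, Matrix.cons_val', Matrix.cons_val_zero, Matrix.cons_val_one, Matrix.cons_val_fin_one]
    linear_combination -ht
  · simp [Matrix.mul_apply, Fin.sum_univ_two]
    linear_combination -ht

end sl

/-- the four-group of `S₄` -/
def nabV : Subgroup (Equiv.Perm (Fin 4)) where
  carrier := {σ | σ * σ = 1 ∧ Equiv.Perm.sign σ = 1}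
  mul_mem' := by
    intro a b
    simp only [Set.mem_ofPred_eq]
    revert a b
    decide +kernel
  one_mem' := by simp
  inv_mem' := by
    intro a
    simp only [Set.mem_ofPred_eq]
    revert a
    decide +kernel

theorem mem_nabV {σ : Equiv.Perm (Fin 4)} : σ ∈ nabV ↔ σ * σ = 1 ∧ Equiv.Perm.sign σ = 1 := Iff.rfl

instance nabV_normal : nabV.Normal := ⟨by
  simp only [mem_nabV]
  decide +kernel⟩

theorem exists_y' [Finite X] (h : Involves (Equiv.Perm (Fin 4)) X) :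
    ∃ (Q : Subgroup X) (y : X), IsPGroup 2 Q ∧ (∃ k : ℕ, orderOf y = 3 ^ k) ∧
      y ∈ normalizer (Q : Set X) ∧ y ∉ centralizer (Q : Set X) := by
  obtain ⟨K, R, _, ⟨e⟩⟩ := h
  let f : K →* Equiv.Perm (Fin 4) := e.toMonoidHom.comp (QuotientGroup.mk' _)
  have hf : Function.Surjective f := e.surjective.comp (QuotientGroup.mk'_surjective _)
  let N := nabV.comap f
  obtain ⟨P⟩ : Nonempty (Sylow 2 N) := inferInstance
  let c : Equiv.Perm (Fin 4) := Equiv.swap 0 1 * Equiv.swap 1 2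
  obtain ⟨x, hx⟩ := hf c
  obtain ⟨n, hn, v, hv, rfl⟩ : ∃ n ∈ normalizer ((P : Subgroup N).map N.subtype : Set K), ∃ v ∈ N, n * v = x := by
    have : x ∈ ((normalizer ((P : Subgroup N).map N.subtype : Set K) ⊔ N : Subgroup K) : Set K) := by
      rw [P.normalizer_sup_eq_top]; trivial
    rwa [mul_normal] at this
  have k1 : ∀ σ τ : Equiv.Perm (Fin 4), (τ * τ = 1 ∧ Equiv.Perm.sign τ = 1) → σ * τ = c → σ ^ 3 = 1 ∧ σ ≠ 1 := by
    decide +kernel
  have k2 : ∀ σ : Equiv.Perm (Fin 4), σ ^ 3 = 1 →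
      (∀ τ : Equiv.Perm (Fin 4), (τ * τ = 1 ∧ Equiv.Perm.sign τ = 1) → τ * σ = σ * τ) → σ = 1 := by
    decide +kernel
  have : Fact (Nat.Prime 3) := ⟨Nat.prime_three⟩
  obtain ⟨n3, n1⟩ := k1 (f n) (f v) hv (by rw [← map_mul, hx])
  obtain ⟨k, m, hm, e1⟩ := Nat.exists_eq_pow_mul_and_not_dvd (orderOf_pos n).ne' 3 (by norm_num)
  have m0 : m ≠ 0 := by rintro rfl; exact hm (dvd_zero _)
  refine ⟨((P : Subgroup N).map N.subtype).map K.subtype, (n ^ m : K), (P.2.map _).map _, ⟨k, ?_⟩,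
    le_normalizer_map _ ⟨_, pow_mem hn m, rfl⟩, fun q => hm ?_⟩
  · rw [orderOf_coe, orderOf_pow_of_dvd m0 ⟨_, by rw [e1, mul_comm]⟩, e1, Nat.mul_div_cancel _ (Nat.pos_of_ne_zero m0)]
  rw [← orderOf_eq_prime n3 n1, orderOf_dvd_iff_pow_eq_one]
  refine k2 _ (by rw [← pow_mul, mul_comm, pow_mul, n3, one_pow]) fun τ hτ => ?_
  let g : N →* nabV := (f.comp N.subtype).codRestrict _ fun a => a.2
  have hg : Function.Surjective g := fun b => by
    obtain ⟨a, ha⟩ := hf b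
    exact ⟨⟨a, show f a ∈ nabV from ha ▸ b.2⟩, Subtype.ext ha⟩
  have pV : IsPGroup 2 (⊤ : Subgroup nabV) := fun b => ⟨1, Subtype.ext (Subtype.ext (by simpa [sq] using b.1.2.1))⟩
  have : (⟨τ, hτ⟩ : nabV) ∈ ((P.mapSurjective hg : Sylow 2 nabV) : Subgroup nabV) := by
    rw [← (P.mapSurjective hg).3 pV le_top]; trivial
  obtain ⟨a, ha, e2⟩ := this
  have e3 : f a = τ := congrArg Subtype.val e2
  have e4 : (a : K) * n ^ m = n ^ m * a := Subtype.ext (q _ ⟨_, ⟨a, ha, rfl⟩, rfl⟩)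
  rw [← e3, ← map_pow, ← map_mul, e4, map_mul]

end Cfsg.Lib.GG
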