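import Cfsg.Agent.Lib.GG.Def
import Cfsg.Prelude.Def_LocalEven
import Cfsg.Agent.S2131
import Cfsg.Agent.Lib.GG.NAb

/-!
# Gagola groups (S4841): subgroups A4
-/

set_option autoImplicit false

namespace Cfsg.Lib.GG

open Subgroup
open scoped MatrixGroups

variable {X Y : Type*} [Group X] [Group Y]

theorem NoA4.of_inj (n : NoA4 Y) (f : X →* Y) (hf : Function.Injective f) : NoA4 X :=
  fun d e hd he ⟨k, hk⟩ => hf (n _ _ (by rw [orderOf_injective f hf, hd]) (by rw [orderOf_injective f hf, he])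
    ⟨k, by rw [← map_inv, ← map_mul, ← map_pow, hk, map_one]⟩)

/-- Lift two elements of order 3 through a normal 2-subgroup (take 3-parts of preimages). -/
theorem NoA4.of_surj [Finite X] (n : NoA4 X) (f : X →* Y) (hf : Function.Surjective f)
    (hk : ∀ x, f x = 1 → ∃ k : ℕ, x ^ 2 ^ k = 1) : NoA4 Y := by
  have lift : ∀ d : Y, orderOf d = 3 → ∃ x, orderOf x = 3 ∧ f x = d := fun d hd => by
    obtain ⟨x, rfl⟩ := hf d
    have h3 : f x ^ 3 = 1 := hd ▸ pow_orderOf_eq_one _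
    obtain ⟨a, ha⟩ := hk (x ^ 3) (by rw [map_pow, h3])
    have h4 : f (x ^ 4 ^ a) = f x := by
      rw [map_pow, ← pow_mod_orderOf, hd, Nat.pow_mod]
      simp
    refine ⟨x ^ 4 ^ a, orderOf_eq_prime ?_ fun e => ?_, h4⟩
    · rw [← pow_mul, mul_comm, pow_mul, show 4 = 2 * 2 from rfl, mul_pow, pow_mul, ha, one_pow]
    · rw [← h4, e, map_one, orderOf_one] at hd
      omega
  rintro d e hd he ⟨k, h⟩
  obtain ⟨x, ox, rfl⟩ := lift d hd
  obtain ⟨y, oy, rfl⟩ := lift e he
  obtain ⟨m, hm⟩ := hk ((y * x⁻¹) ^ 2 ^ k) (by rw [map_pow, map_mul, map_inv, h])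
  rw [n x y ox oy ⟨k + m, by rw [pow_add, pow_mul, hm]⟩]

/-- `x d x⁻¹ d⁻¹ ∈ Q`. -/
theorem NoA4.cent (n : NoA4 X) {Q : Subgroup X} (hQ : IsPGroup 2 Q) {d : X} (hd : orderOf d = 3)
    (hN : d ∈ normalizer (Q : Set X)) {x : X} (hx : x ∈ Q) : x * d = d * x := by
  have hm : x * d * x⁻¹ * d⁻¹ ∈ Q := by
    have := Q.mul_mem hx ((mem_normalizer_iff.1 hN _).1 (Q.inv_mem hx))
    simpa only [mul_assoc] using this
  obtain ⟨k, hk⟩ := hQ ⟨_, hm⟩
  exact mul_inv_eq_iff_eq_mul.1 (n d (x * d * x⁻¹) hd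
    (by rw [← hd]; exact orderOf_injective (MulAut.conj x).toMonoidHom (MulAut.conj x).injective d)
    ⟨k, congrArg Subtype.val hk⟩)

theorem exists_alt_hom {m n : ℕ} (h : m ≤ n) :
    ∃ f : alternatingGroup (Fin m) →* alternatingGroup (Fin n), Function.Injective f := by
  classical
  let g := Equiv.Perm.viaEmbeddingHom (Fin.castLEEmb h)
  refine ⟨(g.comp (alternatingGroup (Fin m)).subtype).codRestrict _ fun x => ?_, fun x y e =>
    Subtype.ext (Equiv.Perm.viaEmbeddingHom_injective _ (congrArg Subtype.val e))⟩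
  have := Equiv.Perm.mem_alternatingGroup.1 x.2
  rw [Equiv.Perm.mem_alternatingGroup]
  show Equiv.Perm.sign (Equiv.Perm.viaEmbedding _ _) = 1
  rw [Equiv.Perm.viaEmbedding, Equiv.Perm.sign_extendDomain]
  exact this

theorem not_noA4_alt4 : ¬ NoA4 (alternatingGroup (Fin 4)) := fun n =>
  absurd (n ⟨Equiv.swap 0 1 * Equiv.swap 1 2, Equiv.Perm.mem_alternatingGroup.2 (by decide)⟩ ⟨Equiv.swap 1 0 * Equiv.swap 0 3, Equiv.Perm.mem_alternatingGroup.2 (by decide)⟩ (orderOf_eq_prime (by decide) (by decide))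
    (orderOf_eq_prime (by decide) (by decide)) ⟨1, by decide⟩) (by decide)

theorem not_noA4_alt {n : ℕ} (h : 4 ≤ n) : ¬ NoA4 (alternatingGroup (Fin n)) := fun k =>
  (exists_alt_hom h).elim fun f hf => not_noA4_alt4 (k.of_inj f hf)

theorem not_noA4_perm4 : ¬ NoA4 (Equiv.Perm (Fin 4)) := fun k =>
  not_noA4_alt4 (k.of_inj _ (alternatingGroup (Fin 4)).subtype_injective)

theorem sl_cube {F : Type*} [Field F] (A : SL(2, F)) (h : A.1 0 0 + A.1 1 1 = -1) : A ^ 3 = 1 := by
  have hd := A.2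
  rw [Matrix.det_fin_two] at hd
  have e : A.1 1 1 = -1 - A.1 0 0 := by linear_combination h
  ext i j
  rw [e] at hd
  fin_cases i <;> fin_cases j <;> simp [pow_succ, Matrix.mul_apply, Fin.sum_univ_two, e]
  · linear_combination (1 - A.1 0 0) * hd
  · linear_combination (- A.1 0 1) * hd
  · linear_combination (- A.1 1 0) * hd
  · linear_combination (2 + A.1 0 0) * hd

theorem not_noA4_psl {F : Type*} [Field F] {x y : F} (h : x ^ 2 + x * y + y ^ 2 + y + 1 = 0) (h0 : y ≠ 0 ∨ x + y + 1 ≠ 0) :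
    ¬ NoA4 (Matrix.ProjectiveSpecialLinearGroup (Fin 2) F) := fun n => by
  obtain ⟨A, hA⟩ : ∃ A : SL(2, F), A.1 = !![0, -1; 1, -1] := ⟨⟨_, by simp [Matrix.det_fin_two]⟩, rfl⟩
  obtain ⟨t, ht⟩ : ∃ t : SL(2, F), t.1 = !![x, y; x + y + 1, -x] :=
    ⟨⟨_, by rw [Matrix.det_fin_two_of]; linear_combination -h⟩, rfl⟩
  let π := QuotientGroup.mk' (center SL(2, F))
  have nc : ∀ B : SL(2, F), π B = 1 → B.1 0 1 = 0 ∧ B.1 1 0 = 0 := fun B e => by
    obtain ⟨r, -, hr⟩ := Matrix.SpecialLinearGroup.mem_center_iff.1 ((QuotientGroup.eq_one_iff B).1 e)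
    rw [← hr]
    simp
  have a3 : π A ^ 3 = 1 := by rw [← map_pow, sl_cube A (by simp [hA]), map_one]
  have b3 : π (t * A) ^ 3 = 1 := by
    rw [← map_pow, sl_cube (t * A) (by simp [hA, ht, Matrix.mul_apply, Fin.sum_univ_two]; ring), map_one]
  have a1 : π A ≠ 1 := fun e => by simpa [hA] using (nc A e).2
  have t4 : t ^ 4 = 1 := by
    ext i j
    fin_cases i <;> fin_cases j <;> simp [ht, pow_succ, Matrix.mul_apply, Fin.sum_univ_two]
    · linear_combination (x ^ 2 + x * y + y ^ 2 + y - 1) * h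
    · ring
    · ring
    · linear_combination (x ^ 2 + x * y + y ^ 2 + y - 1) * h
  have q : π (t * A) * (π A)⁻¹ = π t := by rw [map_mul, mul_inv_cancel_right]
  have t1 : π t ≠ 1 := fun e => by
    obtain ⟨h1, h2⟩ := nc t e
    exact h0.elim (fun k => k (by simpa [ht] using h1)) fun k => k (by simpa [ht] using h2)
  have b1 : π (t * A) ≠ 1 := fun e => by
    rw [e, one_mul] at q
    have h4 : (π A)⁻¹ ^ 4 = 1 := by rw [q, ← map_pow, t4, map_one]
    rw [inv_pow, inv_eq_one, pow_succ, a3, one_mul] at h4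
    exact a1 h4
  have := n (π A) (π (t * A)) (orderOf_eq_prime a3 a1) (orderOf_eq_prime b3 b1)
    ⟨2, by rw [q, ← map_pow]; exact (congrArg π t4).trans (map_one π)⟩
  rw [this, mul_inv_cancel] at q
  exact t1 q.symm

/-- `diag (ω, ω²)` and its product with `!![1, 1; 0, 1]`. -/
theorem not_noA4_psl_even {F : Type*} [Field F] [Fintype F] {j : ℕ} (hF : Fintype.card F = 4 ^ j) :
    ¬ NoA4 (Matrix.ProjectiveSpecialLinearGroup (Fin 2) F) := by
  classical
  have h2 : (2 : F) = 0 := by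
    have := FiniteField.cast_card_eq_zero F
    rw [hF, Nat.cast_pow] at this
    have h4 : (2 : F) ^ 2 = 0 := by
      have := pow_eq_zero_iff (M₀ := F) (a := ((4 : ℕ) : F)) (n := j) (by rintro rfl; simp at this) |>.1 this
      linear_combination this
    exact pow_eq_zero_iff two_ne_zero |>.1 h4
  obtain ⟨w, hw⟩ := exists_prime_orderOf_dvd_card (G := Fˣ) 3 (by
    rw [Fintype.card_units, hF]
    exact Nat.sub_one_dvd_pow_sub_one 4 j)
  have h3 : (w : F) ^ 3 = 1 := by rw [← Units.val_pow_eq_pow_val, ← hw, pow_orderOf_eq_one, Units.val_one]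
  have h1 : (w : F) - 1 ≠ 0 := fun e => by
    rw [Units.ext (show (w : F) = (1 : Fˣ) from sub_eq_zero.1 e), orderOf_one] at hw
    omega
  have h4 : (w : F) ^ 2 + w + 1 = 0 := mul_left_cancel₀ h1 (by linear_combination h3)
  exact not_noA4_psl (x := w) (y := 1) (by linear_combination h4 + h2) (.inl one_ne_zero)

/-- `SL(2, 3) ≤ SL(2, q)`: quaternion units `i, j` (`a² + b² = -1`), `ω = (-1 + i + j + i j) / 2`. -/
theorem not_noA4_psl_odd {F : Type*} [Field F] [Fintype F] (hF : Odd (Fintype.card F)) :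
    ¬ NoA4 (Matrix.ProjectiveSpecialLinearGroup (Fin 2) F) := by
  have h2 : (2 : F) ≠ 0 := fun e => by
    have := FiniteField.cast_card_eq_zero F
    obtain ⟨k, hk⟩ := hF
    rw [hk] at this
    push_cast at this
    rw [e, zero_mul, zero_add] at this
    exact one_ne_zero this
  obtain ⟨x, y, h⟩ : ∃ x y : F, x ^ 2 + x * y + y ^ 2 + y + 1 = 0 := by
    by_cases h3 : (3 : F) = 0
    · exact ⟨-1, -1, by linear_combination h3⟩
    obtain ⟨a, b, h⟩ := FiniteField.exists_root_sum_quadratic (Polynomial.degree_X_pow (R := F) 2)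
      (Polynomial.degree_quadratic (b := 4) (c := 4) h3) (Nat.odd_iff.1 hF)
    simp only [Polynomial.eval_pow, Polynomial.eval_X, Polynomial.eval_add, Polynomial.eval_mul, Polynomial.eval_C] at h
    refine ⟨(a - b) / 2, b, ?_⟩
    field_simp
    linear_combination h
  refine not_noA4_psl h ?_
  by_contra k
  push Not at k
  obtain ⟨rfl, k⟩ := k
  exact h2 (by linear_combination h - (x - 1) * k)

theorem not_noA4_ree (h : IsReeType X) : ¬ NoA4 X := fun k => by
  obtain ⟨-, -, -, K, n, -, -, -, -, F, _, _, hF, ⟨e⟩⟩ := h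
  exact not_noA4_psl_odd (hF ▸ Odd.pow (by decide))
    (k.of_inj (K.subtype.comp e.symm.toMonoidHom) (K.subtype_injective.comp e.symm.injective))

/-- S2131. -/
theorem not_noA4_j1 (h : Spor.IsoJ1 X) : ¬ NoA4 X := fun k => by
  obtain ⟨e⟩ := h
  obtain ⟨t, -, ⟨c⟩⟩ := Agent.S2131.result
  exact not_noA4_alt (n := 5) (by decide) (k.of_inj
    (e.symm.toMonoidHom.comp ((Subgroup.subtype _).comp (c.symm.toMonoidHom.comp (MonoidHom.inr _ _))))
    (e.symm.injective.comp ((subtype_injective _).comp (c.symm.injective.comp fun _ _ h => (Prod.ext_iff.1 h).2))))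

theorem RR.of_inj (n : RR Y) (f : X →* Y) (hf : Function.Injective f) : RR X := fun r x y hr h2 hx hy c => by
  obtain ⟨k, hk⟩ := n r (f x) (f y) hr h2 (by rw [orderOf_injective f hf, hx]) (by rw [orderOf_injective f hf, hy])
    (by rw [← map_mul, c, map_mul])
  exact ⟨k, hf ((map_zpow f x k).trans hk)⟩

/-- `(0 1 2)` and `(3 4 5)`. -/
theorem not_rr_alt {n : ℕ} (h : 6 ≤ n) (e : X ≃* alternatingGroup (Fin n)) : ¬ RR X := fun k => by
  obtain ⟨f, hf⟩ := exists_alt_hom h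
  have := k.of_inj (e.symm.toMonoidHom.comp f) (e.symm.injective.comp hf) 3 ⟨Equiv.swap 0 1 * Equiv.swap 1 2, Equiv.Perm.mem_alternatingGroup.2 (by decide)⟩ ⟨Equiv.swap 3 4 * Equiv.swap 4 5, Equiv.Perm.mem_alternatingGroup.2 (by decide)⟩
    Nat.prime_three (by decide) (orderOf_eq_prime (by decide) (by decide)) (orderOf_eq_prime (by decide) (by decide))
    (by decide)
  have h2 : zpowers (⟨Equiv.swap 0 1 * Equiv.swap 1 2, Equiv.Perm.mem_alternatingGroup.2 (by decide)⟩ : alternatingGroup (Fin 6)) ≤ MulAction.stabilizer _ (3 : Fin 6) :=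
    zpowers_le.2 (by rw [MulAction.mem_stabilizer_iff]; decide)
  exact absurd (MulAction.mem_stabilizer_iff.1 (h2 this)) (by decide)

/-- `K / R ≅ S₄`, `K₀` the preimage of the four-group, `Q` a Sylow 2-subgroup of `K₀`; by Frattini
`N_K(Q)` covers `S₄ / V₄`; `y` is the 3-part of an element mapping to order 3 modulo `V₄`, it moves the
image `V₄` of `Q`. -/
theorem exists_y [Finite X] (h : Involves (Equiv.Perm (Fin 4)) X) :
    ∃ (Q : Subgroup X) (y : X), IsPGroup 2 Q ∧ (∃ k : ℕ, orderOf y = 3 ^ k) ∧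
      y ∈ normalizer (Q : Set X) ∧ y ∉ centralizer (Q : Set X) :=
  exists_y' h

end Cfsg.Lib.GG
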