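import Cfsg.Agent.Lib.GG.Bas
import Cfsg.Agent.Lib.GG.Ari
import Cfsg.Agent.S2430
import Cfsg.Agent.Lib.PSL2.BaseChange
import Cfsg.Agent.Lib.Core.PCore

/-!
# Gagola groups (S4841): odd p, cross characteristic
-/

set_option autoImplicit false
set_option linter.unusedSectionVars false

namespace Cfsg.Lib.GG

open Subgroup
open scoped MatrixGroups

variable {p : ℕ} [Fact p.Prime] {H V : Type*} [Group H] [Finite H] [AddCommGroup V]
  [Module (ZMod p) V] [Finite V] {ρ : Representation (ZMod p) H V}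

theorem o2_ker (A : Module.End (ZMod p) V) (k : ℕ) :
    Nat.card (LinearMap.ker (A ^ k)) ≤ Nat.card (LinearMap.ker A) ^ k := by
  induction k with
  | zero => simp [Module.End.one_eq_id]
  | succ k ih =>
    let f : LinearMap.ker (A ^ (k + 1)) →ₗ[ZMod p] LinearMap.ker (A ^ k) :=
      A.restrict fun v hv => by rwa [LinearMap.mem_ker, ← Module.End.mul_apply, ← pow_succ]
    rw [Submodule.card_eq_card_quotient_mul_card (LinearMap.ker f), Nat.card_congr f.quotKerEquivRange.toEquiv,
      pow_succ' (Nat.card _)]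
    exact Nat.mul_le_mul (Nat.card_le_card_of_injective
      (fun v : LinearMap.ker f => (⟨v.1.1, congrArg Subtype.val v.2⟩ : LinearMap.ker A))
      fun a b e => Subtype.ext (Subtype.ext (Subtype.mk.inj e)))
      ((Nat.card_le_card_of_injective _ Subtype.val_injective).trans ih)

omit [Finite H] [Finite V] in
theorem o2_pow [Nontrivial V] (ρ : Representation (ZMod p) H V) (x : H) (k : ℕ) :
    (ρ x - 1) ^ p ^ k = ρ (x ^ p ^ k) - 1 := by
  have : CharP (Module.End (ZMod p) V) p :=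
    charP_of_injective_algebraMap (algebraMap (ZMod p) (Module.End (ZMod p) V)).injective p
  rw [sub_pow_char_pow_of_commute _ _ (Commute.one_right _), one_pow, map_pow]

/-- If `x ^ p = 1` then `(ρ x - 1) ^ p = 0`, so `|V| ≤ |ker (ρ x - 1)| ^ p`. -/
theorem card_le_pow (ρ : Representation (ZMod p) H V) {x : H} (hx : x ^ p = 1) :
    Nat.card V ≤ fc ρ (zpowers x) ^ p := by
  have e : fc ρ (zpowers x) = Nat.card (LinearMap.ker (ρ x - 1)) := by
    refine Nat.card_congr (Equiv.subtypeEquivRight fun v => ?_)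
    rw [LinearMap.mem_ker, LinearMap.sub_apply, Module.End.one_apply, sub_eq_zero]
    refine ⟨fun h => h x (mem_zpowers x), fun h g hg => ?_⟩
    obtain ⟨n, rfl⟩ := mem_powers_iff_mem_zpowers.2 hg
    induction n with
    | zero => simp
    | succ n ih =>
      simp only at ih ⊢
      rw [pow_succ, map_mul, Module.End.mul_apply, h, ih (pow_mem (mem_zpowers x) n)]
  rw [e]
  rcases subsingleton_or_nontrivial V with hV | hV
  · rw [Nat.card_of_subsingleton (0 : V)]
    exact Nat.one_le_pow _ _ Nat.card_pos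
  · have := o2_ker (ρ x - 1) p
    have e2 := o2_pow ρ x 1
    rw [pow_one, hx, map_one, sub_self] at e2
    rwa [e2, LinearMap.ker_zero, Nat.card_congr Submodule.topEquiv.toEquiv] at this

/-- If `x ^ p` and `x` have the same fixed vectors for a `p`-element `x`, then `x = 1`
(`ker (ρ x - 1) ^ p = ker (ρ x - 1)` for a nilpotent operator forces it to vanish). -/
theorem Fx.eq_one (h : Fx ρ) {x : H} {k : ℕ} (hx : x ^ p ^ k = 1)
    (hf : ∀ v, ρ (x ^ p) v = v → ρ x v = v) : x = 1 := by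
  obtain ⟨v, hv⟩ := h.nt
  have : Nontrivial V := ⟨v, 0, hv⟩
  have e1 := o2_pow ρ x 1
  have e2 := o2_pow ρ x k
  rw [pow_one] at e1
  rw [hx, map_one, sub_self] at e2
  have mono : ∀ {a b : ℕ}, a ≤ b → LinearMap.ker ((ρ x - 1) ^ a) ≤ LinearMap.ker ((ρ x - 1) ^ b) := by
    intro a b l
    obtain ⟨c, rfl⟩ := Nat.exists_eq_add_of_le' l
    rw [pow_add]
    exact LinearMap.ker_le_ker_comp _ _
  have l : LinearMap.ker ((ρ x - 1) ^ 1) = LinearMap.ker ((ρ x - 1) ^ 2) :=
    le_antisymm (mono (by norm_num)) ((mono (Fact.out : p.Prime).two_le).trans fun w hw => by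
      rw [e1, LinearMap.mem_ker, LinearMap.sub_apply, Module.End.one_apply, sub_eq_zero] at hw
      rw [pow_one, LinearMap.mem_ker, LinearMap.sub_apply, Module.End.one_apply, hf w hw, sub_self])
  have := Module.End.ker_pow_constant l (p ^ k)
  rw [pow_add, e2, mul_zero, LinearMap.ker_zero, pow_one, LinearMap.ker_eq_top, sub_eq_zero, ← map_one ρ] at this
  exact h.inj this

/-- `P` Sylow, `p ∣ q + 1` or `p ∣ q - 1`; S2430: `P ≤ C(P)` cyclic of order `q ± 1`, `|N(P)| = 2 (q ± 1)`.
For `1 ≠ x ∈ P` the centraliser of `x` (noncentral, `x` has odd order) is abelian, so `P` is the only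
Sylow subgroup containing `x`, and by `SP` every vector fixed by `x` is fixed by `P`.  By `Fx.eq_one` the
cyclic group `P` has order `p`; so `q ± 1 = p c`, `p ∤ c`; `SP.count`, `SP.relIndex_dvd` (`= 2 c`),
`card_le_pow`, `arith_plus` / `arith_minus` with `N = |SL| / |N(P)|`. -/
theorem cross {F : Type*} [Field F] [Fintype F] {σ : Representation (ZMod p) SL(2, F) V} (h : SP σ)
    (hp : p ≠ 2) (ho : Odd (Fintype.card F)) (h4 : 4 ≤ Fintype.card F) (hF : ¬ p ∣ Fintype.card F)
    (hd : p ∣ Nat.card SL(2, F)) :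
    p = 3 ∧ (Fintype.card F = 5 ∧ Nat.card V = 81 ∨ Fintype.card F = 13 ∧ Nat.card V = 729) := by
  have pp : p.Prime := Fact.out
  have h2 : (2 : F) ≠ 0 := PSL2.two_ne_zero_iff_odd.2 (by rwa [Nat.card_eq_fintype_card])
  have cS : Nat.card SL(2, F) = Fintype.card F * ((Fintype.card F - 1) * (Fintype.card F + 1)) := by
    rw [PSL2.card_SL2, Nat.card_eq_fintype_card, GLTwo.card_sq_sub_one]
  have d : p ∣ (Fintype.card F - 1) * (Fintype.card F + 1) :=
    ((Nat.Prime.dvd_mul pp).1 (cS ▸ hd)).resolve_left hF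
  have ab : ∀ Q : Sylow p SL(2, F), ∀ a ∈ (Q : Subgroup SL(2, F)), ∀ b ∈ (Q : Subgroup SL(2, F)), a * b = b * a :=
    fun Q a ha b hb => by
      obtain ⟨s, -, hr, -, l⟩ := GLTwo.exists_reg_of_sylow h2 hp (GLTwo.card_sq_sub_one (F := F) ▸ d) Q
      exact GLTwo.comm_of_mem_centralizer hr.not_scal (l ha) (l hb)
  let P : Sylow p SL(2, F) := default
  obtain ⟨s, hs, hr, os, l⟩ := GLTwo.exists_reg_of_sylow h2 hp (GLTwo.card_sq_sub_one (F := F) ▸ d) P
  have key : ∀ x ∈ (P : Subgroup SL(2, F)), x ≠ 1 → ∀ v, σ x v = v → ∀ y ∈ (P : Subgroup SL(2, F)), σ y v = v := by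
    intro x hx x1 v hv y hy
    by_cases v0 : v = 0
    · rw [v0, map_zero]
    obtain ⟨Q, hQ⟩ := h.syl v v0
    have hxQ := (hQ x).1 hv
    have ns : ¬ GLTwo.Scal (x : Matrix (Fin 2) (Fin 2) F) := fun e => by
      have x2 : x ^ 2 = 1 := by
        have := PSL2.sl_det x
        refine PSL2.sl_ext ?_ ?_ ?_ ?_ <;>
          simp [sq, Matrix.mul_apply, Fin.sum_univ_two, e.1, e.2.1, e.2.2] <;>
          simpa [e.1, e.2.1, e.2.2] using this
      obtain ⟨k, hk⟩ := P.isPGroup' ⟨x, hx⟩
      have := Nat.dvd_gcd (orderOf_dvd_of_pow_eq_one x2)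
        (orderOf_dvd_of_pow_eq_one (show x ^ p ^ k = 1 from congrArg Subtype.val hk))
      rw [(Nat.Coprime.pow_right k ((Nat.coprime_primes Nat.prime_two pp).2 hp.symm)).gcd_eq_one, Nat.dvd_one,
        orderOf_eq_one_iff] at this
      exact x1 this
    have cm : ∀ a ∈ (P : Subgroup SL(2, F)), ∀ b ∈ (Q : Subgroup SL(2, F)), a * b = b * a := fun a ha b hb =>
      GLTwo.comm_of_mem_centralizer ns (mem_centralizer_singleton_iff.2 (ab P a ha x hx))
        (mem_centralizer_singleton_iff.2 (ab Q b hb x hxQ))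
    have e := Q.is_maximal' (Q.isPGroup'.to_sup_of_normal_left' P.isPGroup'
      ((le_centralizer_iff.1 fun b hb => mem_centralizer_iff.2 fun a ha => cm a ha b hb).trans
        (centralizer_le_normalizer _))) le_sup_left
    exact (hQ y).2 (e.le (mem_sup_right hy))
  have ex : ∀ y ∈ (P : Subgroup SL(2, F)), y ^ p = 1 := fun y hy => by_contra fun n => by
    obtain ⟨k, hk⟩ := P.isPGroup' ⟨y, hy⟩
    exact n (by rw [h.fx.eq_one (x := y) (congrArg Subtype.val hk) fun v hv => key _ (pow_mem hy p) n v hv y hy, one_pow])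
  have cy : IsCyclic (P : Subgroup SL(2, F)) :=
    have := hr.centralizer_cases.1
    isCyclic_of_injective (inclusion l) (inclusion_injective l)
  have cP : Nat.card (P : Subgroup SL(2, F)) = p := by
    refine Nat.dvd_antisymm ?_ (os ▸ (P : Subgroup SL(2, F)).orderOf_dvd_natCard hs)
    rw [← IsCyclic.exponent_eq_card]
    exact Monoid.exponent_dvd_of_forall_pow_eq_one fun y => Subtype.ext (ex y y.2)
  have eP : zpowers s = P := eq_of_le_of_card_ge (zpowers_le.2 hs) (by rw [cP, Nat.card_zpowers, os])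
  have n2 : ¬ p * p ∣ Nat.card SL(2, F) := fun e => by
    rw [← (P : Subgroup SL(2, F)).card_mul_index, cP] at e
    exact P.not_dvd_index (Nat.dvd_of_mul_dvd_mul_left pp.pos e)
  obtain ⟨n, hn⟩ := card_V p V
  obtain ⟨m, hm, fm⟩ := h.fx.fc_pow P.isPGroup'
  have hv := h.count P
  have hle := card_le_pow σ (ex s hs)
  have hr := h.relIndex_dvd P
  have cN := Transfer.card_mul_relIndex (le_normalizer : (P : Subgroup SL(2, F)) ≤ _)
  have iN : Nat.card (normalizer ((P : Subgroup SL(2, F)) : Set SL(2, F))) * Nat.card (Sylow p SL(2, F)) = _ :=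
    P.card_eq_index_normalizer ▸ (normalizer (P : Set SL(2, F))).card_mul_index.trans cS
  rw [eP, fm] at hle
  rw [fm] at hv hr
  rw [cP] at cN
  rw [hn] at hv hle ⊢
  obtain ⟨a1, a2⟩ := Cfsg.Agent.S2430.result ho p hp P
  rcases (Nat.Prime.dvd_mul pp).1 d with d | d
  · obtain ⟨c, hc⟩ := d
    rw [(a1 ⟨c, hc⟩).2.2] at cN iN
    have := arith_minus (c := c) pp hp ho h4 (by omega) (fun e => n2 (by
        rw [cS, hc]
        exact ((Nat.mul_dvd_mul_left p e).mul_right _).mul_left _)) hm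
      (Nat.eq_of_mul_eq_mul_left (show 0 < Fintype.card F - 1 by omega) (by linarith)) hv hle
      (by rwa [← Nat.eq_of_mul_eq_mul_left pp.pos (show _ = p * (2 * c) by rw [cN, hc]; ring)])
    exact ⟨this.1, Or.inr this.2⟩
  · obtain ⟨c, hc⟩ := d
    rw [(a2 ⟨c, hc⟩).2.2] at cN iN
    have := arith_plus (c := c) pp hp ho h4 hc (fun e => n2 (by
        rw [cS, hc]
        exact ((Nat.mul_dvd_mul_left p e).mul_left _).mul_left _)) hm
      (Nat.eq_of_mul_eq_mul_left (show 0 < Fintype.card F + 1 by omega) (by linarith)) hv hle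
      (by rwa [← Nat.eq_of_mul_eq_mul_left pp.pos (show _ = p * (2 * c) by rw [cN, hc]; ring)])
    exact ⟨this.1, Or.inl this.2⟩

/-- `p ∈ {3, 5, 7}`, `|P| = 9, 5, 7`; `N = n_p ≠ 1` as `O_p(H) = 1`, `j = |N(P) : P|`; `arith5040`. -/
theorem c5040 (h : SP ρ) (hp : p ≠ 2) (hO : pCore p H = ⊥) (hc : Nat.card H = 5040)
    (hd : p ∣ 5040) : False := by
  have pp : p.Prime := Fact.out
  let P : Sylow p H := default
  obtain ⟨n, hn⟩ := card_V p V
  obtain ⟨m, hm, fm⟩ := h.fx.fc_pow P.isPGroup'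
  have hv := h.count P
  have hr := h.relIndex_dvd P
  have cN := Transfer.card_mul_relIndex (le_normalizer : (P : Subgroup H) ≤ _)
  have iN : Nat.card (normalizer ((P : Subgroup H) : Set H)) * Nat.card (Sylow p H) = _ :=
    P.card_eq_index_normalizer ▸ (normalizer (P : Set H)).card_mul_index
  have cP := P.card_eq_multiplicity
  rw [hc, ← cN] at iN
  rw [fm] at hv hr
  rw [hn] at hv
  rw [hc] at cP
  have h1 : Nat.card (Sylow p H) ≠ 1 := fun e => by
    have := (Nat.card_eq_one_iff_unique.1 e).1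
    have l := Core.le_pCore (Sylow.normal_of_subsingleton P) P.isPGroup'
    rw [hO, le_bot_iff] at l
    exact P.ne_bot_of_dvd_card (hc ▸ hd) l
  have : p = 3 ∨ p = 5 ∨ p = 7 := by
    have : p ∣ 2 ^ 4 * 3 ^ 2 * 5 * 7 := hd
    simp only [Nat.Prime.dvd_mul pp] at this
    rcases this with ((e | e) | e) | e
    · exact absurd ((Nat.prime_dvd_prime_iff_eq pp Nat.prime_two).1 (pp.dvd_of_dvd_pow e)) hp
    · exact .inl ((Nat.prime_dvd_prime_iff_eq pp Nat.prime_three).1 (pp.dvd_of_dvd_pow e))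
    · exact .inr (.inl ((Nat.prime_dvd_prime_iff_eq pp Nat.prime_five).1 e))
    · exact .inr (.inr ((Nat.prime_dvd_prime_iff_eq pp (by norm_num)).1 e))
  rw [cP] at iN
  rcases this with rfl | rfl | rfl
  · rw [show (5040 : ℕ).factorization 3 = 2 by
      rw [show 5040 = 3 ^ 2 * 560 from rfl, Nat.factorization_eq_of_coprime_left (a := 3 ^ 2) (b := 560)
        (by norm_num) (by simp), Nat.Prime.factorization_pow pp]; simp] at iN
    exact arith5040 (.inl ⟨rfl, rfl⟩) hm h1 (by linarith) hv hr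
  · rw [show (5040 : ℕ).factorization 5 = 1 by
      rw [show 5040 = 5 ^ 1 * 1008 from rfl, Nat.factorization_eq_of_coprime_left (a := 5 ^ 1) (b := 1008)
        (by norm_num) (by simp), Nat.Prime.factorization_pow pp]; simp] at iN
    exact arith5040 (.inr (.inl ⟨rfl, rfl⟩)) hm h1 (by linarith) hv hr
  · rw [show (5040 : ℕ).factorization 7 = 1 by
      rw [show 5040 = 7 ^ 1 * 720 from rfl, Nat.factorization_eq_of_coprime_left (a := 7 ^ 1) (b := 720)
        (by norm_num) (by simp), Nat.Prime.factorization_pow pp]; simp] at iN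
    exact arith5040 (.inr (.inr ⟨rfl, rfl⟩)) hm h1 (by linarith) hv hr

end Cfsg.Lib.GG
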