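import Cfsg.Agent.Lib.GG.Bas
import Cfsg.Agent.Lib.GG.Bas2
import Cfsg.Agent.Lib.GG.Aut
import Cfsg.Agent.Lib.PSL2.BaseChange
import Cfsg.Agent.Lib.PSL2.SL
import Cfsg.Agent.Lib.Linear.Basic
import Cfsg.Agent.Lib.Transfer.Criteria

/-!
# Gagola groups (S4841): odd p, the cases p = 3
-/

set_option autoImplicit false
set_option linter.unusedSectionVars false

namespace Cfsg.Lib.GG

open Subgroup
open scoped MatrixGroups

variable {p : ℕ} [Fact p.Prime] {H V : Type*} [Group H] [Finite H] [AddCommGroup V]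
  [Module (ZMod p) V] [Finite V] {ρ : Representation (ZMod p) H V}

theorem o3_two {F : Type*} [Field F] [Fintype F] (ho : Odd (Fintype.card F)) : (2 : F) ≠ 0 :=
  PSL2.two_ne_zero_iff_odd.2 (by rwa [Nat.card_eq_fintype_card])

omit [Finite H] in
theorem o3_center (S : Subgroup H) : (center S).map S.subtype = S ⊓ centralizer (S : Set H) := by
  ext x
  simp only [mem_map, mem_center_iff, mem_inf, mem_centralizer_iff, SetLike.mem_coe]
  exact ⟨fun ⟨y, hy, e⟩ => e ▸ ⟨y.2, fun g hg => congrArg Subtype.val (hy ⟨g, hg⟩)⟩,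
    fun h => ⟨⟨x, h.1⟩, fun g => Subtype.ext (h.2 g g.2), rfl⟩⟩

omit [Finite H] in
theorem o3_card (S : Subgroup H) {F : Type*} [Field F] [Fintype F] (ho : Odd (Fintype.card F))
    (e : S ≃* SL(2, F)) : Nat.card (center S) = 2 := by
  rw [← PSL2.card_center_SL2 (o3_two ho), ← Linear.map_center_mulEquiv e]
  exact (card_map_of_injective e.injective).symm

theorem o3_sl {F : Type*} [Field F] [Fintype F] {q : ℕ} [Fact q.Prime] (hF : Fintype.card F = q) :
    Nonempty (SL(2, F) ≃* SL(2, ZMod q)) :=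
  ⟨Linear.congrSL (Equiv.refl _) (FiniteField.ringEquivOfCardEq (by rw [hF, ZMod.card]))⟩

/-- `C_H(S)` has no element `c` of order 4: with `i ∈ S` of order 4, `c² = i²` is the unique involution
`z` (`Fx.inv_eq`), `(c i)² = 1`, so `c i ∈ {1, z}` and `c ∈ S ⊓ C(S) = Z(S)`, which has exponent 2. -/
theorem Fx.no_four (h : Fx ρ) (hp : p ≠ 2) (S : Subgroup H) {F : Type*} [Field F] [Fintype F]
    (ho : Odd (Fintype.card F)) (e : S ≃* SL(2, F)) {c : H} (hc : c ∈ centralizer (S : Set H)) :
    orderOf c ≠ 4 := by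
  intro o4
  have h2 := o3_two ho
  let j : SL(2, F) := ⟨!![0, 1; -1, 0], by simp [Matrix.det_fin_two]⟩
  have j2 : j * j = -1 := Subtype.ext (by
    change !![(0 : F), 1; -1, 0] * !![0, 1; -1, 0] = -1
    rw [Matrix.one_fin_two]
    simp)
  obtain ⟨i, hi⟩ := e.surjective j
  have oi : orderOf ((i : H) * i) = 2 := by
    rw [← coe_mul, orderOf_coe, ← e.orderOf_eq, map_mul, hi, j2, PSL2.orderOf_neg_one_sl h2]
  have oc : orderOf (c * c) = 2 := by rw [← sq, orderOf_pow' _ two_ne_zero, o4]; rfl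
  have e1 := h.inv_eq hp oc oi
  have cm : (i : H) * c = c * i := mem_centralizer_iff.1 hc i i.2
  have e2 : (c * i) ^ 2 = 1 := by
    calc (c * i) ^ 2 = c * (i * c) * i := by rw [sq]; group
      _ = (c * c) * (i * i) := by rw [cm]; group
      _ = 1 := by rw [e1, ← sq, ← oi, pow_orderOf_eq_one]
  have hS : c * i ∈ S := by
    by_cases e3 : c * i = 1
    · exact e3 ▸ one_mem S
    · have := Fact.mk Nat.prime_two
      rw [h.inv_eq hp (orderOf_eq_prime e2 e3) oi]
      exact mul_mem i.2 i.2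
  have hcS : c ∈ S := (mul_mem_cancel_right i.2).1 hS
  have := ((center S).map S.subtype).orderOf_dvd_natCard (o3_center S ▸ ⟨hcS, hc⟩ : c ∈ (center S).map S.subtype)
  rw [card_map_of_injective S.subtype_injective, o3_card S ho e, o4] at this
  omega

/-- So a Sylow 2-subgroup of `C_H(S)` has exponent 2 and one involution: `4 ∤ |C_H(S)|`. -/
theorem Fx.not_four_dvd (h : Fx ρ) (hp : p ≠ 2) (S : Subgroup H) {F : Type*} [Field F] [Fintype F]
    (ho : Odd (Fintype.card F)) (e : S ≃* SL(2, F)) :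
    ¬ 4 ∣ Nat.card (centralizer (S : Set H)) := by
  intro d
  have := Fact.mk Nat.prime_two
  obtain ⟨T, hT⟩ := Sylow.exists_subgroup_card_pow_prime (G := centralizer (S : Set H)) 2 (n := 2) d
  obtain ⟨z, hz⟩ := exists_prime_orderOf_dvd_card' (G := T) 2 (by rw [hT]; norm_num)
  have l : (⊤ : Subgroup T) ≤ zpowers z := fun t _ => by
    obtain ⟨k, hk, e1⟩ := (Nat.dvd_prime_pow Nat.prime_two).1 (hT ▸ orderOf_dvd_natCard t)
    have o : orderOf ((t : centralizer (S : Set H)) : H) = orderOf t := by rw [orderOf_coe, orderOf_coe]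
    interval_cases k
    · rw [orderOf_eq_one_iff.1 e1]; exact one_mem _
    · rw [show t = z from Subtype.ext (Subtype.ext (h.inv_eq hp (o.trans e1)
        (by rw [orderOf_coe, orderOf_coe, hz])))]
      exact mem_zpowers z
    · exact absurd (o.trans e1) (h.no_four hp S ho e t.1.2)
  have := card_dvd_of_le l
  rw [card_top, hT, Nat.card_zpowers, hz] at this
  omega

theorem o3_cent (h : Fx ρ) (hO : pCore p H = ⊥) (hp : p ≠ 2) (S : Subgroup H) [S.Normal]
    {F : Type*} [Field F] [Fintype F] (ho : Odd (Fintype.card F)) (e : S ≃* SL(2, F)) {a : ℕ}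
    (hi : S.index ∣ 2 * p ^ a) : centralizer (S : Set H) = (center S).map S.subtype := by
  have pp : p.Prime := Fact.out
  have c := Transfer.card_mul_relIndex (o3_center S ▸ inf_le_right : (center S).map S.subtype ≤ centralizer (S : Set H))
  have d : ((center S).map S.subtype).relIndex (centralizer (S : Set H)) ∣ 2 * p ^ a := by
    rw [o3_center, inf_relIndex_right]
    exact (relIndex_dvd_index_of_normal _ _).trans hi
  rw [card_map_of_injective S.subtype_injective, o3_card S ho e] at c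
  obtain ⟨k, -, hk⟩ := (Nat.dvd_prime_pow pp).1 (Nat.Coprime.dvd_of_dvd_mul_left
    ((Nat.Prime.coprime_iff_not_dvd Nat.prime_two).2 fun e' =>
      h.not_four_dvd hp S ho e (c ▸ Nat.mul_dvd_mul_left 2 e')).symm d)
  exact cent_eq hO S hk (by rw [o3_card S ho e]; exact (Nat.coprime_primes Nat.prime_two pp).2 hp.symm)

/-- Shape (ii).  `|H| = 80 · 3 ^ a`, `|S| = 120`, `|Z(S)| = 2`, `C = C_H(S)`: `|S C| = 60 |C|` divides
`|H|` and `4 ∤ |C|`, so `|C : Z(S)|` is a power of 3 and `C = Z(S)` (`cent_eq`); `index_cent_dvd` gives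
`|H| / 2 ∣ 120`, so `|H| = 240`.  A complement would contain an involution, but the involution lies in
`S`.  `F ≃+* ZMod 5` (`FiniteField.ringEquivOfCardEq`, `Matrix.SpecialLinearGroup.map`). -/
theorem shape2 (h : SP ρ) (t : Tr ρ) (hO : pCore p H = ⊥) (hp : p = 3) (S : Subgroup H) [S.Normal]
    {F : Type*} [Field F] [Fintype F] (e : S ≃* SL(2, F)) (hF : Fintype.card F = 5)
    (hV : Nat.card V = 81) : Shape p H := by
  subst hp
  have := Fact.mk Nat.prime_five
  have ho : Odd (Fintype.card F) := by rw [hF]; decide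
  let P : Sylow 3 H := default
  obtain ⟨a, ha⟩ := P.isPGroup'.exists_card_eq
  have cH := h.card_eq t P
  have cS : Nat.card S = 120 := by rw [Nat.card_congr e.toEquiv, PSL2.card_SL2, Nat.card_eq_fintype_card, hF]; rfl
  have iS := S.card_mul_index
  rw [hV, ha] at cH
  rw [cS, cH] at iS
  have hC := o3_cent h.fx hO (by norm_num) S ho e (a := a) ⟨3, by omega⟩
  have iC := (centralizer (S : Set H)).card_mul_index
  have l := Nat.le_of_dvd (by norm_num) (index_cent_dvd (r := 5) (f := 1) (by rw [hF]; rfl) (by omega) S e)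
  nth_rewrite 1 [hC] at iC
  rw [card_map_of_injective S.subtype_injective, o3_card S ho e, cH] at iC
  have i2 : S.index = 2 := by
    have : 0 < 3 ^ a := by positivity
    omega
  obtain ⟨f⟩ := o3_sl hF
  refine .inr (.inl ⟨rfl, S, ‹_›, i2, ⟨e.trans f⟩, hC, fun K hK => ?_⟩)
  have := Fact.mk Nat.prime_two
  obtain ⟨x, hx⟩ := exists_prime_orderOf_dvd_card' (G := K) 2 (by rw [← hK.symm.index_eq_card, i2])
  obtain ⟨y, hy⟩ := exists_prime_orderOf_dvd_card' (G := S) 2 (by rw [cS]; norm_num)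
  have e1 := h.fx.inv_eq (by norm_num) ((orderOf_coe x).trans hx) ((orderOf_coe y).trans hy)
  have e2 : x = 1 := Subtype.ext (disjoint_def.1 hK.disjoint (e1 ▸ y.2) x.2)
  rw [e2, orderOf_one] at hx
  omega

/-- Shape (iii).  `|H| = 728 · 3 ^ a`, `|S| = 2184`, so `S.index` is a power of 3, `C = Z(S)`
(`cent_eq`), `|H| / 2 = 364 · 3 ^ a ∣ 2184` (`index_cent_dvd`), so `H = S`. -/
theorem shape3 (h : SP ρ) (t : Tr ρ) (hO : pCore p H = ⊥) (hp : p = 3) (S : Subgroup H) [S.Normal]
    {F : Type*} [Field F] [Fintype F] (e : S ≃* SL(2, F)) (hF : Fintype.card F = 13)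
    (hV : Nat.card V = 729) : Shape p H := by
  subst hp
  have : Fact (Nat.Prime 13) := ⟨by norm_num⟩
  have ho : Odd (Fintype.card F) := by rw [hF]; decide
  let P : Sylow 3 H := default
  obtain ⟨a, ha⟩ := P.isPGroup'.exists_card_eq
  have cH := h.card_eq t P
  have cS : Nat.card S = 2184 := by rw [Nat.card_congr e.toEquiv, PSL2.card_SL2, Nat.card_eq_fintype_card, hF]; rfl
  have iS := S.card_mul_index
  rw [hV, ha] at cH
  rw [cS, cH] at iS
  have hC := o3_cent h.fx hO (by norm_num) S ho e (a := a) ⟨6, by omega⟩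
  have iC := (centralizer (S : Set H)).card_mul_index
  have l := Nat.le_of_dvd (by norm_num) (index_cent_dvd (r := 13) (f := 1) (by rw [hF]; rfl) (by omega) S e)
  nth_rewrite 1 [hC] at iC
  rw [card_map_of_injective S.subtype_injective, o3_card S ho e, cH] at iC
  have a1 : a ≤ 1 := by
    by_contra n
    have := Nat.pow_le_pow_right (show 0 < 3 by norm_num) (show 2 ≤ a by omega)
    omega
  have i1 : S.index = 1 := by
    interval_cases a <;> omega
  obtain ⟨f⟩ := o3_sl hF
  obtain rfl := index_eq_one.1 i1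
  exact .inr (.inr (.inl ⟨rfl, ⟨topEquiv.symm.trans (e.trans f)⟩⟩))

end Cfsg.Lib.GG
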