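import Cfsg.Agent.Lib.GG.Od3
import Cfsg.Agent.Lib.GW.Basic
import Cfsg.Agent.Lib.Core.Fitting
import Cfsg.Agent.Lib.Frobenius.Compl
import Cfsg.Agent.Lib.Inv.SylowTwo

/-!
# Gagola groups (S4841): odd p, the centraliser of SL(2, 5)
-/

set_option autoImplicit false

namespace Cfsg.Lib.GG

open Subgroup
open scoped MatrixGroups

variable {p : ℕ} [Fact p.Prime] {H V : Type*} [Group H] [Finite H] [AddCommGroup V]
  [Module (ZMod p) V] [Finite V] {ρ : Representation (ZMod p) H V}

/-- `B` odd, so solvable (`odd_sol`); `F(B)` is nilpotent, normal in `H`, prime to `p` (`O_p(H) = 1`),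
with cyclic Sylow subgroups (`Fx.cyc`), so cyclic `= ⟨x⟩`, and `C_B(F(B)) ≤ F(B)`. -/
theorem Fx.fit (h : Fx ρ) (hO : pCore p H = ⊥) (B : Subgroup H) [B.Normal]
    (hB : Odd (Nat.card B)) :
    ∃ x ∈ B, (zpowers x).Normal ∧ B ⊓ centralizer ({x} : Set H) = zpowers x := by
  have hs : Group.IsSolvable B := GW.odd_sol (G := H) hB
  have hn : (fittingOf B).Normal := by
    rw [Core.fittingOf_eq_inf_of_normal]; infer_instance
  have nil : Group.IsNilpotent (fittingOf B) := by
    rw [← Core.le_fittingSubgroup_iff hn]; exact Core.fittingOf_le_fittingSubgroup B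
  have hz : IsZGroup (fittingOf B) := ⟨fun r hr P => by
    haveI := Fact.mk hr
    have hP := P.isPGroup'.map (fittingOf B).subtype
    have hle : (P : Subgroup (fittingOf B)).map (fittingOf B).subtype ≤ fittingOf B :=
      map_subtype_le _
    have key : IsCyclic ((P : Subgroup (fittingOf B)).map (fittingOf B).subtype) := by
      by_cases e : r = p
      · subst e
        rw [eq_bot_iff.2 ((Core.le_pCore_of_le_fittingSubgroup
          (hle.trans (Core.fittingOf_le_fittingSubgroup B)) hP).trans hO.le)]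
        infer_instance
      by_cases e2 : r = 2
      · subst e2
        obtain ⟨k, hk⟩ := IsPGroup.iff_card.1 hP
        have hd := card_dvd_of_le (hle.trans (Core.fittingOf_le B))
        have : k = 0 := by
          by_contra k0
          exact (Nat.not_even_iff_odd.2 hB) (even_iff_two_dvd.2 ((dvd_pow_self 2 k0).trans (hk ▸ hd)))
        rw [this, pow_zero] at hk
        rw [card_eq_one.1 hk]
        infer_instance
      exact h.cyc e e2 hP
    exact ((P : Subgroup (fittingOf B)).equivMapOfInjective _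
      (fittingOf B).subtype_injective).isCyclic.2 key⟩
  have hc : IsCyclic (fittingOf B) := inferInstance
  obtain ⟨x, hx⟩ := (Subgroup.isCyclic_iff_exists_zpowers_eq_top _).1 hc
  have hc := Core.inf_centralizer_fittingOf_le hs
  rw [← hx] at hc hn
  have xB : x ∈ B := Core.fittingOf_le B (hx ▸ mem_zpowers x)
  refine ⟨x, xB, hn, le_antisymm (fun c hc' => hc ⟨hc'.1, fun y hy => ?_⟩)
    (le_inf (zpowers_le.2 xB) (zpowers_le.2 (mem_centralizer_singleton_iff.2 rfl)))⟩
  obtain ⟨k, rfl⟩ := hy
  exact ((Commute.zpow_right (mem_centralizer_singleton_iff.1 hc'.2) k)).symm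

/-- `C = C_H(S)` has order `2 · odd` (`not_four_dvd`) with central involution `z ∈ S`, so its odd-order
elements form a characteristic subgroup `B` of index 2 (Burnside's transfer / `oddCore`), `C = ⟨z⟩ B`,
`S ⊔ B = S ⊔ C`.  An element of order 3 or 5 of `C` would lie in `S ⊓ C = Z(S)` by `Fx.rr`.
`C.index ∣ 120` (`index_cent_dvd`) and `|S C : C| = 60`, so `(S ⊔ C).index ∣ 2`. -/
theorem cent5 (h : Fx ρ) (hp : 7 ≤ p) (S : Subgroup H) [S.Normal] (e : S ≃* SL(2, ZMod 5)) :
    ∃ B : Subgroup H, B.Normal ∧ B ≤ centralizer (S : Set H) ∧ (Nat.card B).Coprime 30 ∧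
      (S ⊔ B).index ∣ 2 := by
  have p2 : p ≠ 2 := by omega
  haveI : Fact (Nat.Prime 5) := ⟨Nat.prime_five⟩
  have n4 := h.not_four_dvd p2 S (F := ZMod 5) (by rw [ZMod.card]; decide) e
  obtain ⟨f, h1, h2⟩ := Frobenius.exists_hom_perm_five ⟨e⟩
  obtain ⟨T⟩ : Nonempty (Sylow 2 (centralizer (S : Set H))) := inferInstance
  have hT : IsCyclic T := by
    obtain ⟨k, hk⟩ := IsPGroup.iff_card.1 T.isPGroup'
    have hd := card_subgroup_dvd_card (T : Subgroup (centralizer (S : Set H)))
    match k, hk with
    | 0, hk => exact isCyclic_of_card_dvd_prime (p := 2) (by rw [hk]; simp)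
    | 1, hk => exact isCyclic_of_card_dvd_prime (p := 2) (by rw [hk]; simp)
    | k + 2, hk => exact absurd ((Dvd.intro_left (2 ^ k) (by ring)).trans (hk ▸ hd)) n4
  have h4 := Transfer.hasNormalPComplement_iff_card_pResidual.1
    (Inv.hasNormalPComplement_of_isCyclic T hT)
  rw [← card_subtype] at h4
  have hsup : S ⊔ (pResidual 2 (centralizer (S : Set H))).map (centralizer (S : Set H)).subtype =
      S ⊔ centralizer (S : Set H) := by
    refine le_antisymm (sup_le_sup_left (map_subtype_le _) _) (sup_le le_sup_left fun c hc => ?_)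
    obtain ⟨a, ha, b, hb, ⟨k, hk⟩, h5, rfl⟩ := Transfer.exists_p_part_mul_p'_part (p := 2) c
    refine mul_mem (mem_sup_left ?_) (mem_sup_right (Transfer.mem_map_subtype_pResidual
      (zpowers_le.2 hc hb) h5))
    by_cases a1 : a = 1
    · exact a1 ▸ one_mem S
    have aC : a ∈ centralizer (S : Set H) := zpowers_le.2 hc ha
    have oa : orderOf a = 2 := by
      obtain ⟨l, -, hl⟩ := (Nat.dvd_prime_pow Nat.prime_two).1 (orderOf_dvd_of_pow_eq_one hk)
      match l, hl with
      | 0, hl => exact absurd (orderOf_eq_one_iff.1 hl) a1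
      | 1, hl => exact hl
      | l + 2, hl =>
        exact absurd ((Dvd.intro_left (2 ^ l) (by ring)).trans
          (hl ▸ (centralizer (S : Set H)).orderOf_dvd_natCard aC)) n4
    obtain ⟨j, hj, h6, -⟩ := Frobenius.exists_not_cent_of_sl_two_five e (n := 4) (by simp)
    rw [h.inv_eq p2 oa (t := j ^ 2) (by rw [orderOf_pow, h6]; rfl)]
    exact pow_mem hj 2
  refine ⟨(pResidual 2 (centralizer (S : Set H))).map (centralizer (S : Set H)).subtype,
    inferInstance, map_subtype_le _, ?_, ?_⟩
  · have : ∀ r : ℕ, r.Prime → r = 3 ∨ r = 5 → (Nat.card ((pResidual 2 (centralizer (S : Set H))).map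
        (centralizer (S : Set H)).subtype)).Coprime r := fun r hr h5 => by
      haveI := Fact.mk hr
      refine (hr.coprime_iff_not_dvd.2 fun hd => ?_).symm
      obtain ⟨x, hx⟩ := exists_prime_orderOf_dvd_card' r hd
      have xC : (x : H) ∈ centralizer (S : Set H) := map_subtype_le _ x.2
      obtain ⟨j, hj, h6, h7⟩ := Frobenius.exists_not_cent_of_sl_two_five e (n := r) (by omega)
      exact h7 (zpowers_le.2 xC (h.rr hr (by omega) (by rwa [orderOf_coe]) h6 (xC j hj).symm))
    exact (h4.mul_right (this 3 Nat.prime_three (by simp))).mul_right (this 5 Nat.prime_five (by simp))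
  · rw [hsup, ← h1, ← comap_map_eq, h2, index_comap, ← alternatingGroup.index_eq_two (α := Fin 5)]
    exact relIndex_dvd_index_of_normal _ _

end Cfsg.Lib.GG
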