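import Cfsg.Agent.Lib.GG.Od4
import Cfsg.Agent.Lib.GG.Fld
import Cfsg.Agent.Lib.GG.Ari
import Cfsg.Agent.Lib.PSL2.BaseChange

/-!
# Gagola groups (S4841): odd p, the cases p = 11, 29, 59
-/

set_option autoImplicit false

namespace Cfsg.Lib.GG

open Subgroup
open scoped MatrixGroups

variable {p : ℕ} [Fact p.Prime] {H V : Type*} [Group H] [Finite H] [AddCommGroup V]
  [Module (ZMod p) V] [Finite V] {ρ : Representation (ZMod p) H V}

/-- `B` from `cent5`, `x` from `Fx.fit`, `fld` (two noncommuting elements of `S`).  `a = orderOf x`,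
`b = |B : ⟨x⟩| = (C(x)).relIndex B ≤ (C(x)).index ≤ e`, `S ⊓ B = 1` (coprime), `|H| = ε · 120 · a b` and
`|H| = (|V| - 1) p ^ j` (`SP.card_eq`); `num5`; then `H = S × ⟨x⟩` (`H ≃* S × ⟨x⟩`, `⟨x⟩ ≃* Multiplicative
(ZMod a)` by `zmodCyclicMulEquiv`). -/
theorem shape5 (h : SP ρ) (t : Tr ρ) (hO : pCore p H = ⊥) (hp : 7 ≤ p) (S : Subgroup H) [S.Normal]
    (e : S ≃* SL(2, ZMod 5)) : Shape p H := by
  have cS : Nat.card S = 120 := by
    have := Fact.mk Nat.prime_five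
    rw [Nat.card_congr e.toEquiv, PSL2.card_SL2]; simp
  obtain ⟨B, nB, hB, cB, ix⟩ := cent5 h.fx hp S e
  obtain ⟨x, hx, nx, ex⟩ := h.fx.fit hO B (Nat.coprime_two_right.1 (cB.coprime_dvd_right (by decide)))
  have cm : ∀ (s : S) (b : B), Commute (S.subtype s) (B.subtype b) := fun s b => hB b.2 _ s.2
  obtain ⟨s, s', nc⟩ : ∃ s s' : SL(2, ZMod 5), s * s' ≠ s' * s :=
    ⟨⟨!![1, 1; 0, 1], by simp⟩, ⟨!![1, 0; 1, 1], by simp⟩, fun k =>
      (by decide : (!![1, 1; 0, 1] * !![1, 0; 1, 1] : Matrix (Fin 2) (Fin 2) (ZMod 5)) ≠ !![1, 0; 1, 1] * !![1, 1; 0, 1])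
        (congrArg Subtype.val k)⟩
  obtain ⟨f, k, hf, hk, cV, ha, hb⟩ := fld h.fx t nx (cm (e.symm s) ⟨x, hx⟩) (cm (e.symm s') ⟨x, hx⟩) fun q =>
    nc (e.symm.injective (by rw [map_mul, map_mul]; exact Subtype.ext q))
  have c1 : Nat.card B = orderOf x * (centralizer ({x} : Set H)).relIndex B := by
    rw [← Nat.card_zpowers, ← ex, inf_comm, ← subgroupOf_map_subtype, card_map_of_injective B.subtype_injective]
    exact (card_mul_index _).symm
  let φ := MonoidHom.noncommCoprod S.subtype B.subtype cm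
  have inj : Function.Injective φ := (MonoidHom.noncommCoprod_injective _ _ cm).2 ⟨Subtype.val_injective, Subtype.val_injective, by
    rw [range_subtype, range_subtype]
    refine disjoint_of_coprime_natCard (cS ▸ ?_)
    exact ((cB.pow_right 3).coprime_dvd_right (by decide)).symm⟩
  have rg : φ.range = S ⊔ B := by rw [MonoidHom.noncommCoprod_range, range_subtype, range_subtype]
  have c2 : Nat.card ↥(S ⊔ B) = 120 * Nat.card B := by
    rw [← rg, ← Nat.card_congr (MonoidHom.ofInjective inj).toEquiv, Nat.card_prod, cS]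
  obtain ⟨P⟩ : Nonempty (Sylow p H) := inferInstance
  obtain ⟨j, hj⟩ := IsPGroup.iff_card.1 P.isPGroup'
  have c3 := h.card_eq t P
  rw [cV, hj, ← (S ⊔ B).card_mul_index, c2, c1, mul_right_comm] at c3
  obtain ⟨e1, b1, k⟩ := num5 Fact.out hp hf hk c3.symm ix ha
    ((relIndex_le_of_le_right le_top (by rw [relIndex_top_right]; exact index_ne_zero_of_finite)).trans
      ((relIndex_top_right _).trans_le hb)) (c1 ▸ cB)
  rw [b1, mul_one] at c1
  have cy : IsCyclic B := isCyclic_of_orderOf_eq_card ⟨x, hx⟩ ((orderOf_coe _).symm.trans c1.symm)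
  have i : H ≃* SL(2, ZMod 5) × Multiplicative (ZMod (orderOf x)) :=
    (MulEquiv.ofBijective φ ⟨inj, MonoidHom.range_eq_top.1 (rg.trans (index_eq_one.1 e1))⟩).symm.trans
      (e.prodCongr (c1 ▸ (zmodCyclicMulEquiv cy).symm))
  rcases k with ⟨r, a⟩ | ⟨r, a⟩ | ⟨r, a⟩ <;> rw [a] at i
  · exact .inr (.inr (.inr (.inl ⟨r, ⟨i.trans MulEquiv.prodUnique⟩⟩)))
  · exact .inr (.inr (.inr (.inr (.inl ⟨r, ⟨i⟩⟩))))
  · exact .inr (.inr (.inr (.inr (.inr ⟨r, ⟨i⟩⟩))))

end Cfsg.Lib.GG
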