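import Cfsg.Agent.Lib.GG.E2

/-!
# Gagola groups (S4841): p = 2, the two-dimensional representation
-/

set_option autoImplicit false

namespace Cfsg.Lib.GG

open Subgroup
open scoped MatrixGroups

section quat

open Polynomial

variable {R : Type*} [Ring R] [Algebra (ZMod 2) R]

theorem Rep.add_self (a : R) : a + a = 0 := by
  rw [← two_smul (ZMod 2) a, show (2 : ZMod 2) = 0 from rfl, zero_smul]

/-- `r₀(c) + r₁(c) D + r₂(c) E + r₃(c) D E`, `c = (D + E)²`. -/
noncomputable def Rep.T (D E : R) (r : Fin 4 → (ZMod 2)[X]) : R :=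
  aeval ((D + E) * (D + E)) (r 0) + aeval ((D + E) * (D + E)) (r 1) * D +
    aeval ((D + E) * (D + E)) (r 2) * E + aeval ((D + E) * (D + E)) (r 3) * (D * E)

namespace Rep

variable {D E : R}

theorem two_eq : (2 : R) = 0 := by rw [← one_add_one_eq_two]; exact add_self 1

theorem ED (hD : D * D = D + 1) (hE : E * E = E + 1) :
    E * D = D * E + D + E + (D + E) * (D + E) := by
  have : (D + E) * (D + E) = D * D + E * E + D * E + E * D := by noncomm_ring
  rw [this, hD, hE]
  have h1 := add_self (D * E + D + E)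
  have h2 := add_self (1 : R)
  calc E * D = E * D + (D * E + D + E + (D * E + D + E)) + (1 + 1) := by rw [h1, h2]; simp
    _ = _ := by abel

theorem cD (hD : D * D = D + 1) (hE : E * E = E + 1) : Commute ((D + E) * (D + E)) D := by
  have e : (D + E) * (D + E) = (D + 1) + (E + 1) + D * E + E * D := by
    rw [← hD, ← hE]; noncomm_ring
  have h1 : D * (D * E) = D * E + E := by rw [← mul_assoc, hD]; noncomm_ring
  have h2 : E * D * D = E * D + E := by rw [mul_assoc, hD]; noncomm_ring
  have h3 := add_self (D * E)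
  have h4 := add_self (E * D)
  show _ * _ = _ * _
  rw [e]
  simp only [add_mul, mul_add, one_mul, mul_one, h1, h2, mul_assoc D E D]
  calc D * D + D + (E * D + D) + D * (E * D) + (E * D + E)
      = D * D + D + D + D * (E * D) + E + (E * D + E * D) := by abel
    _ = D * D + D + D + D * (E * D) + E + (D * E + D * E) := by rw [h3, h4]
    _ = _ := by abel

theorem cE (hD : D * D = D + 1) (hE : E * E = E + 1) : Commute ((D + E) * (D + E)) E := by
  rw [add_comm D E]; exact cD hE hD

theorem aeval_comm {c y : R} (h : Commute c y) (q : (ZMod 2)[X]) : Commute (aeval c q) y := by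
  induction q using Polynomial.induction_on' with
  | add p q hp hq => rw [map_add]; exact hp.add_left hq
  | monomial n a =>
    rw [aeval_monomial]
    exact (Algebra.commute_algebraMap_left a y).mul_left (h.pow_left n)

theorem T_one (D E : R) : T D E ![1, 0, 0, 0] = 1 := by simp [T]

theorem T_add (D E : R) (r s : Fin 4 → (ZMod 2)[X]) : T D E (r + s) = T D E r + T D E s := by
  simp only [T, Pi.add_apply, map_add, add_mul]; abel

theorem T_smul (D E : R) (q : (ZMod 2)[X]) (s : Fin 4 → (ZMod 2)[X]) :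
    T D E (fun i => q * s i) = aeval ((D + E) * (D + E)) q * T D E s := by
  simp only [T, map_mul, mul_add, mul_assoc]

theorem D_T (hD : D * D = D + 1) (hE : E * E = E + 1) (r : Fin 4 → (ZMod 2)[X]) :
    D * T D E r = T D E ![r 1, r 0 + r 1, r 3, r 2 + r 3] := by
  have k := fun q (y : R) => (show D * (aeval ((D + E) * (D + E)) q * y) =
    aeval ((D + E) * (D + E)) q * (D * y) by
      rw [← mul_assoc, ← (aeval_comm (cD hD hE) q).eq, mul_assoc])
  have h1 : D * (D * E) = D * E + E := by rw [← mul_assoc, hD]; noncomm_ring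
  unfold T
  rw [mul_add, mul_add, mul_add, k, k, k, h1, hD, ← (aeval_comm (cD hD hE) (r 0)).eq]
  simp only [Matrix.cons_val_zero, Matrix.cons_val_one, Matrix.cons_val, map_add]
  generalize (D + E) * (D + E) = c
  simp only [add_mul, mul_add, mul_one]
  abel

theorem E_T (hD : D * D = D + 1) (hE : E * E = E + 1) (r : Fin 4 → (ZMod 2)[X]) :
    E * T D E r = T D E ![r 1 * X + r 2 + r 3, r 1 + r 3, r 0 + r 1 + r 2 + r 3 * (1 + X), r 1] := by
  have k := fun q (y : R) => (show E * (aeval ((D + E) * (D + E)) q * y) =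
    aeval ((D + E) * (D + E)) q * (E * y) by
      rw [← mul_assoc, ← (aeval_comm (cE hD hE) q).eq, mul_assoc])
  have h0 := ED hD hE
  have h1 : E * (D * E) = D + (1 + (D + E) * (D + E)) * E + 1 := by
    have h3 := add_self (D * E)
    rw [← mul_assoc, h0]
    generalize (D + E) * (D + E) = c
    simp only [add_mul, mul_assoc D E E, hE, mul_add, mul_one, one_mul]
    calc D * E + D + D * E + (E + 1) + c * E = (D * E + D * E) + (D + (E + c * E) + 1) := by abel
      _ = _ := by rw [h3, zero_add]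
  unfold T
  rw [mul_add, mul_add, mul_add, k, k, k, h1, hE, h0, ← (aeval_comm (cE hD hE) (r 0)).eq]
  simp only [Matrix.cons_val_zero, Matrix.cons_val_one, Matrix.cons_val, map_add, map_mul, aeval_X,
    map_one]
  generalize (D + E) * (D + E) = c
  simp only [add_mul, mul_add, mul_one, one_mul, mul_assoc]
  abel

theorem w_sq (hD : D * D = D + 1) (hE : E * E = E + 1) :
    (D * E + E * D) * (D * E + E * D) =
      aeval ((D + E) * (D + E)) (X * (X + 1) : (ZMod 2)[X]) := by
  have h0 : D * E + E * D = (D + E) * (D + E) + (D + E) := by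
    have h3 := add_self (D * E)
    rw [ED hD hE]
    generalize (D + E) * (D + E) = c
    calc D * E + (D * E + D + E + c) = (D * E + D * E) + (c + (D + E)) := by abel
      _ = _ := by rw [h3, zero_add]
  rw [h0]
  simp only [map_mul, map_add, aeval_X, map_one]
  generalize D + E = s
  have h4 := add_self (s * s * s)
  calc (s * s + s) * (s * s + s) = s * s * (s * s + 1) + (s * s * s + s * s * s) := by noncomm_ring
    _ = _ := by rw [h4, add_zero]

theorem indep (hD : D * D = D + 1) (hE : E * E = E + 1)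
    (hw : ∀ y : R, y * (D * E + E * D) = 0 → y = 0) {r : Fin 4 → (ZMod 2)[X]} (h : T D E r = 0)
    (i : Fin 4) : aeval ((D + E) * (D + E)) (r i) = 0 := by
  have kD := fun q => (aeval_comm (cD hD hE) q).eq
  have kE := fun q => (aeval_comm (cE hD hE) q).eq
  unfold T at h
  have d0 := kD (r 0); have d1 := kD (r 1); have d2 := kD (r 2); have d3 := kD (r 3)
  have e0 := kE (r 0); have e1 := kE (r 1); have e3 := kE (r 3)
  set a0 := aeval ((D + E) * (D + E)) (r 0)
  set a1 := aeval ((D + E) * (D + E)) (r 1)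
  set a2 := aeval ((D + E) * (D + E)) (r 2)
  set a3 := aeval ((D + E) * (D + E)) (r 3)
  have kk : ∀ {a y : R}, a * y = y * a → ∀ z, y * (a * z) = a * (y * z) := fun h z => by
    rw [← mul_assoc, ← h, mul_assoc]
  have s1 : (a2 + a3 * D) * (D * E + E * D) = 0 := by
    have : D * (a0 + a1 * D + a2 * E + a3 * (D * E)) + (a0 + a1 * D + a2 * E + a3 * (D * E)) * D
        = 0 := by rw [h]; simp
    rw [← this]
    simp only [mul_add, add_mul, kk d1, kk d2, kk d3, ← d0, mul_assoc]
    have h1 := add_self (a0 * D)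
    have h2 := add_self (a1 * (D * D))
    calc _ = a2 * (D * E) + a3 * (D * (D * E)) + (a2 * (E * D) + a3 * (D * (E * D)))
          + (a0 * D + a0 * D) + (a1 * (D * D) + a1 * (D * D)) := by rw [h1, h2]; abel
      _ = _ := by abel
  have s2 := hw _ s1
  have e2 := kE (r 2)
  change a2 * E = E * a2 at e2
  have s3 : a3 = 0 := by
    apply hw
    have : E * (a2 + a3 * D) + (a2 + a3 * D) * E = 0 := by rw [s2]; simp
    rw [← this]
    simp only [mul_add, add_mul, kk e3, ← e2, mul_assoc]
    have h1 := add_self (a2 * E)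
    calc _ = a3 * (D * E) + a3 * (E * D) + (a2 * E + a2 * E) := by rw [h1]; abel
      _ = _ := by abel
  have s4 : a2 = 0 := by simpa [s3] using s2
  rw [s3, s4, zero_mul, zero_mul, add_zero, add_zero] at h
  have s5 : a1 = 0 := by
    apply hw
    have : E * (a0 + a1 * D) + (a0 + a1 * D) * E = 0 := by rw [h]; simp
    rw [← this]
    simp only [mul_add, add_mul, kk e1, ← e0, mul_assoc]
    have h1 := add_self (a0 * E)
    calc _ = a1 * (D * E) + a1 * (E * D) + (a0 * E + a0 * E) := by rw [h1]; abel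
      _ = _ := by abel
  have s6 : a0 = 0 := by simpa [s5] using h
  fin_cases i
  exacts [s6, s5, s4, s3]

theorem T_zero {r : Fin 4 → (ZMod 2)[X]} (h : ∀ i, aeval ((D + E) * (D + E)) (r i) = 0) :
    T D E r = 0 := by simp [T, h]

end Rep

end quat

variable {L U : Type*} [Group L] [Finite L] [AddCommGroup U] [Module (ZMod 2) U] [Finite U]
  {ρ : Representation (ZMod 2) L U}

/-- `c = (ρ d + ρ e)²` commutes with `d, e`; `e d = d e + d + e + c`; `w = d e + e d` is a unit,
`w² = c (c + 1)`.  `f₀` an irreducible factor of `minpoly (ZMod 2) c`, `F = AdjoinRoot f₀`, `λ = root`,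
`λ (λ + 1) ≠ 0`, `b² = λ + λ²`, `D = !![0,1;1,1]`, `E = !![b+λ, 1+b; 1, 1+b+λ]`: `D² = D + 1`, `E² = E + 1`,
`(D + E)² = λ`.  For `(x, M)` in the closure `Γ` of `(d, D), (e, E)` in `L × SL(2, F)` there are
polynomials `r₀ … r₃` with `ρ x = r₀(c) + r₁(c) d + r₂(c) e + r₃(c) d e` and
`M = r₀(λ) + r₁(λ) D + r₂(λ) E + r₃(λ) D E` (left multiplication by the generators; finite group).
`1, d, e, d e` are independent over `𝔽₂[c]` (commutators with `d`, `e`), so `x = 1 → M = 1` and `Γ ≅
closure {d, e}`; `1, D, E, D E` are independent over `F`, so `M = 1` gives `ρ x - 1 = f₀(c) ∘ _`, not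
surjective, so `x` fixes a nonzero vector. -/
theorem Fx.rep (h : Fx ρ) {d e : L} (hd : orderOf d = 3) (he : orderOf e = 3)
    (hw : ∀ v : U, (ρ d * ρ e + ρ e * ρ d) v = 0 → v = 0) :
    ∃ (F : Type) (_ : Field F) (_ : Fintype F) (_ : CharP F 2)
      (f : closure ({d, e} : Set L) →* SL(2, F)), ∀ x, f x = 1 → ∃ k : ℕ, x ^ 2 ^ k = 1 := by
  classical
  have hD := h.quad hd
  have hE := h.quad he
  obtain ⟨v0, hv0⟩ := h.nt
  haveI : Nontrivial U := ⟨⟨v0, 0, hv0⟩⟩
  set c := (ρ d + ρ e) * (ρ d + ρ e) with hc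
  have winj : Function.Injective (ρ d * ρ e + ρ e * ρ d) :=
    (injective_iff_map_eq_zero _).2 hw
  have hw1 : ∀ y : Module.End (ZMod 2) U, y * (ρ d * ρ e + ρ e * ρ d) = 0 → y = 0 := by
    intro y hy
    ext v
    obtain ⟨u, rfl⟩ := Finite.surjective_of_injective winj v
    exact LinearMap.congr_fun hy u
  have ci : IsIntegral (ZMod 2) c := Algebra.IsIntegral.isIntegral c
  obtain ⟨f0, hf0, g, hg⟩ := Polynomial.exists_irreducible_of_degree_pos (minpoly.degree_pos ci)
  -- a nonzero vector killed by `f0 (c)`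
  obtain ⟨u, hu0, hu⟩ : ∃ u : U, u ≠ 0 ∧ Polynomial.aeval c f0 u = 0 := by
    have g0 : g ≠ 0 := by rintro rfl; exact minpoly.ne_zero ci (by rw [hg, mul_zero])
    have : Polynomial.aeval c g ≠ 0 := by
      intro h0
      have h1 := Polynomial.natDegree_le_of_dvd (minpoly.dvd _ _ h0) g0
      rw [hg, Polynomial.natDegree_mul hf0.ne_zero g0] at h1
      have := hf0.natDegree_pos
      omega
    obtain ⟨v, hv⟩ : ∃ v, Polynomial.aeval c g v ≠ 0 := by
      by_contra hn
      push Not at hn
      exact this (LinearMap.ext hn)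
    refine ⟨_, hv, ?_⟩
    rw [← Module.End.mul_apply, ← map_mul, ← hg, minpoly.aeval]; rfl
  haveI : Fact (Irreducible f0) := ⟨hf0⟩
  haveI : Module.Finite (ZMod 2) (AdjoinRoot f0) := (AdjoinRoot.powerBasis hf0.ne_zero).finite
  haveI : Finite (AdjoinRoot f0) := Module.finite_of_finite (ZMod 2)
  letI : Fintype (AdjoinRoot f0) := Fintype.ofFinite _
  haveI : CharP (AdjoinRoot f0) 2 := charP_of_injective_algebraMap
    (algebraMap (ZMod 2) (AdjoinRoot f0)).injective 2
  set l := AdjoinRoot.root f0 with hl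
  have hz : ∀ q : Polynomial (ZMod 2), Polynomial.aeval l q = 0 ↔ f0 ∣ q := fun q => by
    rw [hl, AdjoinRoot.aeval_eq, AdjoinRoot.mk_eq_zero]
  have hl0 : l * (l + 1) ≠ 0 := by
    intro h0
    obtain ⟨q, hq⟩ := (hz (Polynomial.X * (Polynomial.X + 1))).1 (by simpa using h0)
    have h1 := Rep.w_sq hD hE
    rw [hq, mul_comm, map_mul] at h1
    have h2 := LinearMap.congr_fun h1 u
    rw [Module.End.mul_apply, Module.End.mul_apply (Polynomial.aeval _ q), ← hc, hu, map_zero] at h2
    exact hu0 (hw _ (hw _ h2))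
  obtain ⟨b, hb⟩ := (bijective_frobenius (AdjoinRoot f0) 2).2 (l + l ^ 2)
  rw [frobenius_def] at hb
  have t2 : (2 : AdjoinRoot f0) = 0 := Rep.two_eq
  let D' : SL(2, AdjoinRoot f0) := ⟨!![0, 1; 1, 1], by
    rw [Matrix.det_fin_two_of]; linear_combination (-1 : AdjoinRoot f0) * t2⟩
  let E' : SL(2, AdjoinRoot f0) := ⟨!![b + l, 1 + b; 1, 1 + b + l], by
    rw [Matrix.det_fin_two_of]; linear_combination hb + (l + l ^ 2 + b * l - 1) * t2⟩
  have hD' : (D' : Matrix (Fin 2) (Fin 2) (AdjoinRoot f0)) * D' = D' + 1 := by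
    ext i j
    fin_cases i <;> fin_cases j <;> simp [D', Matrix.mul_apply, Fin.sum_univ_two]
  have hE' : (E' : Matrix (Fin 2) (Fin 2) (AdjoinRoot f0)) * E' = E' + 1 := by
    ext i j
    fin_cases i <;> fin_cases j <;> simp [E', Matrix.mul_apply, Fin.sum_univ_two]
    · linear_combination hb + (l ^ 2 + b * l) * t2
    · linear_combination (b + l + b * b + b * l) * t2
    · linear_combination (b + l) * t2
    · linear_combination hb + (b + l + l ^ 2 + b * l) * t2
  have hc' : ((D' : Matrix (Fin 2) (Fin 2) (AdjoinRoot f0)) + E') * (D' + E') =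
      algebraMap (AdjoinRoot f0) _ l := by
    ext i j
    fin_cases i <;> fin_cases j <;>
      simp [D', E', Matrix.mul_apply, Fin.sum_univ_two, Matrix.algebraMap_matrix_apply]
    · linear_combination hb + (l ^ 2 + b * l + 2 + b) * t2
    · linear_combination ((2 + b) * (1 + b + l)) * t2
    · linear_combination (2 + 2 * b + 2 * l) * t2
    · linear_combination hb + (l ^ 2 + b * l + 4 + 3 * b + 2 * l) * t2
  have ha : ∀ q : Polynomial (ZMod 2), Polynomial.aeval
      (((D' : Matrix (Fin 2) (Fin 2) (AdjoinRoot f0)) + E') * (D' + E')) q =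
      algebraMap (AdjoinRoot f0) _ (Polynomial.aeval l q) := fun q => by
    rw [hc', Polynomial.aeval_algebraMap_apply]
  have hw2 : ∀ y : Matrix (Fin 2) (Fin 2) (AdjoinRoot f0),
      y * ((D' : Matrix (Fin 2) (Fin 2) (AdjoinRoot f0)) * E' + E' * D') = 0 → y = 0 := by
    intro y hy
    have h1 := congrArg (· * ((D' : Matrix (Fin 2) (Fin 2) (AdjoinRoot f0)) * E' + E' * D')) hy
    simp only [zero_mul] at h1
    rw [mul_assoc, Rep.w_sq hD' hE', ha, ← Algebra.commutes, ← Algebra.smul_def] at h1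
    exact (smul_eq_zero.1 h1).resolve_left (by simpa using hl0)
  let Γ := closure ({(d, D'), (e, E')} : Set (L × SL(2, AdjoinRoot f0)))
  have key : ∀ γ ∈ Γ, ∃ r, ρ γ.1 = Rep.T (ρ d) (ρ e) r ∧
      (γ.2 : Matrix (Fin 2) (Fin 2) (AdjoinRoot f0)) = Rep.T (D' : Matrix _ _ _) E' r := by
    intro γ hγ
    have hγ' : γ ∈ Submonoid.closure ({(d, D'), (e, E')} : Set (L × SL(2, AdjoinRoot f0))) := by
      rw [← Subgroup.closure_toSubmonoid_of_finite]; exact hγ
    clear hγ
    induction hγ' using Submonoid.closure_induction_left with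
    | one => exact ⟨![1, 0, 0, 0], by simp [Rep.T_one], by simp [Rep.T_one]⟩
    | mul_left x hx y _ ih =>
      obtain ⟨r, h1, h2⟩ := ih
      rcases hx with rfl | rfl
      · exact ⟨_, by rw [← Rep.D_T hD hE, ← h1, Prod.fst_mul, map_mul],
          by rw [← Rep.D_T hD' hE', ← h2, Prod.snd_mul, Matrix.SpecialLinearGroup.coe_mul]⟩
      · exact ⟨_, by rw [← Rep.E_T hD hE, ← h1, Prod.fst_mul, map_mul],
          by rw [← Rep.E_T hD' hE', ← h2, Prod.snd_mul, Matrix.SpecialLinearGroup.coe_mul]⟩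
  have k1 : ∀ γ ∈ Γ, γ.1 = 1 → γ.2 = 1 := by
    intro γ hγ h1
    obtain ⟨r, h2, h3⟩ := key γ hγ
    have h4 : Rep.T (ρ d) (ρ e) (r + ![1, 0, 0, 0]) = 0 := by
      rw [Rep.T_add, Rep.T_one, ← h2, h1, map_one, Rep.add_self]
    have h5 : Rep.T (D' : Matrix (Fin 2) (Fin 2) (AdjoinRoot f0)) E' (r + ![1, 0, 0, 0]) = 0 :=
      Rep.T_zero fun i => by
        rw [ha, (hz _).2 ((Dvd.intro _ hg.symm).trans
          (minpoly.dvd _ _ (Rep.indep hD hE hw1 h4 i))), map_zero]
    rw [Rep.T_add, Rep.T_one, ← h3] at h5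
    apply Subtype.ext
    exact add_right_cancel (h5.trans (Rep.add_self _).symm)
  have k2 : ∀ γ ∈ Γ, γ.2 = 1 → ρ γ.1 u = u := by
    intro γ hγ h1
    obtain ⟨r, h2, h3⟩ := key γ hγ
    have h4 : Rep.T (D' : Matrix (Fin 2) (Fin 2) (AdjoinRoot f0)) E' (r + ![1, 0, 0, 0]) = 0 := by
      rw [Rep.T_add, Rep.T_one, ← h3, h1, Matrix.SpecialLinearGroup.coe_one, Rep.add_self]
    have h5 : ∀ i, f0 ∣ (r + ![1, 0, 0, 0] : Fin 4 → Polynomial (ZMod 2)) i := fun i => by
      have := Rep.indep hD' hE' hw2 h4 i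
      rw [ha] at this
      exact (hz _).1 ((algebraMap (AdjoinRoot f0) (Matrix (Fin 2) (Fin 2) _)).injective
        (this.trans (map_zero _).symm))
    choose s hs using h5
    have h6 : ρ γ.1 + 1 = Rep.T (ρ d) (ρ e) s * Polynomial.aeval c f0 := by
      rw [h2, ← Rep.T_one (ρ d) (ρ e), ← Rep.T_add, funext hs, Rep.T_smul]
      have cd := Rep.aeval_comm (Rep.cD hD hE) f0
      have ce := Rep.aeval_comm (Rep.cE hD hE) f0
      have cq : ∀ q, Commute (Polynomial.aeval c f0) (Polynomial.aeval c q) := fun q =>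
        (Commute.all f0 q).map _
      exact ((((cq _).add_right ((cq _).mul_right cd)).add_right ((cq _).mul_right ce)).add_right
        ((cq _).mul_right (cd.mul_right ce))).eq
    have h7 := LinearMap.congr_fun h6 u
    rw [Module.End.mul_apply, hu, map_zero, LinearMap.add_apply, Module.End.one_apply] at h7
    have h8 : u + u = 0 := by
      rw [← two_smul (ZMod 2) u, show (2 : ZMod 2) = 0 from rfl, zero_smul]
    exact add_right_cancel (h7.trans h8.symm)
  have hm : Γ.map (MonoidHom.fst _ _) = closure ({d, e} : Set L) := by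
    rw [MonoidHom.map_closure, Set.image_pair]; rfl
  let π : Γ →* closure ({d, e} : Set L) :=
    ((MonoidHom.fst _ _).comp Γ.subtype).codRestrict _ fun γ => hm ▸ mem_map_of_mem _ γ.2
  have πb : Function.Bijective π := by
    refine ⟨(injective_iff_map_eq_one π).2 fun γ h1 => ?_, fun x => ?_⟩
    · have h2 : γ.1.1 = 1 := congrArg Subtype.val h1
      exact Subtype.ext (Prod.ext h2 (k1 _ γ.2 h2))
    · obtain ⟨γ, h1, h2⟩ : x.1 ∈ Γ.map (MonoidHom.fst _ _) := by rw [hm]; exact x.2
      exact ⟨⟨γ, h1⟩, Subtype.ext h2⟩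
  refine ⟨AdjoinRoot f0, inferInstance, inferInstance, inferInstance,
    ((MonoidHom.snd _ _).comp Γ.subtype).comp (MulEquiv.ofBijective π πb).symm.toMonoidHom,
    fun x hx => ?_⟩
  obtain ⟨γ, rfl⟩ := πb.2 x
  have h1 : γ.1.2 = 1 := by
    have : (MulEquiv.ofBijective π πb).symm (π γ) = γ :=
      (MulEquiv.ofBijective π πb).symm_apply_apply γ
    simpa [this] using hx
  obtain ⟨k, hk⟩ := h.fix _ u hu0 (k2 _ γ.2 h1)
  exact ⟨k, Subtype.ext hk⟩

end Cfsg.Lib.GG
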