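import Cfsg.Agent.Lib.GG.Bas
import Cfsg.Agent.Lib.GG.Aut
import Cfsg.Agent.Lib.CharDeg.SL2McKay

/-!
# Gagola groups (S4841): defining characteristic
-/

set_option autoImplicit false

namespace Cfsg.Lib.GG

open Subgroup
open scoped MatrixGroups

variable {p : ℕ} [Fact p.Prime] {H V : Type*} [Group H] [Finite H] [AddCommGroup V]
  [Module (ZMod p) V] [Finite V] {ρ : Representation (ZMod p) H V}

/-- `p ^ n + q = q u + u` with `q = p ^ a`, `u = p ^ m`: compare `p`-adic valuations. -/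
theorem sq_arith {p a m n : ℕ} (hp : p.Prime) (ha : 1 ≤ a) (hm : 1 ≤ m)
    (h : p ^ n + (p ^ a + 1) = (p ^ a + 1) * p ^ m + 1) : p ^ n = (p ^ a) ^ 2 := by
  have h' : p ^ n + p ^ a = p ^ a * p ^ m + p ^ m := by rw [add_mul, one_mul] at h; omega
  have u2 : 2 ≤ p ^ m := hp.two_le.trans (Nat.le_self_pow (by omega) p)
  have u0 : 0 < p ^ a := pow_pos hp.pos a
  have h1 : a ≤ n := (Nat.pow_le_pow_iff_right hp.one_lt).1 (by nlinarith)
  have h2 : m ≤ n := (Nat.pow_le_pow_iff_right hp.one_lt).1 (by nlinarith)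
  have h3 : p ^ a ∣ p ^ m := (Nat.dvd_add_right (dvd_mul_right _ _)).1
    (h' ▸ dvd_add (pow_dvd_pow p h1) dvd_rfl)
  have h4 : p ^ m ∣ p ^ a := (Nat.dvd_add_right (pow_dvd_pow p h2)).1
    (h' ▸ dvd_add (dvd_mul_left _ _) dvd_rfl)
  rw [← Nat.dvd_antisymm h3 h4] at h'
  rw [sq]
  omega

/-- `SL(2, q)` has `q + 1` Sylow `p`-subgroups; `SP.count`, `Fx.fc_pow`, `card_V`, `sq_arith`. -/
theorem card_sq {F : Type*} [Field F] [Fintype F] {σ : Representation (ZMod p) SL(2, F) V}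
    (h : SP σ) {a : ℕ} (hF : Fintype.card F = p ^ a) : Nat.card V = Fintype.card F ^ 2 := by
  have hp : p.Prime := Fact.out
  have ha : 1 ≤ a := Nat.pos_of_ne_zero fun h0 => by
    have := Fintype.one_lt_card (α := F)
    rw [hF, h0] at this
    simp at this
  obtain ⟨U, hU⟩ := GLTwo.exists_sylow_uniS (F := F) p (hF ▸ dvd_pow_self p (by omega))
  have h1 : Nat.card (Sylow p SL(2, F)) = p ^ a + 1 := by
    rw [Sylow.card_eq_index_normalizer U]
    change (normalizer ((U : Subgroup SL(2, F)) : Set SL(2, F))).index = _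
    rw [hU, GLTwo.normalizer_uniS]
    have h2 := (GLTwo.borS F).index_mul_card
    rw [GLTwo.card_borS, PSL2.card_SL2, Nat.card_eq_fintype_card (α := F), hF] at h2
    obtain ⟨r, hr⟩ : ∃ r, p ^ a = r + 1 := ⟨p ^ a - 1, by have := pow_pos hp.pos a; omega⟩
    have r0 : 0 < r := by have := hp.two_le.trans (Nat.le_self_pow (n := a) (by omega) p); omega
    rw [hr] at h2 ⊢
    refine Nat.eq_of_mul_eq_mul_right (show 0 < (r + 1 - 1) * (r + 1) by simpa using r0) (h2.trans ?_)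
    rw [show (r + 1) ^ 2 - 1 = r * (r + 2) from Nat.sub_eq_of_eq_add (by ring), Nat.add_sub_cancel]
    ring
  obtain ⟨n, hn⟩ := card_V p V
  obtain ⟨m, hm, e⟩ := h.fx.fc_pow U.isPGroup'
  have h3 := h.count U
  rw [h1, hn, e] at h3
  rw [hn, hF]
  exact sq_arith hp ha hm h3

/-- Shape (i).  `card_sq` for `(h.normal S).equiv e.symm`; `|H| = (q² - 1) |P|` (`SP.card_eq`) and
`|S| = q (q² - 1)`, so `S.index` is a power of `p`; `cent_eq` (`|Z(S)| ∣ 2`, trivial for `p = 2`;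
`Z(S).relIndex C = S.relIndex C ∣ S.index`), `cyc_quot`. -/
theorem shape1 (h : SP ρ) (t : Tr ρ) (hO : pCore p H = ⊥) (S : Subgroup H) [S.Normal] {F : Type}
    [Field F] [Fintype F] (e : S ≃* SL(2, F)) {a : ℕ} (hF : Fintype.card F = p ^ a)
    (h4 : 4 ≤ Fintype.card F) : Shape p H := by
  have hp : p.Prime := Fact.out
  have ha : 1 ≤ a := Nat.pos_of_ne_zero fun h0 => by rw [hF, h0] at h4; simp at h4
  have hV := card_sq ((h.normal S).equiv e.symm) hF
  obtain ⟨P⟩ : Nonempty (Sylow p H) := inferInstance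
  obtain ⟨b, hb⟩ := IsPGroup.iff_card.1 P.isPGroup'
  have h1 := h.card_eq t P
  have h2 := S.card_mul_index
  rw [Nat.card_congr e.toEquiv, PSL2.card_SL2, Nat.card_eq_fintype_card (α := F), h1, hV, hb] at h2
  have h3 : S.index ∣ p ^ b := by
    have h0 : 0 < Fintype.card F ^ 2 - 1 := by
      have : 4 ^ 2 ≤ Fintype.card F ^ 2 := Nat.pow_le_pow_left h4 2
      omega
    exact Dvd.intro_left (Fintype.card F) (Nat.eq_of_mul_eq_mul_left h0 (by rw [← h2]; ring))
  obtain ⟨k, -, hk⟩ := (Nat.dvd_prime_pow hp).1 h3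
  have hZ : (center S).map S.subtype = S ⊓ centralizer (S : Set H) := by
    ext z
    constructor
    · rintro ⟨z, hz, rfl⟩
      exact ⟨z.2, fun s hs => congrArg Subtype.val (mem_center_iff.1 hz ⟨s, hs⟩)⟩
    · rintro ⟨hz, hc⟩
      exact ⟨⟨z, hz⟩, mem_center_iff.2 fun s => Subtype.ext (hc s s.2), rfl⟩
  have h5 : ((center S).map S.subtype).relIndex (centralizer (S : Set H)) ∣ p ^ k := by
    rw [hZ, inf_relIndex_right, ← hk]
    exact relIndex_dvd_index_of_normal _ _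
  obtain ⟨j, -, hj⟩ := (Nat.dvd_prime_pow hp).1 h5
  have h6 : (Nat.card (center S)).Coprime p := by
    rw [Nat.card_congr (centerCongr e).toEquiv, Linear.card_center_SL, hF]
    refine Nat.Coprime.coprime_dvd_left (Nat.gcd_dvd_right _ _) ?_
    refine ((Nat.Prime.coprime_iff_not_dvd hp).2 fun h => ?_).symm
    exact hp.one_lt.ne' (Nat.dvd_one.1 ((Nat.dvd_sub_iff_right
      (Nat.one_le_pow _ _ hp.pos) (dvd_pow_self p (by omega))).1 h))
  have h7 := cent_eq hO S hj h6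
  exact Or.inl ⟨F, inferInstance, inferInstance, ⟨a, hF⟩, by omega, S, inferInstance, ⟨e⟩, ⟨k, hk⟩,
    cyc_quot hF h4 S e hk (by rw [h7]; exact map_subtype_le _), h7⟩

end Cfsg.Lib.GG
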