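import Cfsg.Agent.Lib.GG.Def
import Cfsg.Agent.Lib.Core.PCore
import Cfsg.Agent.S4835
import Cfsg.Agent.S4837

/-!
# Gagola groups (S4841): reduction to a linear group
-/

set_option autoImplicit false

namespace Cfsg.Lib.GG

open Subgroup
open scoped MatrixGroups IsMulCommutative

universe u

theorem top_rep {p : ℕ} [Fact p.Prime] {G M : Type*} [Group G] [AddCommGroup M] (h : ∀ x : M, p • x = 0) (φ : G → M →+ M)
    (h1 : ∀ x, φ 1 x = x) (hm : ∀ g h x, φ (g * h) x = φ g (φ h x)) :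
    ∃ (_ : Module (ZMod p) M) (ρ : Representation (ZMod p) G M), ∀ g v, ρ g v = φ g v := by
  obtain ⟨i⟩ : Nonempty (Module (ZMod p) M) := ⟨AddCommGroup.zmodModule h⟩
  let c : G →* Module.End (ZMod p) M :=
    { toFun := fun g => (φ g).toZModLinearMap p, map_one' := LinearMap.ext h1, map_mul' := fun g h => LinearMap.ext (hm g h) }
  exact ⟨i, c, fun _ _ => rfl⟩

/-- `|G| > 2` as `G` is not solvable.  `N`, `p` from S4835 (`N` lies in every nontrivial normal
subgroup, so `O_q(G) ≠ 1` forces `q = p`).  `V = Additive N` (`AddCommGroup.zmodModule`), `G` acts by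
conjugation.  By S4837 `C_G(x)` is a Sylow `p`-subgroup for `1 ≠ x ∈ N`; so `O_p(G)` (inside every
Sylow) centralises `N`, and `C_G(N)` is a normal `p`-subgroup: the kernel is exactly `O_p(G)`
(`QuotientGroup.lift`).  The stabiliser in the quotient is `Sylow.mapSurjective`. -/
theorem setup {G : Type u} [Group G] [Finite G] (hns : ¬ Group.IsSolvable G) (χ : IrrCharacter G)
    (hχ : Nat.card {C : ConjClasses G // ∃ g ∈ C.carrier, (χ : G → ℂ) g ≠ 0} = 2) :
    ∃ (p : ℕ) (_ : Fact p.Prime), (∀ q : ℕ, q.Prime → (pCore q G ≠ ⊥ ↔ q = p)) ∧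
      ∃ (V : Type u) (_ : AddCommGroup V) (_ : Module (ZMod p) V) (_ : Finite V)
        (ρ : Representation (ZMod p) (G ⧸ pCore p G) V),
        SP ρ ∧ Tr ρ ∧ pCore p (G ⧸ pCore p G) = ⊥ ∧ ¬ Group.IsSolvable (G ⧸ pCore p G) := by
  have hG : 2 < Nat.card G := by
    by_contra! l
    have := Nat.card_pos (α := G)
    have : IsCyclic G := by
      rcases (by omega : Nat.card G = 1 ∨ Nat.card G = 2) with e | e
      · have := (Nat.card_eq_one_iff_unique.1 e).1
        infer_instance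
      · exact isCyclic_of_prime_card (p := 2) e
    exact hns inferInstance
  obtain ⟨N, hN, h0, hm, ⟨p, hp, he⟩, hs, tr⟩ := Agent.S4835.result hG χ hχ
  have := Fact.mk hp
  have pN : IsPGroup p N := fun x => ⟨1, Subtype.ext (by simpa using he.2 _ x.2)⟩
  have sy := (Agent.S4837.result hG χ hχ p N (fun g => (hs g).symm) pN h0).1
  have := he.1
  obtain ⟨_, c, hc⟩ := top_rep (p := p) (M := Additive N) (fun x => Subtype.ext (he.2 _ x.toMul.2))
    (fun g : G => MonoidHom.toAdditive (MulAut.conjNormal g : MulAut N).toMonoidHom) (by simp) (by simp)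
  have eq : ∀ {v w : Additive N}, v = w ↔ (v.toMul : G) = w.toMul := ⟨fun e => e ▸ rfl, fun e => Subtype.ext e⟩
  have fx : ∀ g v, c g v = v ↔ g ∈ centralizer {(v.toMul : G)} := fun g v =>
    eq.trans (hc g v ▸ mul_inv_eq_iff_eq_mul.trans mem_centralizer_singleton_iff.symm)
  have st : ∀ v : Additive N, v ≠ 0 → ∃ P : Sylow p G, ∀ g, c g v = v ↔ g ∈ (P : Subgroup G) := fun v hv =>
    let ⟨P, e⟩ := sy _ v.toMul.2 (mt (eq (w := 0)).2 hv)
    ⟨P, fun g => e ▸ fx g v⟩
  obtain ⟨x, hx, x1⟩ := (bot_or_exists_ne_one N).resolve_left h0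
  have nt : (Additive.ofMul ⟨x, hx⟩ : Additive N) ≠ 0 := mt (eq (w := 0)).1 x1
  have k : pCore p G = c.ker := by
    refine le_antisymm (fun g hg => LinearMap.ext fun v => ?_) (Core.le_pCore inferInstance ?_)
    · by_cases hv : v = 0
      · simp [hv]
      · obtain ⟨P, hP⟩ := st v hv
        exact (hP g).2 (Core.pCore_le_sylow P hg)
    · obtain ⟨P, hP⟩ := st _ nt
      exact P.isPGroup'.to_le fun g hg => (hP g).1 (LinearMap.congr_fun hg _)
  have su := QuotientGroup.mk'_surjective (pCore p G)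
  refine ⟨p, ⟨hp⟩, fun q hq => ⟨fun e => ?_, fun e => e ▸ Core.pCore_ne_bot hN pN h0⟩, Additive N, inferInstance, inferInstance,
    inferInstance, QuotientGroup.lift _ c k.le, ⟨fun a b => ?_, ⟨_, nt⟩, fun v hv => ?_⟩, fun v w hv hw => ?_,
    Core.pCore_quotient_pCore p G, fun s => hns ?_⟩
  · have := Fact.mk hq
    by_contra ne
    exact h0 (disjoint_self.1 (IsPGroup.disjoint_of_ne q p ne N N ((Core.pCore_isPGroup q G).to_le (hm _ inferInstance e)) pN))
  · obtain ⟨a, rfl⟩ := su a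
    obtain ⟨b, rfl⟩ := su b
    intro (e : c a = c b)
    refine QuotientGroup.eq.2 (k ▸ (?_ : c _ = 1))
    rw [map_mul, ← e, ← map_mul, inv_mul_cancel, map_one]
  · obtain ⟨P, hP⟩ := st v hv
    refine ⟨P.mapSurjective su, fun h => ?_⟩
    obtain ⟨g, rfl⟩ := su h
    refine (hP g).trans ⟨mem_map_of_mem _, fun ⟨a, ha, e⟩ => ?_⟩
    simpa using mul_mem ha (Core.pCore_le_sylow P (QuotientGroup.eq.1 e))
  · obtain ⟨g, e⟩ := tr _ v.toMul.2 _ w.toMul.2 (mt (eq (w := 0)).2 hv) (mt (eq (w := 0)).2 hw)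
    exact ⟨g, eq.2 ((congrArg _ (hc g v)).trans e)⟩
  · have := (Core.pCore_isPGroup p G).isNilpotent
    exact Group.isSolvable_of_ker_le_range (pCore p G).subtype (QuotientGroup.mk' (pCore p G)) (by simp)

end Cfsg.Lib.GG
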